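import Cfsg.Agent.H217.Prof
import Cfsg.Agent.H73.OddCent
import Cfsg.Agent.OrdDiv.Main
import Cfsg.Agent.Schreier.Basic

/-!
# No group of Lie type of odd characteristic has the profile (helper217, S3191)
-/

set_option autoImplicit false

namespace Cfsg.Agent.H217.Pf

open Subgroup Cfsg Cfsg.Agent.OrdDiv

universe u

/-- a power of two dividing the order of the centralizer -/
theorem Prof.two_dvd {n j : ℕ} {N : Type u} [Group N] [Finite N] {t : N} (P : Prof n j N t) (hn : 3 ≤ n) :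
    16 ∣ Nat.card N := by
  obtain ⟨c, hc, h1⟩ := P.card
  have h2 : (2 : ℕ) ^ 6 ∣ 2 ^ (2 * n) := pow_dvd_pow 2 (by omega)
  have h3 : (2 : ℕ) ^ 4 ∣ (2 * n).factorial := by
    have : (6 : ℕ).factorial ∣ (2 * n).factorial := Nat.factorial_dvd_factorial (by omega)
    exact (show (2 : ℕ) ^ 4 ∣ (6 : ℕ).factorial by decide).trans this
  have h4 : (2 : ℕ) ^ 4 * 2 ^ 2 ∣ Nat.card (centralizer ({t} : Set N)) * 2 ^ j := by
    rw [h1]
    have h5 : (2 : ℕ) ^ 6 * 2 ^ 4 ∣ c * (2 ^ (2 * n) * (2 * n).factorial) := (Nat.mul_dvd_mul h2 h3).mul_left c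
    exact (show (2 : ℕ) ^ 4 * 2 ^ 2 ∣ 2 ^ 6 * 2 ^ 4 by norm_num).trans h5
  have h5 : (2 : ℕ) ^ 4 ∣ Nat.card (centralizer ({t} : Set N)) := by
    rcases P.hj with hj | hj
    · rw [hj, pow_zero, mul_one] at h4
      exact (Dvd.intro _ rfl).trans h4
    · rw [hj] at h4
      exact Nat.dvd_of_mul_dvd_mul_right (by norm_num) h4
  exact h5.trans (Subgroup.card_subgroup_dvd_card _)

theorem three_pow (m : ℕ) : 3 ^ (2 * m + 1) % 16 = 3 ∨ 3 ^ (2 * m + 1) % 16 = 11 := by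
  induction m with
  | zero => left; rfl
  | succ m ih =>
    have h1 : 3 ^ (2 * (m + 1) + 1) = 3 ^ (2 * m + 1) * 9 := by ring
    rw [h1, Nat.mul_mod]
    rcases ih with h | h <;> rw [h] <;> simp

/-- the order of a Ree group of type `²G₂` -/
theorem ree_card (T : OrderTable.{u}) {N : Type u} [Group N] (h : Lie.IsoRee N) : ¬ 16 ∣ Nat.card N := by
  obtain ⟨F, _, _, m, hm, hF, ⟨e⟩⟩ := h
  rw [Nat.card_congr e.toEquiv, T.ree F m hm hF]
  have h1 := three_pow m
  generalize 3 ^ (2 * m + 1) = q at h1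
  intro h2
  have h3 : (q ^ 3 * (q - 1) * (q ^ 3 + 1)) % 16 = 0 := Nat.mod_eq_zero_of_dvd h2
  rcases h1 with h1 | h1
  · obtain ⟨k, rfl⟩ : ∃ k, q = 16 * k + 3 := ⟨q / 16, by omega⟩
    have e1 : (16 * k + 3) ^ 3 % 16 = 11 := by
      have : (16 * k + 3) ^ 3 = 16 * (256 * k ^ 3 + 144 * k ^ 2 + 27 * k + 1) + 11 := by ring
      omega
    have e2 : 16 * k + 3 - 1 = 16 * k + 2 := by omega
    rw [Nat.mul_mod, Nat.mul_mod ((16 * k + 3) ^ 3), e1, e2, Nat.add_mod ((16 * k + 3) ^ 3), e1] at h3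
    have e3 : (16 * k + 2) % 16 = 2 := by omega
    rw [e3] at h3
    exact absurd h3 (by decide)
  · obtain ⟨k, rfl⟩ : ∃ k, q = 16 * k + 11 := ⟨q / 16, by omega⟩
    have e1 : (16 * k + 11) ^ 3 % 16 = 3 := by
      have : (16 * k + 11) ^ 3 = 16 * (256 * k ^ 3 + 528 * k ^ 2 + 363 * k + 83) + 3 := by ring
      omega
    have e2 : 16 * k + 11 - 1 = 16 * k + 10 := by omega
    rw [Nat.mul_mod, Nat.mul_mod ((16 * k + 11) ^ 3), e1, e2, Nat.add_mod ((16 * k + 11) ^ 3), e1] at h3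
    have e3 : (16 * k + 10) % 16 = 10 := by omega
    rw [e3] at h3
    exact absurd h3 (by decide)

/-- **No group of Lie type of odd characteristic.** -/
theorem Prof.not_odd (T : OrderTable.{u}) {n j : ℕ} {N : Type u} [Group N] [Finite N] [IsSimpleGroup N] {t : N}
    (P : Prof n j N t) (hn : 3 ≤ n) {p : ℕ} (hp2 : p ≠ 2) (h : IsLieTypeChar p N) : False := by
  rcases Cfsg.Agent.H73.OC.oddCent hp2 h P.tt with h1 | h1
  · obtain ⟨D, -, hD, hs⟩ := Schreier.Basic.exists_perfect_residual (⊤ : Subgroup (centralizer ({t} : Set N)))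
    have h2 := h1.eq_bot P.comp hD
    have h3 := hs h2
    apply P.nonsolv
    exact Group.isSolvable_of_surjective (f := (Subgroup.topEquiv (G := centralizer ({t} : Set N))).toMonoidHom)
      Subgroup.topEquiv.surjective
  · exact ree_card T h1 (P.two_dvd hn)

end Cfsg.Agent.H217.Pf
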