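import Cfsg.Agent.H217.SP

/-!
# The action of the signed permutations and centralizers of involutions of symmetric groups (helper217, S3191)
-/

set_option autoImplicit false

namespace Cfsg.Agent.H217.Act

open Equiv Cfsg.Agent.H217.SP

section act
variable {ι : Type*}

/-- the flip -/
def fl (ι : Type*) : Perm (ι × ZMod 2) where
  toFun p := (p.1, p.2 + 1)
  invFun p := (p.1, p.2 + 1)
  left_inv p := by
    ext1
    · rfl
    · show p.2 + 1 + 1 = p.2
      rw [add_assoc, CharTwo.add_self_eq_zero, add_zero]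
  right_inv p := by
    ext1
    · rfl
    · show p.2 + 1 + 1 = p.2
      rw [add_assoc, CharTwo.add_self_eq_zero, add_zero]

theorem fl_apply (i : ι) (x : ZMod 2) : fl ι (i, x) = (i, x + 1) := rfl

/-- the action -/
def act (ι : Type*) : W ι →* Perm (ι × ZMod 2) where
  toFun a :=
    { toFun := fun p => (a.s p.1, p.2 + a.v (a.s p.1))
      invFun := fun p => (a.s.symm p.1, p.2 + a.v p.1)
      left_inv := by
        intro p
        ext1
        · show a.s.symm (a.s p.1) = p.1
          rw [symm_apply_apply]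
        · show p.2 + a.v (a.s p.1) + a.v (a.s p.1) = p.2
          rw [add_assoc, CharTwo.add_self_eq_zero, add_zero]
      right_inv := by
        intro p
        ext1
        · show a.s (a.s.symm p.1) = p.1
          rw [apply_symm_apply]
        · show p.2 + a.v p.1 + a.v (a.s (a.s.symm p.1)) = p.2
          rw [apply_symm_apply, add_assoc, CharTwo.add_self_eq_zero, add_zero] }
  map_one' := by
    ext p
    · rfl
    · show p.2 + 0 = p.2
      rw [add_zero]
  map_mul' := by
    intro a b
    ext p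
    · rfl
    · show p.2 + (a.v (a.s (b.s p.1)) + b.v (a.s.symm (a.s (b.s p.1)))) = p.2 + b.v (b.s p.1) + a.v (a.s (b.s p.1))
      rw [symm_apply_apply]
      abel

theorem act_apply (a : W ι) (i : ι) (x : ZMod 2) : act ι a (i, x) = (a.s i, x + a.v (a.s i)) := rfl

theorem act_inj : Function.Injective (act ι) := by
  rw [injective_iff_map_eq_one]
  intro a ha
  have h1 : ∀ i, a.s i = i ∧ a.v (a.s i) = 0 := by
    intro i
    have h2 : act ι a (i, 0) = (i, 0) := by rw [ha]; rfl
    rw [act_apply, zero_add] at h2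
    exact ⟨congrArg Prod.fst h2, congrArg Prod.snd h2⟩
  ext i
  · have h2 := h1 i
    show a.v i = 0
    rw [h2.1] at h2
    exact h2.2
  · exact (h1 i).1

theorem fl_comm (a : W ι) : act ι a * fl ι = fl ι * act ι a := by
  ext p
  · rfl
  · show p.2 + 1 + a.v (a.s p.1) = p.2 + a.v (a.s p.1) + 1
    rw [add_right_comm]

/-- permutations commuting with the flip -/
theorem exists_act {σ : Perm (ι × ZMod 2)} (h : σ * fl ι = fl ι * σ) : ∃ a, act ι a = σ := by
  have h1 : ∀ τ : Perm (ι × ZMod 2), τ * fl ι = fl ι * τ → ∀ i x, τ (i, x + 1) = ((τ (i, x)).1, (τ (i, x)).2 + 1) := by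
    intro τ hτ i x
    have h2 := congrFun (congrArg (fun f : Perm (ι × ZMod 2) => ⇑f) hτ) (i, x)
    exact h2
  have h2 : ∀ τ : Perm (ι × ZMod 2), τ * fl ι = fl ι * τ → ∀ i x, τ (i, x) = ((τ (i, 0)).1, (τ (i, 0)).2 + x) := by
    intro τ hτ i x
    rcases zmod2 x with rfl | rfl
    · rw [add_zero]
    · have h3 := h1 τ hτ i 0
      rw [zero_add] at h3
      exact h3
  have h' : σ⁻¹ * fl ι = fl ι * σ⁻¹ := by
    rw [inv_mul_eq_iff_eq_mul, ← mul_assoc, h, mul_inv_cancel_right]
  let s : Perm ι :=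
    { toFun := fun i => (σ (i, 0)).1
      invFun := fun i => (σ⁻¹ (i, 0)).1
      left_inv := by
        intro i
        have h3 := h2 σ⁻¹ h' (σ (i, 0)).1 (σ (i, 0)).2
        have h4 : σ⁻¹ ((σ (i, 0)).1, (σ (i, 0)).2) = (i, 0) := by
          show σ⁻¹ (σ (i, 0)) = (i, 0)
          exact σ.symm_apply_apply _
        rw [h4] at h3
        exact (congrArg Prod.fst h3).symm
      right_inv := by
        intro i
        have h3 := h2 σ h (σ⁻¹ (i, 0)).1 (σ⁻¹ (i, 0)).2
        have h4 : σ ((σ⁻¹ (i, 0)).1, (σ⁻¹ (i, 0)).2) = (i, 0) := by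
          show σ (σ⁻¹ (i, 0)) = (i, 0)
          exact σ.apply_symm_apply _
        rw [h4] at h3
        exact (congrArg Prod.fst h3).symm }
  refine ⟨⟨fun k => (σ (s.symm k, 0)).2, s⟩, ?_⟩
  apply Equiv.ext
  rintro ⟨i, x⟩
  rw [act_apply, h2 σ h i x]
  ext1
  · rfl
  · show x + (σ (s.symm (s i), 0)).2 = (σ (i, 0)).2 + x
    rw [symm_apply_apply, add_comm]

variable (ι) (r : ℕ)

/-- the standard involution -/
def al : Perm ((ι × ZMod 2) ⊕ Fin r) := Equiv.sumCongr (fl ι) (Equiv.refl (Fin r))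

/-- the centralizer of the standard involution -/
def Phi : W ι × Perm (Fin r) →* Perm ((ι × ZMod 2) ⊕ Fin r) :=
  (Perm.sumCongrHom (ι × ZMod 2) (Fin r)).comp (MonoidHom.prodMap (act ι) (MonoidHom.id (Perm (Fin r))))

theorem Phi_apply (a : W ι) (b : Perm (Fin r)) : Phi ι r (a, b) = Equiv.sumCongr (act ι a) b := rfl

theorem Phi_inj : Function.Injective (Phi ι r) := by
  refine (Perm.sumCongrHom_injective).comp ?_
  rintro ⟨a, b⟩ ⟨a', b'⟩ h
  have h1 : act ι a = act ι a' := congrArg Prod.fst h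
  have h2 : b = b' := congrArg Prod.snd h
  rw [act_inj h1, h2]

variable {ι r}

theorem al_comm (p : W ι × Perm (Fin r)) : Phi ι r p * al ι r = al ι r * Phi ι r p := by
  obtain ⟨a, b⟩ := p
  rw [Phi_apply]
  apply Equiv.ext
  rintro (x | x)
  · have h1 := congrFun (congrArg (fun f : Perm (ι × ZMod 2) => ⇑f) (fl_comm a)) x
    exact congrArg Sum.inl h1
  · rfl

theorem exists_Phi {σ : Perm ((ι × ZMod 2) ⊕ Fin r)} (h : σ * al ι r = al ι r * σ) [Finite ι] : ∃ p, Phi ι r p = σ := by
  have hf := Fintype.ofFinite ι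
  have h0 : ∀ x, σ (al ι r x) = al ι r (σ x) := fun x => congrFun (congrArg (fun f : Perm _ => ⇑f) h) x
  have h1 : Set.MapsTo σ (Set.range Sum.inl) (Set.range Sum.inl) := by
    rintro _ ⟨p, rfl⟩
    rcases hq : σ (Sum.inl p) with q | q
    · exact ⟨q, rfl⟩
    · exfalso
      have h2 := h0 (Sum.inl p)
      rw [hq] at h2
      have h3 : al ι r (Sum.inr q) = Sum.inr q := rfl
      rw [h3, ← hq] at h2
      have h4 := σ.injective h2
      have h5 : al ι r (Sum.inl p) = Sum.inl (p.1, p.2 + 1) := rfl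
      rw [h5] at h4
      have h6 := congrArg Prod.snd (Sum.inl.inj h4)
      have h7 : p.2 + 1 = p.2 := h6
      exact absurd (add_eq_left.1 h7) (by decide)
  obtain ⟨⟨a, b⟩, hab⟩ := Perm.mem_sumCongrHom_range_of_perm_mapsTo_inl h1
  have h2 : Equiv.sumCongr a b = σ := hab
  have h3 : a * fl ι = fl ι * a := by
    apply Equiv.ext
    intro x
    have h4 := h0 (Sum.inl x)
    rw [← h2] at h4
    exact Sum.inl.inj h4
  obtain ⟨w, hw⟩ := exists_act h3
  exact ⟨(w, b), by rw [Phi_apply, hw, h2]⟩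

end act

section conj
variable {X : Type*} [Fintype X] [DecidableEq X]

/-- involutions moving the same number of points are conjugate -/
theorem isConj_of_support {σ τ : Perm X} (hσ : orderOf σ = 2) (hτ : orderOf τ = 2)
    (h : σ.support.card = τ.support.card) : IsConj σ τ := by
  rw [Perm.isConj_iff_cycleType_eq]
  obtain ⟨k, hk⟩ := Perm.cycleType_prime_order (σ := σ) (by rw [hσ]; exact Nat.prime_two)
  obtain ⟨l, hl⟩ := Perm.cycleType_prime_order (σ := τ) (by rw [hτ]; exact Nat.prime_two)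
  have h1 := σ.sum_cycleType
  have h2 := τ.sum_cycleType
  rw [hk, Multiset.sum_replicate, hσ] at h1
  rw [hl, Multiset.sum_replicate, hτ] at h2
  rw [hk, hl, hσ, hτ]
  congr 1
  simp only [smul_eq_mul] at h1 h2
  omega

end conj

section main
variable {ι : Type*} [Fintype ι] [DecidableEq ι] {r : ℕ}

theorem orderOf_al (h : Nonempty ι) : orderOf (al ι r) = 2 := by
  obtain ⟨i⟩ := h
  apply orderOf_eq_prime
  · apply Equiv.ext
    rintro (⟨j, x⟩ | x)
    · show Sum.inl (j, x + 1 + 1) = Sum.inl (j, x)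
      rw [add_assoc, CharTwo.add_self_eq_zero, add_zero]
    · rfl
  · intro h
    have h1 := congrFun (congrArg (fun f : Perm ((ι × ZMod 2) ⊕ Fin r) => ⇑f) h) (Sum.inl (i, 0))
    have h2 : (Sum.inl (i, (0 : ZMod 2) + 1) : (ι × ZMod 2) ⊕ Fin r) = Sum.inl (i, 0) := h1
    have h3 : (0 : ZMod 2) + 1 = 0 := congrArg Prod.snd (Sum.inl.inj h2)
    exact absurd h3 (by decide)

theorem support_al : (al ι r).support.card = 2 * Fintype.card ι := by
  have h1 : (al ι r).support = (Finset.univ : Finset (ι × ZMod 2)).map ⟨Sum.inl, Sum.inl_injective⟩ := by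
    ext x
    rw [Perm.mem_support, Finset.mem_map]
    rcases x with ⟨j, x⟩ | x
    · constructor
      · intro _
        exact ⟨(j, x), Finset.mem_univ _, rfl⟩
      · intro _ h
        have h2 : (Sum.inl (j, x + 1) : (ι × ZMod 2) ⊕ Fin r) = Sum.inl (j, x) := h
        have h3 : x + 1 = x := congrArg Prod.snd (Sum.inl.inj h2)
        exact absurd (add_eq_left.1 h3) (by decide)
    · constructor
      · intro h
        exact absurd rfl h
      · rintro ⟨y, _, hy⟩
        exact absurd hy (by simp)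
  rw [h1, Finset.card_map, Finset.card_univ, Fintype.card_prod, ZMod.card, mul_comm]

end main

end Cfsg.Agent.H217.Act
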