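import Cfsg.Agent.H217.EvenRows
import Cfsg.Agent.H217.OddElim
import Cfsg.Agent.H315.OrderCube

/-!
# The groups of Lie type in characteristic two with the profile: arithmetic (helper217, S3191)
-/

set_option autoImplicit false

namespace Cfsg.Agent.H217.Ev

open Cfsg Cfsg.Agent.OrdDiv Cfsg.Agent.H405.Shape Cfsg.Agent.H217.Pf Subgroup

universe u

/-- the order of `2 wr S_{2n}` -/
def ww (n : ℕ) : ℕ := 2 ^ (2 * n) * (2 * n).factorial

/-- its 2-adic valuation, `n < 64` -/
def vw (n : ℕ) : ℕ := 2 * n + n + n / 2 + n / 4 + n / 8 + n / 16 + n / 32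

/-- the survivors -/
def surv (n j : ℕ) (g : Grp) : Bool :=
  decide ((n, j, g) ∈ [(3, 0, Grp.psl 5 2), (3, 0, Grp.psu 5 2), (4, 0, Grp.psl 6 2), (4, 0, Grp.psu 6 2),
    (5, 0, Grp.psp 3 4), (3, 2, Grp.psp 2 4), (5, 2, Grp.psp 4 2), (6, 2, Grp.psl 5 4), (6, 2, Grp.ominus 5 2)])

/-- the check for a row -/
def chk (n j : ℕ) (R : Row) : Bool :=
  (List.range 20).all fun k =>
    Nat.beq (R.N k) 0 || (!(Nat.beq ((vw n - j) % R.N k) 0)) ||
      (!(Nat.beq ((2 ^ vw n * R.F k (2 ^ ((vw n - j) / R.N k))) % (R.den k (2 ^ ((vw n - j) / R.N k)) * ww n)) 0)) ||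
      surv n j (R.g k (2 ^ ((vw n - j) / R.N k)))

set_option maxRecDepth 100000 in
theorem chk_all : ((List.range 42).all fun n => Nat.blt n 3 ||
    (rows.all (fun R => chk n 0 R) && rows.all (fun R => chk n 2 R))) = true := by decide +kernel

theorem vw_all : ((List.range 42).all fun n =>
    Nat.beq (ww n % 2 ^ vw n) 0 && Nat.beq ((ww n / 2 ^ vw n) % 2) 1 && Nat.ble (vw n) 161 &&
      (Nat.blt n 3 || Nat.ble 2 (vw n))) = true := by decide +kernel

/-- the ranks are bounded -/
theorem rank_lt : ∀ R ∈ rows, ∀ k, 0 < R.N k → R.N k ≤ 161 → k < 20 := by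
  have h1 : ∀ k, k * (k - 1) / 2 ≤ 161 → k < 20 := by
    intro k hk
    by_contra hlt
    push Not at hlt
    have : 20 * 19 ≤ k * (k - 1) := Nat.mul_le_mul hlt (by omega)
    omega
  have h2 : ∀ k, k * (k - 1) ≤ 161 → k < 20 := by
    intro k hk
    by_contra hlt
    push Not at hlt
    have : 20 * 19 ≤ k * (k - 1) := Nat.mul_le_mul hlt (by omega)
    omega
  have h3 : ∀ k, k ^ 2 ≤ 161 → k < 20 := by
    intro k hk
    by_contra hlt
    push Not at hlt
    have : 20 ^ 2 ≤ k ^ 2 := Nat.pow_le_pow_left hlt 2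
    omega
  have h4 : ∀ (g : ℕ → Grp) (N : ℕ) (F den : ℕ → ℕ) (k : ℕ), 0 < (one g N F den).N k → k < 20 := by
    intro g N F den k hk
    by_contra hlt
    have h0 : (one g N F den).N k = 0 := by
      show (if k = 0 then N else 0) = 0
      rw [if_neg (by omega)]
    omega
  intro R hR k hk hk2
  simp only [rows, List.mem_cons, List.not_mem_nil, or_false] at hR
  rcases hR with rfl | rfl | rfl | rfl | rfl | rfl | rfl | rfl | rfl | rfl | rfl | rfl | rfl | rfl
  · exact h1 k hk2
  · exact h3 k hk2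
  · exact h1 k hk2
  · refine h2 k ?_
    by_cases h4 : 4 ≤ k
    · have h5 : (if 4 ≤ k then k * (k - 1) else 0) ≤ 161 := hk2
      rwa [if_pos h4] at h5
    · have : k * (k - 1) ≤ 3 * 3 := Nat.mul_le_mul (by omega) (by omega)
      omega
  · refine h2 k ?_
    by_cases h4 : 4 ≤ k
    · have h5 : (if 4 ≤ k then k * (k - 1) else 0) ≤ 161 := hk2
      rwa [if_pos h4] at h5
    · have : k * (k - 1) ≤ 3 * 3 := Nat.mul_le_mul (by omega) (by omega)
      omega
  all_goals exact h4 _ _ _ _ k hk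

/-- the equation for the order -/
theorem card_eq {n j : ℕ} {N : Type u} [Group N] [Finite N] {t : N} (P : Prof n j N t) :
    ∃ b, Odd b ∧ Nat.card N * 2 ^ j = ww n * b := by
  obtain ⟨c, hc, h1⟩ := P.card
  refine ⟨c * (centralizer ({t} : Set N)).index, ?_, ?_⟩
  · refine Nat.odd_mul.2 ⟨?_, ?_⟩
    · rcases hc with rfl | rfl <;> decide
    · have := P.odd
      rwa [← Nat.not_even_iff_odd, even_iff_two_dvd]
  · rw [← Subgroup.card_mul_index (centralizer ({t} : Set N))]
    calc Nat.card (centralizer ({t} : Set N)) * (centralizer ({t} : Set N)).index * 2 ^ j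
        = (Nat.card (centralizer ({t} : Set N)) * 2 ^ j) * (centralizer ({t} : Set N)).index := by ring
      _ = _ := by rw [h1]; unfold ww; ring

theorem big (n : ℕ) (hn : 42 ≤ n) : 2 ^ (10 * n) ≤ (2 * n).factorial := by
  induction n, hn using Nat.le_induction with
  | base => decide +kernel
  | succ n hn ih =>
    have h1 : (2 * (n + 1)).factorial = (2 * n + 2) * ((2 * n + 1) * (2 * n).factorial) := by
      rw [show 2 * (n + 1) = (2 * n + 1) + 1 by ring, Nat.factorial_succ, Nat.factorial_succ]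
    have h2 : 2 ^ (10 * (n + 1)) = 32 * (32 * 2 ^ (10 * n)) := by
      rw [show 10 * (n + 1) = 10 * n + 10 by ring, pow_add]
      ring
    rw [h1, h2]
    exact Nat.mul_le_mul (by omega) (Nat.mul_le_mul (by omega) ih)

/-- **The bound** for `n`. -/
theorem le_of_even {n j : ℕ} {N : Type u} [Group N] [Finite N] {t : N} (P : Prof n j N t)
    (h : IsLieTypeChar 2 N) : n ≤ 41 := by
  by_contra hlt
  push Not at hlt
  obtain ⟨b, hb, hc⟩ := card_eq P
  have h1 := H315.OrderCube.card_lt_cube Nat.prime_two h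
  set V := (Nat.card N).factorization 2 with hV
  have hN0 : Nat.card N ≠ 0 := Nat.card_pos.ne'
  have h2 : 2 ^ V ∣ Nat.card N := Nat.ordProj_dvd _ _
  -- `2 ^ V ∣ ww n`
  have h3 : 2 ^ V ∣ ww n := by
    have h4 : 2 ^ V ∣ ww n * b := by rw [← hc]; exact h2.mul_right _
    exact Nat.Coprime.dvd_of_dvd_mul_right (Nat.Coprime.pow_left V (Nat.coprime_two_left.2 hb)) h4
  have h4 : V ≤ 4 * n - 1 := by
    by_contra hcon
    push Not at hcon
    have h5 : 2 ^ (2 * n) * 2 ^ (2 * n) ∣ 2 ^ (2 * n) * (2 * n).factorial := by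
      rw [← pow_add]
      exact (pow_dvd_pow 2 (by omega)).trans h3
    have h6 : 2 ^ (2 * n) ∣ (2 * n).factorial := Nat.dvd_of_mul_dvd_mul_left (by positivity) h5
    have h7 := Nat.emultiplicity_two_factorial_lt (n := 2 * n) (by omega)
    exact (lt_irrefl _ (h7.trans_le (le_emultiplicity_of_pow_dvd h6)))
  have h5 : Nat.card N < 2 ^ (12 * n - 3) := by
    refine h1.trans_le ?_
    rw [← pow_mul]
    exact Nat.pow_le_pow_right (by norm_num) (by omega)
  have h6 : ww n ≤ Nat.card N * 4 := by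
    have h7 : ww n ≤ ww n * b := Nat.le_mul_of_pos_right _ hb.pos
    refine h7.trans ?_
    rw [← hc]
    apply Nat.mul_le_mul_left
    rcases P.hj with hj | hj <;> rw [hj] <;> norm_num
  have h7 := big n (by omega)
  have h8 : 2 ^ (12 * n) ≤ ww n := by
    unfold ww
    rw [show 12 * n = 2 * n + 10 * n by ring, pow_add]
    exact Nat.mul_le_mul_left _ h7
  have h9 : 2 ^ (12 * n) = 2 ^ (12 * n - 3) * 8 := by
    rw [show (8 : ℕ) = 2 ^ 3 by norm_num, ← pow_add]
    congr 1
    omega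
  have h10 : 0 < 2 ^ (12 * n - 3) := by positivity
  omega

/-- uniqueness of the 2-part -/
theorem two_part {a b x y : ℕ} (ha : Odd a) (hb : Odd b) (h : 2 ^ x * a = 2 ^ y * b) : x = y := by
  rcases lt_trichotomy x y with h1 | h1 | h1
  · exfalso
    obtain ⟨d, rfl⟩ : ∃ d, y = x + (d + 1) := ⟨y - x - 1, by omega⟩
    rw [pow_add, mul_assoc] at h
    have h2 := Nat.eq_of_mul_eq_mul_left (by positivity) h
    rw [h2, pow_succ, mul_assoc, mul_left_comm] at ha
    exact (Nat.not_even_iff_odd.2 ha) (even_two_mul _)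
  · exact h1
  · exfalso
    obtain ⟨d, rfl⟩ : ∃ d, x = y + (d + 1) := ⟨x - y - 1, by omega⟩
    rw [pow_add, mul_assoc] at h
    have h2 := Nat.eq_of_mul_eq_mul_left (by positivity) h
    rw [← h2, pow_succ, mul_assoc, mul_left_comm] at hb
    exact (Nat.not_even_iff_odd.2 hb) (even_two_mul _)

/-- **The survivors in characteristic two.** -/
theorem survivors (T : OrderTable.{u}) {n j : ℕ} {N : Type u} [Group N] [Finite N] {t : N} (P : Prof n j N t)
    (hn : 3 ≤ n) (h : IsLieTypeChar 2 N) : ∃ g, surv n j g = true ∧ Real g N := by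
  have hn41 := le_of_even P h
  obtain ⟨b, hb, hc⟩ := card_eq P
  obtain ⟨R, hR, k, q, hq, hpos, hreal, hodd, hpp, hcop, heq⟩ := exists_row T h
  have hall := chk_all
  rw [List.all_eq_true] at hall
  have h1 := hall n (List.mem_range.2 (by omega))
  rw [Bool.or_eq_true, Nat.blt_eq] at h1
  have h1' := h1.resolve_left (by omega)
  rw [Bool.and_eq_true, List.all_eq_true, List.all_eq_true] at h1'
  have hchk : chk n j R = true := by
    rcases P.hj with hj | hj
    · rw [hj]; exact h1'.1 R hR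
    · rw [hj]; exact h1'.2 R hR
  have hv := vw_all
  rw [List.all_eq_true] at hv
  have hv1 := hv n (List.mem_range.2 (by omega))
  rw [Bool.and_eq_true, Bool.and_eq_true, Bool.and_eq_true, Nat.beq_eq, Nat.beq_eq, Nat.ble_eq, Bool.or_eq_true,
    Nat.ble_eq, Nat.blt_eq] at hv1
  obtain ⟨⟨⟨v1, v2⟩, v3⟩, v4⟩ := hv1
  have v4' : 2 ≤ vw n := v4.resolve_left (by omega)
  obtain ⟨w', hw'⟩ := Nat.dvd_of_mod_eq_zero v1
  have hw'o : Odd w' := by
    rw [hw', Nat.mul_div_cancel_left _ (by positivity)] at v2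
    exact Nat.odd_iff.2 v2
  have hj2 : j ≤ 2 := by rcases P.hj with hj | hj <;> omega
  -- the order
  have hcard : Nat.card N = 2 ^ (vw n - j) * (w' * b) := by
    have h2 : Nat.card N * 2 ^ j = (2 ^ (vw n - j) * (w' * b)) * 2 ^ j := by
      rw [hc, hw']
      have h3 : 2 ^ vw n = 2 ^ (vw n - j) * 2 ^ j := by
        rw [← pow_add]; congr 1; omega
      rw [h3]; ring
    exact Nat.eq_of_mul_eq_mul_right (by positivity) h2
  -- `q` is a power of two
  obtain ⟨f, hf⟩ : ∃ f, q = 2 ^ f := by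
    obtain ⟨p, f, hp, hf, hpf⟩ := hpp
    have h2 : 2 ∣ p ^ f := by rw [hpf]; exact even_iff_two_dvd.1 hq
    have h3 : 2 ∣ p := Nat.prime_two.dvd_of_dvd_pow h2
    have h4 : 2 = p := (Nat.prime_dvd_prime_iff_eq Nat.prime_two hp.nat_prime).1 h3
    exact ⟨f, by rw [← hpf, h4]⟩
  have hden : Odd (R.den k q) := by
    have h2 : Nat.Coprime (R.den k q) 2 := Nat.Coprime.coprime_dvd_right (even_iff_two_dvd.1 hq) hcop
    exact Nat.coprime_two_right.1 h2
  have hfe : f * R.N k = vw n - j := by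
    rw [hcard, hf, ← pow_mul] at heq
    rw [hf] at hodd hden
    refine (two_part (a := R.den k (2 ^ f) * (w' * b)) (b := R.F k (2 ^ f)) ?_ hodd ?_).symm
    · exact Nat.odd_mul.2 ⟨hden, Nat.odd_mul.2 ⟨hw'o, hb⟩⟩
    · rw [← heq]; ring
  have hkN : R.N k ≤ 161 := by
    have hf1 : 1 ≤ f := by
      rcases Nat.eq_zero_or_pos f with h0 | h0
      · rw [h0, pow_zero] at hf
        rw [hf] at hq
        exact absurd hq (by decide)
      · exact h0
    have : 1 * R.N k ≤ f * R.N k := Nat.mul_le_mul_right _ hf1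
    omega
  have hk20 := rank_lt R hR k hpos hkN
  unfold chk at hchk
  rw [List.all_eq_true] at hchk
  have h5 := hchk k (List.mem_range.2 hk20)
  have hdiv : (vw n - j) / R.N k = f := by rw [← hfe, Nat.mul_div_cancel _ hpos]
  rw [hdiv, ← hf] at h5
  refine ⟨R.g k q, ?_, hreal⟩
  rw [Bool.or_eq_true, Bool.or_eq_true, Bool.or_eq_true, Nat.beq_eq, Bool.not_eq_true', Bool.not_eq_true'] at h5
  rcases h5 with ((h5 | h5) | h5) | h5
  · omega
  · exfalso
    have : Nat.beq ((vw n - j) % R.N k) 0 = true := by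
      rw [Nat.beq_eq, ← hfe, Nat.mul_mod_left]
    rw [this] at h5
    exact absurd h5 (by decide)
  · exfalso
    have h6 : R.den k q * ww n ∣ 2 ^ vw n * R.F k q := by
      refine ⟨b, ?_⟩
      calc 2 ^ vw n * R.F k q = (2 ^ (vw n - j) * R.F k q) * 2 ^ j := by
            have h3 : 2 ^ vw n = 2 ^ (vw n - j) * 2 ^ j := by
              rw [← pow_add]; congr 1; omega
            rw [h3]; ring
        _ = (q ^ R.N k * R.F k q) * 2 ^ j := by rw [hf, ← pow_mul, hfe]
        _ = R.den k q * (Nat.card N * 2 ^ j) := by rw [← heq]; ring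
        _ = R.den k q * ww n * b := by rw [hc]; ring
    have h7 : Nat.beq ((2 ^ vw n * R.F k q) % (R.den k q * ww n)) 0 = true := by
      rw [Nat.beq_eq]
      exact Nat.mod_eq_zero_of_dvd h6
    rw [h7] at h5
    exact absurd h5 (by decide)
  · exact h5

end Cfsg.Agent.H217.Ev
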