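import Cfsg.Agent.H405.Shape
import Cfsg.Agent.H816.TwoOrd

/-!
# The orders of the groups of Lie type in characteristic two as rows of a table (helper217, S3191)
-/

set_option autoImplicit false

namespace Cfsg.Agent.H217.Ev

open Cfsg Cfsg.Agent.OrdDiv Cfsg.Agent.H405.Shape Cfsg.Agent.H816.TwoOrd

universe u

/-- a product in a form which computes -/
def pr (f : ℕ → ℕ) : ℕ → ℕ
  | 0 => 1
  | n + 1 => pr f n * f n

theorem pr_eq (f : ℕ → ℕ) (n : ℕ) : ∏ i ∈ Finset.range n, f i = pr f n := by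
  induction n with
  | zero => rfl
  | succ n ih => rw [Finset.prod_range_succ, ih]; rfl

theorem odd_pr {f : ℕ → ℕ} {n : ℕ} (h : ∀ i, i < n → Odd (f i)) : Odd (pr f n) := by
  induction n with
  | zero => exact odd_one
  | succ n ih => exact Nat.odd_mul.2 ⟨ih fun i hi => h i (by omega), h n (by omega)⟩

/-- a row of the table -/
structure Row where
  /-- the name -/
  g : ℕ → ℕ → Grp
  /-- the number of positive roots -/
  N : ℕ → ℕ
  /-- the odd part -/
  F : ℕ → ℕ → ℕ
  /-- the denominator -/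
  den : ℕ → ℕ → ℕ

/-- a row without rank -/
def one (g : ℕ → Grp) (N : ℕ) (F den : ℕ → ℕ) : Row :=
  ⟨fun _ => g, fun k => if k = 0 then N else 0, fun _ => F, fun _ => den⟩

/-- the rows -/
def rows : List Row :=
  [⟨fun k q => .psl k q, fun k => k * (k - 1) / 2, fun k q => pr (fun i => q ^ (i + 1) - 1) k,
      fun k q => Nat.gcd k (q - 1) * (q - 1)⟩,
   ⟨fun k q => .psp k q, fun k => k ^ 2, fun k q => pr (fun i => q ^ (2 * (i + 1)) - 1) k,
      fun _ q => Nat.gcd 2 (q - 1)⟩,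
   ⟨fun k q => .psu k q, fun k => k * (k - 1) / 2,
      fun k q => pr (fun i => if Even i then q ^ (i + 1) + 1 else q ^ (i + 1) - 1) k,
      fun k q => Nat.gcd k (q + 1) * (q + 1)⟩,
   ⟨fun k q => .oplus k q, fun k => if 4 ≤ k then k * (k - 1) else 0,
      fun k q => (q ^ k - 1) * pr (fun i => q ^ (2 * (i + 1)) - 1) (k - 1), fun k q => Nat.gcd 4 (q ^ k - 1)⟩,
   ⟨fun k q => .ominus k q, fun k => if 4 ≤ k then k * (k - 1) else 0,
      fun k q => (q ^ k + 1) * pr (fun i => q ^ (2 * (i + 1)) - 1) (k - 1), fun k q => Nat.gcd 4 (q ^ k + 1)⟩,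
   one .g2 6 (fun q => (q ^ 2 - 1) * (q ^ 6 - 1)) (fun _ => 1),
   one .f4 24 (fun q => (q ^ 2 - 1) * (q ^ 6 - 1) * (q ^ 8 - 1) * (q ^ 12 - 1)) (fun _ => 1),
   one .e6 36 (fun q => (q ^ 2 - 1) * (q ^ 5 - 1) * (q ^ 6 - 1) * (q ^ 8 - 1) * (q ^ 9 - 1) * (q ^ 12 - 1))
     (fun q => Nat.gcd 3 (q - 1)),
   one .e7 63 (fun q => (q ^ 2 - 1) * (q ^ 6 - 1) * (q ^ 8 - 1) * (q ^ 10 - 1) * (q ^ 12 - 1) * (q ^ 14 - 1) *
        (q ^ 18 - 1)) (fun q => Nat.gcd 2 (q - 1)),
   one .e8 120 (fun q => (q ^ 2 - 1) * (q ^ 8 - 1) * (q ^ 12 - 1) * (q ^ 14 - 1) * (q ^ 18 - 1) * (q ^ 20 - 1) *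
        (q ^ 24 - 1) * (q ^ 30 - 1)) (fun _ => 1),
   one .te6 36 (fun q => (q ^ 2 - 1) * (q ^ 5 + 1) * (q ^ 6 - 1) * (q ^ 8 - 1) * (q ^ 9 + 1) * (q ^ 12 - 1))
     (fun q => Nat.gcd 3 (q + 1)),
   one .td4 12 (fun q => (q ^ 2 - 1) * (q ^ 6 - 1) * (q ^ 8 + q ^ 4 + 1)) (fun _ => 1),
   one .sz 2 (fun q => (q - 1) * (q ^ 2 + 1)) (fun _ => 1),
   one .tf4 12 (fun q => (q - 1) * (q ^ 3 + 1) * (q ^ 4 - 1) * (q ^ 6 + 1)) (fun _ => 1)]

/-- what a row says about a group -/
structure Fits (S : Type u) [Group S] (R : Row) (k q : ℕ) : Prop where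
  even : Even q
  pos : 0 < R.N k
  real : Real (R.g k q) S
  odd : Odd (R.F k q)
  lie : LieOrd (R.den k q) (R.N k) (R.F k q) q (Nat.card S)

theorem odd_sub {q k : ℕ} (hq : Even q) (h0 : 0 < q) (hk : k ≠ 0) : Odd (q ^ k - 1) := by
  have h1 : Even (q ^ k) := (Nat.even_pow' hk).2 hq
  have h2 : 1 ≤ q ^ k := Nat.one_le_pow _ _ h0
  obtain ⟨a, ha⟩ := h1
  exact ⟨a - 1, by omega⟩

theorem odd_add {q k : ℕ} (hq : Even q) (hk : k ≠ 0) : Odd (q ^ k + 1) :=
  ((Nat.even_pow' hk).2 hq).add_one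

theorem even_of {F : Type} [Field F] [Fintype F] [CharP F 2] : Even (Fintype.card F) :=
  even_iff_two_dvd.2 dvd_card_field

theorem odd_mul {a b : ℕ} (ha : Odd a) (hb : Odd b) : Odd (a * b) := Nat.odd_mul.2 ⟨ha, hb⟩

/-- **The table.** -/
theorem exists_row (T : OrderTable.{u}) {S : Type u} [Group S] (h : IsLieTypeChar 2 S) :
    ∃ R ∈ rows, ∃ k q, Fits S R k q := by
  rcases h with h | h | h | h | h | h | h | h | h | h | h
  · obtain ⟨F, _, _, _, n, hn, hn2, ⟨e⟩⟩ := h
    have h1 := psl_ord (F := F) hn hn2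
    have hq := even_of (F := F)
    refine ⟨_, List.mem_cons_self, n, Fintype.card F, hq, ?_,
      ⟨F, inferInstance, inferInstance, rfl, ⟨e⟩⟩, ?_, ?_⟩
    · show 0 < n * (n - 1) / 2
      have : 2 * 1 ≤ n * (n - 1) := Nat.mul_le_mul hn (by omega)
      omega
    · exact odd_pr fun i _ => odd_sub hq Fintype.card_pos (by omega)
    · rw [Nat.card_congr e.toEquiv]
      have h2 := h1.2.2
      rw [pr_eq] at h2
      exact h2
  · obtain ⟨F, _, _, _, n, hn, hn2, ⟨e⟩⟩ := h
    have h1 := psp_ord (F := F) hn hn2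
    have hq := even_of (F := F)
    refine ⟨_, List.mem_cons_of_mem _ List.mem_cons_self, n, Fintype.card F, hq, ?_,
      ⟨F, inferInstance, inferInstance, rfl, ⟨e⟩⟩, ?_, ?_⟩
    · show 0 < n ^ 2
      positivity
    · exact odd_pr fun i _ => odd_sub hq Fintype.card_pos (by omega)
    · rw [Nat.card_congr e.toEquiv]
      have h2 := h1.2.2
      rw [pr_eq] at h2
      exact h2
  · obtain ⟨F, _, _, _, n, q, hF, hn, hn2, ⟨e⟩⟩ := h
    have h1 := psu_ord (F := F) hF hn hn2
    have hq : Even q := by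
      have h3 := even_of (F := F)
      rw [hF] at h3
      exact (Nat.even_pow' (by norm_num)).1 h3
    have hq0 : 0 < q := h1.2.2.pp.pos
    refine ⟨_, List.mem_cons_of_mem _ (List.mem_cons_of_mem _ List.mem_cons_self), n, q, hq, ?_,
      ⟨F, inferInstance, inferInstance, hF, ⟨e⟩⟩, ?_, ?_⟩
    · show 0 < n * (n - 1) / 2
      have : 3 * 2 ≤ n * (n - 1) := Nat.mul_le_mul hn (by omega)
      omega
    · refine odd_pr fun i _ => ?_
      split_ifs
      · exact odd_add hq (by omega)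
      · exact odd_sub hq hq0 (by omega)
    · rw [Nat.card_congr e.toEquiv]
      have h2 := h1.2.2
      rw [pr_eq] at h2
      exact h2
  · exfalso
    obtain ⟨F, _, _, _, n, hn, ho, ⟨e⟩⟩ := h
    exact (Nat.not_even_iff_odd.2 ho) (even_of (F := F))
  · obtain ⟨F, _, _, _, n, hn, ⟨e⟩⟩ := h
    have h1 := oplus_ord (F := F) hn
    have hq := even_of (F := F)
    refine ⟨_, List.mem_cons_of_mem _ (List.mem_cons_of_mem _ (List.mem_cons_of_mem _ List.mem_cons_self)), n,
      Fintype.card F, hq, ?_, ⟨F, inferInstance, inferInstance, rfl, ⟨e⟩⟩, ?_, ?_⟩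
    · show 0 < if 4 ≤ n then n * (n - 1) else 0
      rw [if_pos hn]
      exact Nat.mul_pos (by omega) (by omega)
    · exact odd_mul (odd_sub hq Fintype.card_pos (by omega))
        (odd_pr fun i _ => odd_sub hq Fintype.card_pos (by omega))
    · rw [Nat.card_congr e.toEquiv]
      have h2 := h1.2
      rw [pr_eq] at h2
      show LieOrd _ (if 4 ≤ n then n * (n - 1) else 0) _ _ _
      rw [if_pos hn]
      exact h2
  · obtain ⟨F, _, _, _, n, a, b, hn, hab, ⟨e⟩⟩ := h
    have h1 := ominus_ord (F := F) hn hab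
    have hq := even_of (F := F)
    refine ⟨_, List.mem_cons_of_mem _ (List.mem_cons_of_mem _ (List.mem_cons_of_mem _ (List.mem_cons_of_mem _
      List.mem_cons_self))), n,
      Fintype.card F, hq, ?_, ⟨F, inferInstance, inferInstance, a, b, rfl, hab, ⟨e⟩⟩, ?_, ?_⟩
    · show 0 < if 4 ≤ n then n * (n - 1) else 0
      rw [if_pos hn]
      exact Nat.mul_pos (by omega) (by omega)
    · exact odd_mul (odd_add hq (by omega))
        (odd_pr fun i _ => odd_sub hq Fintype.card_pos (by omega))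
    · rw [Nat.card_congr e.toEquiv]
      have h2 := h1.2
      rw [pr_eq] at h2
      show LieOrd _ (if 4 ≤ n then n * (n - 1) else 0) _ _ _
      rw [if_pos hn]
      exact h2
  · obtain ⟨F, _, _, _, h⟩ := h
    have hpp : IsPrimePow (Fintype.card F) := Fintype.isPrimePow_card_of_field
    have hq := even_of (F := F)
    have hq0 : 0 < Fintype.card F := Fintype.card_pos
    rcases h with ⟨hq3, ⟨e⟩⟩ | ⟨⟨e⟩⟩ | ⟨⟨e⟩⟩ | ⟨⟨e⟩⟩ | ⟨⟨e⟩⟩
    · refine ⟨one .g2 6 (fun q => (q ^ 2 - 1) * (q ^ 6 - 1)) (fun _ => 1), by simp [rows], 0, Fintype.card F, hq,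
        (by norm_num [one]), ⟨F, inferInstance, inferInstance, rfl, ⟨e⟩⟩, ?_, hpp, Nat.coprime_one_left _, ?_⟩
      · exact odd_mul (odd_sub hq hq0 (by omega)) (odd_sub hq hq0 (by omega))
      · rw [Nat.card_congr e.toEquiv, T.g2 F]
        simp only [one, if_true]
        ring
    · refine ⟨one .f4 24 (fun q => (q ^ 2 - 1) * (q ^ 6 - 1) * (q ^ 8 - 1) * (q ^ 12 - 1)) (fun _ => 1),
        by simp [rows], 0, Fintype.card F, hq,
        (by norm_num [one]), ⟨F, inferInstance, inferInstance, rfl, ⟨e⟩⟩, ?_, hpp, Nat.coprime_one_left _, ?_⟩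
      · exact odd_mul (odd_mul (odd_mul (odd_sub hq hq0 (by omega)) (odd_sub hq hq0 (by omega)))
          (odd_sub hq hq0 (by omega))) (odd_sub hq hq0 (by omega))
      · rw [Nat.card_congr e.toEquiv, T.f4 F _ rfl]
        simp only [one, if_true]
        ring
    · have h0 := cop_sub (q := Fintype.card F) (k := 1) Fintype.card_pos le_rfl
      rw [pow_one] at h0
      refine ⟨one .e6 36 (fun q => (q ^ 2 - 1) * (q ^ 5 - 1) * (q ^ 6 - 1) * (q ^ 8 - 1) * (q ^ 9 - 1) * (q ^ 12 - 1))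
        (fun q => Nat.gcd 3 (q - 1)),
        by simp [rows], 0, Fintype.card F, hq,
        (by norm_num [one]), ⟨F, inferInstance, inferInstance, rfl, ⟨e⟩⟩, ?_, hpp,
        Nat.Coprime.coprime_dvd_left (Nat.gcd_dvd_right _ _) h0, ?_⟩
      · exact odd_mul (odd_mul (odd_mul (odd_mul (odd_mul (odd_sub hq hq0 (by omega)) (odd_sub hq hq0 (by omega)))
          (odd_sub hq hq0 (by omega))) (odd_sub hq hq0 (by omega))) (odd_sub hq hq0 (by omega)))
          (odd_sub hq hq0 (by omega))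
      · rw [Nat.card_congr e.toEquiv]
        simp only [one, if_true]
        rw [T.e6 F _ rfl]
        ring
    · have h0 := cop_sub (q := Fintype.card F) (k := 1) Fintype.card_pos le_rfl
      rw [pow_one] at h0
      refine ⟨one .e7 63 (fun q => (q ^ 2 - 1) * (q ^ 6 - 1) * (q ^ 8 - 1) * (q ^ 10 - 1) * (q ^ 12 - 1) *
        (q ^ 14 - 1) * (q ^ 18 - 1)) (fun q => Nat.gcd 2 (q - 1)),
        by simp [rows], 0, Fintype.card F, hq,
        (by norm_num [one]), ⟨F, inferInstance, inferInstance, rfl, ⟨e⟩⟩, ?_, hpp,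
        Nat.Coprime.coprime_dvd_left (Nat.gcd_dvd_right _ _) h0, ?_⟩
      · exact odd_mul (odd_mul (odd_mul (odd_mul (odd_mul (odd_mul (odd_sub hq hq0 (by omega))
          (odd_sub hq hq0 (by omega))) (odd_sub hq hq0 (by omega))) (odd_sub hq hq0 (by omega)))
          (odd_sub hq hq0 (by omega))) (odd_sub hq hq0 (by omega))) (odd_sub hq hq0 (by omega))
      · rw [Nat.card_congr e.toEquiv]
        simp only [one, if_true]
        rw [T.e7 F _ rfl]
        ring
    · refine ⟨one .e8 120 (fun q => (q ^ 2 - 1) * (q ^ 8 - 1) * (q ^ 12 - 1) * (q ^ 14 - 1) * (q ^ 18 - 1) *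
        (q ^ 20 - 1) * (q ^ 24 - 1) * (q ^ 30 - 1)) (fun _ => 1),
        by simp [rows], 0, Fintype.card F, hq,
        (by norm_num [one]), ⟨F, inferInstance, inferInstance, rfl, ⟨e⟩⟩, ?_, hpp, Nat.coprime_one_left _, ?_⟩
      · exact odd_mul (odd_mul (odd_mul (odd_mul (odd_mul (odd_mul (odd_mul (odd_sub hq hq0 (by omega))
          (odd_sub hq hq0 (by omega))) (odd_sub hq hq0 (by omega))) (odd_sub hq hq0 (by omega)))
          (odd_sub hq hq0 (by omega))) (odd_sub hq hq0 (by omega))) (odd_sub hq hq0 (by omega)))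
          (odd_sub hq hq0 (by omega))
      · rw [Nat.card_congr e.toEquiv, T.e8 F _ rfl]
        simp only [one, if_true]
        ring
  · obtain ⟨F, _, _, _, q, hpp, h⟩ := h
    have hq0 : 0 < q := hpp.pos
    rcases h with ⟨hF, ⟨e⟩⟩ | ⟨hF, ⟨e⟩⟩
    · have hq : Even q := by
        have h3 := even_of (F := F)
        rw [hF] at h3
        exact (Nat.even_pow' (by norm_num)).1 h3
      have h0 := cop_add (q := q) (k := 1) le_rfl
      rw [pow_one] at h0
      refine ⟨one .te6 36 (fun q => (q ^ 2 - 1) * (q ^ 5 + 1) * (q ^ 6 - 1) * (q ^ 8 - 1) * (q ^ 9 + 1) *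
        (q ^ 12 - 1)) (fun q => Nat.gcd 3 (q + 1)),
        by simp [rows], 0, q, hq,
        (by norm_num [one]), ⟨F, inferInstance, inferInstance, hF, ⟨e⟩⟩, ?_, hpp,
        Nat.Coprime.coprime_dvd_left (Nat.gcd_dvd_right _ _) h0, ?_⟩
      · exact odd_mul (odd_mul (odd_mul (odd_mul (odd_mul (odd_sub hq hq0 (by omega)) (odd_add hq (by omega)))
          (odd_sub hq hq0 (by omega))) (odd_sub hq hq0 (by omega))) (odd_add hq (by omega)))
          (odd_sub hq hq0 (by omega))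
      · rw [Nat.card_congr e.toEquiv]
        simp only [one, if_true]
        rw [T.te6 F q hpp hF]
        ring
    · have hq : Even q := by
        have h3 := even_of (F := F)
        rw [hF] at h3
        exact (Nat.even_pow' (by norm_num)).1 h3
      refine ⟨one .td4 12 (fun q => (q ^ 2 - 1) * (q ^ 6 - 1) * (q ^ 8 + q ^ 4 + 1)) (fun _ => 1),
        by simp [rows], 0, q, hq,
        (by norm_num [one]), ⟨F, inferInstance, inferInstance, hF, ⟨e⟩⟩, ?_, hpp, Nat.coprime_one_left _, ?_⟩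
      · refine odd_mul (odd_mul (odd_sub hq hq0 (by omega)) (odd_sub hq hq0 (by omega))) ?_
        exact (((Nat.even_pow' (by norm_num)).2 hq).add ((Nat.even_pow' (by norm_num)).2 hq)).add_one
      · rw [Nat.card_congr e.toEquiv]
        simp only [one, if_true]
        rw [T.td4 F q hpp hF]
        ring
  · obtain ⟨-, F, _, _, m, hm, hF, ⟨e⟩⟩ := h
    have hq : Even (2 ^ (2 * m + 1)) := (Nat.even_pow' (by omega)).2 (by decide)
    have hpp : IsPrimePow (2 ^ (2 * m + 1)) := Nat.prime_two.isPrimePow.pow (by omega)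
    have hq0 := hpp.pos
    refine ⟨one .sz 2 (fun q => (q - 1) * (q ^ 2 + 1)) (fun _ => 1), by simp [rows], 0, 2 ^ (2 * m + 1), hq,
      (by norm_num [one]), ⟨F, inferInstance, inferInstance, m, hm, hF, rfl, ⟨e⟩⟩, ?_, hpp,
      Nat.coprime_one_left _, ?_⟩
    · have h1 := odd_sub hq hq0 (k := 1) (by omega)
      rw [pow_one] at h1
      exact odd_mul h1 (odd_add hq (by omega))
    · rw [Nat.card_congr e.toEquiv, T.sz F m hm hF]
      simp only [one, if_true]
      ring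
  · obtain ⟨-, F, _, _, m, hm, hF, ⟨e⟩⟩ := h
    have hq : Even (2 ^ (2 * m + 1)) := (Nat.even_pow' (by omega)).2 (by decide)
    have hpp : IsPrimePow (2 ^ (2 * m + 1)) := Nat.prime_two.isPrimePow.pow (by omega)
    have hq0 := hpp.pos
    refine ⟨one .tf4 12 (fun q => (q - 1) * (q ^ 3 + 1) * (q ^ 4 - 1) * (q ^ 6 + 1)) (fun _ => 1), by simp [rows], 0,
      2 ^ (2 * m + 1), hq,
      (by norm_num [one]), ⟨F, inferInstance, inferInstance, m, hm, hF, rfl, ⟨e⟩⟩, ?_, hpp,
      Nat.coprime_one_left _, ?_⟩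
    · have h1 := odd_sub hq hq0 (k := 1) (by omega)
      rw [pow_one] at h1
      exact odd_mul (odd_mul (odd_mul h1 (odd_add hq (by omega))) (odd_sub hq hq0 (by omega)))
        (odd_add hq (by omega))
    · rw [Nat.card_congr e.toEquiv, T.tf4 F m hm hF]
      simp only [one, if_true]
      ring
  · exact absurd h.1 (by norm_num)

end Cfsg.Agent.H217.Ev
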