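import Cfsg.Agent.H217.Simple
import Cfsg.Agent.H217.Act
import Cfsg.Agent.H403.CompFactor
import Cfsg.Agent.Mrg.Omega.TwoF.AltRk
import Cfsg.Agent.SignalizersComponents.Components
import Cfsg.Prelude.Def_KGroupFacts

/-!
# The profile of the simple normal subgroup (helper217, S3191)
-/

set_option autoImplicit false

namespace Cfsg.Agent.H217.Pf

open Subgroup Cfsg Cfsg.Agent.H217.SP Cfsg.Agent.H217.Red Cfsg.Agent.H217.Act

universe u

/-- the properties of the simple group `N` and its involution `t` -/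
structure Prof (n j : ℕ) (N : Type u) [Group N] (t : N) : Prop where
  ne : t ≠ 1
  tt : t * t = 1
  odd : ¬ 2 ∣ (centralizer ({t} : Set N)).index
  card : ∃ c, (c = 1 ∨ c = 3) ∧
    Nat.card (centralizer ({t} : Set N)) * 2 ^ j = c * (2 ^ (2 * n) * (2 * n).factorial)
  comp : ∀ K : Subgroup (centralizer ({t} : Set N)), ¬ IsComponent K
  nonsolv : ¬ Group.IsSolvable (centralizer ({t} : Set N))
  ab : ∀ R : Subgroup (centralizer ({t} : Set N)), R.Normal → IsPGroup 2 R → ∀ x ∈ R, ∀ y ∈ R, x * y = y * x
  rank : ∀ A : Subgroup N, (∀ x ∈ A, x * x = 1) → Nat.card A ≤ 2 ^ (2 * n)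
  hj : j = 0 ∨ j = 2
  out : j = 2 → ∃ Q : Subgroup (Cfsg.Out N), 4 ∣ Nat.card Q ∧ ∀ φ : Q →* ℤˣ, ∀ x, φ x = 1

/-- **No component**: a solvable normal subgroup containing its centralizer -/
theorem no_comp {D : Type*} [Group D] [Finite D] (R : Subgroup D) (hR : R.Normal) (hs : Group.IsSolvable R)
    (hc : ∀ d : D, (∀ r ∈ R, d * r = r * d) → d ∈ R) (K : Subgroup D) : ¬ IsComponent K := by
  intro hK
  have h1 := SignalizersComponents.Components.component_commutator_solvable hK (H := R)
    (by rw [normalizer_eq_top_iff.2 hR]; exact le_top) hs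
  rw [commutator_eq_bot_iff_le_centralizer] at h1
  have h2 : K ≤ R := fun k hk => hc k fun r hr => (mem_centralizer_iff.1 (h1 hk) r hr).symm
  apply SignalizersComponents.Components.quasisimple_not_isSolvable hK.2
  exact Group.isSolvable_of_isSolvable_injective (f := Subgroup.inclusion h2) (Subgroup.inclusion_injective h2)

/-- the action of the elementary abelian subgroups -/
theorem rank_W {ι : Type*} [Fintype ι] [DecidableEq ι] (A : Subgroup (W ι)) (hA : ∀ x ∈ A, x * x = 1) :
    Nat.card A ≤ 2 ^ Fintype.card ι := by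
  have h1 := Omega.TwoF.AltRk.card_le (A.map (act ι)) (by
    rintro _ ⟨x, hx, rfl⟩
    rw [← map_mul, hA x hx, map_one])
  rw [Nat.card_congr (A.equivMapOfInjective (act ι) act_inj).toEquiv]
  rw [Fintype.card_prod, ZMod.card, Nat.mul_div_cancel _ (by norm_num)] at h1
  exact h1

/-- the alternating group in a subgroup containing `Winf` -/
theorem not_solvable {ι : Type*} [Fintype ι] [DecidableEq ι] (h5 : 5 ≤ Fintype.card ι) {K : Subgroup (W ι)}
    (hK : Winf ι ≤ K) : ¬ Group.IsSolvable K := by
  intro hs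
  let φ : alternatingGroup ι →* K :=
    { toFun := fun σ => ⟨P (σ : Equiv.Perm ι), hK (P_mem_Winf (Equiv.Perm.mem_alternatingGroup.1 σ.2))⟩
      map_one' := rfl
      map_mul' := fun σ τ => Subtype.ext (P_mul _ _).symm }
  have hφ : Function.Injective φ := by
    intro σ τ h
    have h1 : P (σ : Equiv.Perm ι) = P (τ : Equiv.Perm ι) := congrArg Subtype.val h
    exact Subtype.ext (congrArg W.s h1)
  have h1 : Group.IsSolvable (alternatingGroup ι) := Group.isSolvable_of_isSolvable_injective hφ
  have h2 : Group.IsSolvable (Equiv.Perm ι) := by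
    refine Group.isSolvable_of_ker_le_range (alternatingGroup ι).subtype (Equiv.Perm.sign (α := ι)) ?_
    rw [Subgroup.range_subtype]
    exact le_rfl
  exact Equiv.Perm.not_isSolvable ι (by
    rw [Cardinal.mk_fintype]
    exact_mod_cast h5) h2

/-- a quotient of even order not divisible by four -/
theorem exists_hom {Q : Type*} [Group Q] [Finite Q] (h2 : 2 ∣ Nat.card Q) (h4 : ¬ 4 ∣ Nat.card Q) :
    ∃ φ : Q →* ℤˣ, ∃ x, φ x ≠ 1 := by
  obtain ⟨x, hx⟩ := exists_prime_orderOf_dvd_card' 2 h2
  obtain ⟨m, hm⟩ := h2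
  have hmo : Odd m := by
    rw [← Nat.not_even_iff_odd, even_iff_two_dvd]
    rintro ⟨k, hk⟩
    exact h4 ⟨k, by rw [hm, hk]; ring⟩
  obtain ⟨φ, hφ⟩ := Classification.TransferSign.exists_hom_neg_one_of_index (⊥ : Subgroup Q) m hmo
    (by rw [Subgroup.index_bot]; exact hm) x hx (by
      intro g hg
      rw [mem_bot] at hg
      have h3 : x = 1 := by
        have h2 : x = g⁻¹ * (g * x * g⁻¹) * g := by group
        rw [h2, hg]; group
      rw [h3, orderOf_one] at hx
      exact absurd hx (by norm_num))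
  exact ⟨φ, x, by rw [hφ]; decide⟩

section main
variable {G : Type u} [Group G] [Finite G] {ι : Type*} [Fintype ι] [DecidableEq ι] {t : G} {f : G → W ι}

/-- the image of a normal subgroup with solvable quotient -/
theorem inf_le (h : Sit t f) {N : Subgroup G} [hN : N.Normal] (hs : Group.IsSolvable (G ⧸ N)) :
    Winf ι ≤ h.img N := by
  have hsix := h.six
  rcases h.img_cases hN with h1 | h1
  · exfalso
    let φ : ↥(Ce t) →* Equiv.Perm ι :=
      { toFun := fun g => (f g).s
        map_one' := by
          show (f 1).s = 1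
          rw [h.one]; rfl
        map_mul' := fun g k => by
          show (f (g * k)).s = (f g).s * (f k).s
          rw [h.mul _ g.2 _ k.2]; rfl }
    let π : ↥(Ce t) →* G ⧸ N := (QuotientGroup.mk' N).comp (Ce t).subtype
    have hle : π.ker ≤ φ.ker := by
      intro g hg
      have h2 : (g : G) ∈ N := (QuotientGroup.eq_one_iff (g : G)).1 hg
      exact h1 g h2 g.2
    have h3 : Group.IsSolvable (↥(Ce t) ⧸ π.ker) :=
      Group.isSolvable_of_isSolvable_injective (QuotientGroup.kerLift_injective π)
    have h4 : Function.Surjective (QuotientGroup.lift π.ker φ hle) := by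
      intro σ
      obtain ⟨g, hg, hgf⟩ := h.surj (P σ)
      refine ⟨QuotientGroup.mk ⟨g, hg⟩, ?_⟩
      show (f g).s = σ
      rw [hgf]; rfl
    have h5 : Group.IsSolvable (Equiv.Perm ι) := Group.isSolvable_of_surjective h4
    refine Equiv.Perm.not_isSolvable ι ?_ h5
    rw [Cardinal.mk_fintype]
    exact_mod_cast (by omega : 5 ≤ Fintype.card ι)
  · exact h1

end main

end Cfsg.Agent.H217.Pf
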