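import Cfsg.Agent.H217.Red
import Cfsg.Agent.LFourA.Quot

/-!
# Passing to the quotient by the odd core (helper217, S3191)
-/

set_option autoImplicit false

namespace Cfsg.Agent.H217.Quot

open Subgroup Cfsg.Agent.H217.SP Cfsg.Agent.H217.Red Cfsg.Agent.LFourA.Quot

/-- the number of classes of involutions -/
noncomputable def cls (G : Type*) [Group G] : ℕ := Nat.card {c : ConjClasses G // ∃ x ∈ c.carrier, orderOf x = 2}

theorem exists_in_sylow {G : Type*} [Group G] [Finite G] (P : Sylow 2 G) {x : G} (hx : orderOf x = 2) :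
    ∃ g : G, g * x * g⁻¹ ∈ (P : Subgroup G) := by
  have h1 : IsPGroup 2 (zpowers x) := IsPGroup.of_card (n := 1) (by rw [Nat.card_zpowers, hx, pow_one])
  obtain ⟨Q, hQ⟩ := h1.exists_le_sylow
  obtain ⟨g, hg⟩ := MulAction.exists_smul_eq G Q P
  refine ⟨g, ?_⟩
  rw [← hg, Sylow.coe_subgroup_smul]
  exact ⟨x, hQ (mem_zpowers x), rfl⟩

/-- **The classes of involutions of the quotient.** -/
theorem cls_quot (G : Type*) [Group G] [Finite G] : cls (G ⧸ Cfsg.oddCore G) = cls G := by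
  classical
  obtain ⟨P⟩ := (inferInstance : Nonempty (Sylow 2 G))
  have hpr : ∀ x : G, orderOf x = 2 → orderOf (pr G x) = 2 := by
    intro x hx
    obtain ⟨g, hg⟩ := exists_in_sylow P hx
    apply orderOf_eq_prime
    · have h0 : x ^ 2 = 1 := by rw [← hx, pow_orderOf_eq_one]
      rw [← map_pow, h0, map_one]
    · intro h1
      have h2 : pr G (g * x * g⁻¹) = 1 := by rw [map_mul, map_mul, h1, mul_one, map_inv, mul_inv_cancel]
      have h3 := eq_one_of_mem P hg h2
      have h4 : x = 1 := by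
        have h5 : x = g⁻¹ * (g * x * g⁻¹) * g := by group
        rw [h5, h3]; group
      rw [h4, orderOf_one] at hx
      exact absurd hx (by norm_num)
  symm
  apply Nat.card_congr
  refine Equiv.ofBijective (fun c : {c : ConjClasses G // ∃ x ∈ c.carrier, orderOf x = 2} =>
    (⟨ConjClasses.map (pr G) c.1, by
      obtain ⟨x, hx, hx2⟩ := c.2
      refine ⟨pr G x, ?_, hpr x hx2⟩
      rw [ConjClasses.mem_carrier_iff_mk_eq] at hx ⊢
      rw [← hx]
      rfl⟩ : {c : ConjClasses (G ⧸ Cfsg.oddCore G) // ∃ x ∈ c.carrier, orderOf x = 2})) ⟨?_, ?_⟩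
  · rintro ⟨c, x, hx, hx2⟩ ⟨d, y, hy, hy2⟩ hcd
    apply Subtype.ext
    show c = d
    rw [ConjClasses.mem_carrier_iff_mk_eq] at hx hy
    obtain ⟨g, hg⟩ := exists_in_sylow P hx2
    obtain ⟨k, hk⟩ := exists_in_sylow P hy2
    have h1 : ConjClasses.map (pr G) c = ConjClasses.map (pr G) d := congrArg Subtype.val hcd
    rw [← hx, ← hy] at h1
    have h2 : IsConj (pr G x) (pr G y) := ConjClasses.mk_eq_mk_iff_isConj.1 h1
    have h3 : IsConj (pr G (g * x * g⁻¹)) (pr G (k * y * k⁻¹)) := by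
      have e1 : IsConj (pr G (g * x * g⁻¹)) (pr G x) := by
        rw [isConj_iff]
        refine ⟨pr G g⁻¹, ?_⟩
        rw [← map_inv, ← map_mul, ← map_mul]
        congr 1; group
      have e2 : IsConj (pr G y) (pr G (k * y * k⁻¹)) := by
        rw [isConj_iff]
        refine ⟨pr G k, ?_⟩
        rw [← map_inv, ← map_mul, ← map_mul]
      exact e1.trans (h2.trans e2)
    obtain ⟨u, hu⟩ := isConj_iff.1 h3
    obtain ⟨v, -, hv⟩ := conj_lift P hg hk hu
    rw [← hx, ← hy]
    apply ConjClasses.mk_eq_mk_iff_isConj.2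
    rw [isConj_iff]
    refine ⟨k⁻¹ * v * g, ?_⟩
    have h4 : k⁻¹ * v * g * x * (k⁻¹ * v * g)⁻¹ = k⁻¹ * (v * (g * x * g⁻¹) * v⁻¹) * k := by group
    rw [h4, hv]; group
  · rintro ⟨c, x, hx, hx2⟩
    obtain ⟨g, hg⟩ := exists_in_sylow (syl P) hx2
    obtain ⟨y, hy, hyx⟩ := (mem_syl P).1 hg
    have hy2 : orderOf y = 2 := by
      apply orderOf_eq_prime
      · apply eq_one_of_mem P (pow_mem hy 2)
        rw [map_pow, hyx]
        have h1 : (g * x * g⁻¹) ^ 2 = g * x ^ 2 * g⁻¹ := by rw [pow_two, pow_two]; group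
        have h0 : x ^ 2 = 1 := orderOf_dvd_iff_pow_eq_one.1 (by rw [hx2])
        rw [h1, h0]; group
      · intro h1
        rw [h1, map_one] at hyx
        have h4 : x = 1 := by
          have h5 : x = g⁻¹ * (g * x * g⁻¹) * g := by group
          rw [h5, ← hyx]; group
        rw [h4, orderOf_one] at hx2
        exact absurd hx2 (by norm_num)
    refine ⟨⟨ConjClasses.mk y, y, ConjClasses.mem_carrier_mk, hy2⟩, ?_⟩
    apply Subtype.ext
    show ConjClasses.mk (pr G y) = c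
    rw [ConjClasses.mem_carrier_iff_mk_eq] at hx
    rw [← hx, hyx]
    apply ConjClasses.mk_eq_mk_iff_isConj.2
    rw [isConj_iff]
    exact ⟨g⁻¹, by group⟩

section
variable {G : Type*} [Group G] [Finite G] {ι : Type*} [Fintype ι] [DecidableEq ι]

/-- **`Sit` in the quotient.** -/
theorem sit_quot {t : G} {f : G → W ι} (h : Sit t f) (S : Sylow 2 G) (htS : t ∈ (S : Subgroup G))
    (hdvd : Nat.card (Ce t) ∣ 3 * Nat.card (W ι)) :
    (∃ f' : G ⧸ Cfsg.oddCore G → W ι, Sit (pr G t) f') ∧ Nat.card (Ce (pr G t)) ∣ 3 * Nat.card (W ι) := by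
  classical
  have hsix := h.six
  have hnorm : (Cfsg.oddCore G).Normal := Cfsg.Agent.Lib.Cores.pPrimeCore_normal 2
  have hcop : (Nat.card (Cfsg.oddCore G)).Coprime 2 := Cfsg.Agent.Lib.Cores.pPrimeCore_coprime 2
  have hodd : ∀ g ∈ Cfsg.oddCore G, g * g = 1 → g = 1 := by
    intro g hg h2
    have h3 : orderOf g ∣ Nat.card (Cfsg.oddCore G) := by
      have := orderOf_dvd_natCard (⟨g, hg⟩ : Cfsg.oddCore G)
      rwa [← orderOf_coe] at this
    have h4 : orderOf g ∣ 2 := orderOf_dvd_of_pow_eq_one (by rw [pow_two, h2])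
    exact orderOf_eq_one_iff.1 (Nat.eq_one_of_dvd_coprimes hcop h3 h4)
  -- the odd core in the kernel
  have hK : ∀ g ∈ Cfsg.oddCore G, g ∈ Ce t → f g = 1 := by
    intro g hg hgC
    rcases h.img_cases hnorm with h1 | h1
    · have h2 : (f g).s = 1 := h1 g hg hgC
      have h3 : f (g * g) = 1 := by rw [h.mul _ hgC _ hgC, eq_E_of_s h2, E_sq]
      have h4 := h.ker _ (mul_mem hgC hgC) h3
      -- `g ^ 6 = 1`
      have h5 : (g * g * g) * (g * g * g) = 1 := by rw [← h4]; group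
      have h6 : g * g * g = 1 := hodd _ (mul_mem (mul_mem hg hg) hg) h5
      have h7 : f g * f g * f g = 1 := by
        rw [← h.mul _ hgC _ hgC, ← h.mul _ (mul_mem hgC hgC) _ hgC, h6, h.one]
      rw [h.mul _ hgC _ hgC] at h3
      rw [h3, one_mul] at h7
      exact h7
    · exfalso
      have h2 := h.mem_of_E_one (h1 h.E_one_mem_Winf)
      exact h.ne (hodd t h2 h.tt)
  -- lifting
  have hlift : ∀ y ∈ Ce (pr G t), ∃ g ∈ Ce t, pr G g = y := by
    intro y hy
    obtain ⟨g, hg, hg2⟩ := conj_lift S htS htS (g := y) (mul_inv_eq_iff_eq_mul.2 (mem_Ce.1 hy))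
    exact ⟨g, mem_Ce.2 (mul_inv_eq_iff_eq_mul.1 hg2), hg⟩
  have hmap : ∀ g ∈ Ce t, pr G g ∈ Ce (pr G t) := by
    intro g hg
    rw [mem_Ce, ← map_mul, mem_Ce.1 hg, map_mul]
  have huniq : ∀ g ∈ Ce t, ∀ k ∈ Ce t, pr G g = pr G k → f g = f k := by
    intro g hg k hk hgk
    have h1 : pr G (g * k⁻¹) = 1 := by rw [map_mul, hgk, map_inv, mul_inv_cancel]
    have h2 := hK _ (pr_eq_one.1 h1) (mul_mem hg (inv_mem hk))
    rw [h.mul _ hg _ (inv_mem hk), h.inv hk] at h2
    exact mul_inv_eq_one.1 h2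
  choose! l hlC hl using hlift
  have hval : ∀ g ∈ Ce t, f (l (pr G g)) = f g := by
    intro g hg
    exact huniq _ (hlC _ (hmap g hg)) _ hg (hl _ (hmap g hg))
  refine ⟨⟨fun y => f (l y), ?_⟩, ?_⟩
  · refine ⟨?_, ?_, ?_, ?_, ?_, h.six, h.even⟩
    · intro h1
      exact h.ne (eq_one_of_mem S htS h1)
    · rw [← map_mul, h.tt, map_one]
    · intro y hy z hz
      have h1 : l y ∈ Ce t := hlC y hy
      have h2 : l z ∈ Ce t := hlC z hz
      have h3 := hval (l y * l z) (mul_mem h1 h2)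
      rw [map_mul, hl y hy, hl z hz] at h3
      rw [h3, h.mul _ h1 _ h2]
    · intro w
      obtain ⟨g, hg, hgw⟩ := h.surj w
      exact ⟨pr G g, hmap g hg, by rw [hval g hg, hgw]⟩
    · intro y hy h1
      have h2 := h.ker _ (hlC y hy) h1
      rw [← hl y hy, ← map_mul, ← map_mul, h2, map_one]
  · have h1 : Nat.card (Ce (pr G t)) ∣ Nat.card (Ce t) := by
      have h2 : Ce (pr G t) = (Ce t).map (pr G) := by
        ext y
        constructor
        · intro hy
          exact ⟨l y, hlC y hy, hl y hy⟩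
        · rintro ⟨g, hg, rfl⟩
          exact hmap g hg
      rw [h2]
      exact Subgroup.card_map_dvd _ _
    exact h1.trans hdvd

/-- homomorphisms from the quotient -/
theorem hom_quot (h2 : ∀ φ : G →* ℤˣ, ∀ x, φ x = 1) : ∀ φ : (G ⧸ Cfsg.oddCore G) →* ℤˣ, ∀ x, φ x = 1 := by
  intro φ x
  obtain ⟨g, rfl⟩ := pr_surj x
  exact h2 (φ.comp (pr G)) g

end

end Cfsg.Agent.H217.Quot
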