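import Cfsg.Agent.H217.SP
import Cfsg.Agent.H386.Factor
import Cfsg.Agent.TwoFusion.TransferIndex
import Cfsg.Agent.Classification.TransferSign
import Cfsg.Agent.Lib.Cores
import Cfsg.Agent.H799.SymSyl

/-!
# A 2-central involution `t` with `C(t)` mapping onto `2 wr Sym(ι)` with kernel of exponent dividing three
(helper217, S3191)

`Sit t f` : `f : G → W ι` is multiplicative and surjective on `C(t)`, the kernel has exponent dividing three.
* `Sit.mem_of_normal` : if `O(G) = 1`, the nontrivial normal subgroups contain `t`;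
* `Sit.not_two` : `O_2(G) = 1` if `G` has no subgroup of index two;
* `Sit.simple` : then the minimal normal subgroup is simple and contains `t`.
-/

set_option autoImplicit false

namespace Cfsg.Agent.H217.Red

open Subgroup Cfsg.Agent.H217.SP Cfsg.Agent.Lib.Cores

variable {G : Type*} [Group G] {ι : Type*} [Fintype ι] [DecidableEq ι]

theorem z1 : ∀ x : ZMod 2, x + (x + 1) = 1 + 0 := by decide
theorem z2 : ∀ x : ZMod 2, x + 1 + x = 0 + 1 := by decide
theorem z3 : ¬ (0 : ZMod 2) = 1 + 0 + (0 + 0) := by decide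

/-- the centralizer of an element -/
abbrev Ce (t : G) : Subgroup G := centralizer ({t} : Set G)

theorem mem_Ce {t g : G} : g ∈ Ce t ↔ g * t = t * g := mem_centralizer_singleton_iff

/-- the situation -/
structure Sit (t : G) (f : G → W ι) : Prop where
  ne : t ≠ 1
  tt : t * t = 1
  mul : ∀ g ∈ Ce t, ∀ h ∈ Ce t, f (g * h) = f g * f h
  surj : ∀ w, ∃ g ∈ Ce t, f g = w
  ker : ∀ g ∈ Ce t, f g = 1 → g * g * g = 1
  six : 6 ≤ Fintype.card ι
  even : Even (Fintype.card ι)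

namespace Sit

theorem cube_one {g : G} (h2 : g * g = 1) (h3 : g * g * g = 1) : g = 1 := by
  rw [h2, one_mul] at h3
  exact h3

variable {t : G} {f : G → W ι} (h : Sit t f)
include h

theorem one : f 1 = 1 := by
  have h1 := h.mul 1 (one_mem _) 1 (one_mem _)
  rw [mul_one] at h1
  exact left_eq_mul.1 h1

theorem inv {g : G} (hg : g ∈ Ce t) : f g⁻¹ = (f g)⁻¹ := by
  have h1 := h.mul g hg g⁻¹ (inv_mem hg)
  rw [mul_inv_cancel, h.one] at h1
  exact eq_inv_of_mul_eq_one_right h1.symm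

theorem conj {g k : G} (hg : g ∈ Ce t) (hk : k ∈ Ce t) : f (g * k * g⁻¹) = f g * f k * (f g)⁻¹ := by
  rw [h.mul _ (mul_mem hg hk) _ (inv_mem hg), h.mul _ hg _ hk, h.inv hg]

theorem t_mem : t ∈ Ce t := mem_Ce.2 rfl

theorem sum_one : ∑ i, (1 : ι → ZMod 2) i = 0 := by
  have h1 : ∑ i, (1 : ι → ZMod 2) i = (Fintype.card ι : ZMod 2) := by
    simp
  rw [h1]
  exact (ZMod.natCast_eq_zero_iff_even).2 h.even

/-- equal images, commuting involutions -/
theorem eq_of_f {g k : G} (hg : g ∈ Ce t) (hk : k ∈ Ce t) (gg : g * g = 1) (kk : k * k = 1) (hc : g * k = k * g)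
    (he : f g = f k) : g = k := by
  have h1 : f (g * k) = 1 := by
    rw [h.mul _ hg _ hk, ← he, ← h.mul _ hg _ hg, gg, h.one]
  have h2 : g * k * (g * k) = 1 := by
    calc g * k * (g * k) = g * (k * g) * k := by group
      _ = g * (g * k) * k := by rw [hc]
      _ = (g * g) * (k * k) := by group
      _ = 1 := by rw [gg, kk, one_mul]
  have h3 := cube_one h2 (h.ker _ (mul_mem hg hk) h1)
  have h4 : g = k⁻¹ := eq_inv_of_mul_eq_one_left h3
  rw [h4]
  exact inv_eq_of_mul_eq_one_left kk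

/-- an involution of the kernel is trivial -/
theorem eq_one_of_f {g : G} (hg : g ∈ Ce t) (gg : g * g = 1) (he : f g = 1) : g = 1 :=
  h.eq_of_f hg (one_mem _) gg (one_mul 1) (by group) (by rw [he, h.one])

theorem f_t : f t = E 1 := by
  have hsix := h.six
  have h1 : ∀ x : W ι, f t * x = x * f t := by
    intro x
    obtain ⟨g, hg, rfl⟩ := h.surj x
    rw [← h.mul _ h.t_mem _ hg, ← h.mul _ hg _ h.t_mem, mem_Ce.1 hg]
  rcases cent_inf (by omega) (fun x _ => h1 x) with h2 | h2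
  · exact absurd (h.eq_one_of_f h.t_mem h.tt h2) h.ne
  · exact h2

/-- the image of the part of a subgroup in `C(t)` -/
def img (K : Subgroup G) : Subgroup (W ι) where
  carrier := {w | ∃ k ∈ K, k ∈ Ce t ∧ f k = w}
  mul_mem' := by
    rintro _ _ ⟨k, hk, hkC, rfl⟩ ⟨l, hl, hlC, rfl⟩
    exact ⟨k * l, K.mul_mem hk hl, mul_mem hkC hlC, h.mul _ hkC _ hlC⟩
  one_mem' := ⟨1, K.one_mem, one_mem _, h.one⟩
  inv_mem' := by
    rintro _ ⟨k, hk, hkC, rfl⟩
    exact ⟨k⁻¹, K.inv_mem hk, inv_mem hkC, h.inv hkC⟩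

theorem mem_img {K : Subgroup G} {w : W ι} : w ∈ h.img K ↔ ∃ k ∈ K, k ∈ Ce t ∧ f k = w := Iff.rfl

/-- a subgroup whose image contains the central element contains `t` -/
theorem mem_of_E_one {K : Subgroup G} (hK : E 1 ∈ h.img K) : t ∈ K := by
  obtain ⟨k, hk, hkC, hkf⟩ := hK
  have h1 : f (k * t) = 1 := by rw [h.mul _ hkC _ h.t_mem, hkf, h.f_t, E_sq]
  have h2 := h.ker _ (mul_mem hkC h.t_mem) h1
  have hkt := mem_Ce.1 hkC
  have h3 : k * t * (k * t) * (k * t) = k * k * k * t := by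
    calc k * t * (k * t) * (k * t) = k * (t * k) * (t * (k * t)) := by group
      _ = k * (k * t) * (t * (t * k)) := by rw [← hkt]
      _ = k * k * (t * t) * (t * k) := by group
      _ = k * k * (k * t) := by rw [h.tt, mul_one, ← hkt]
      _ = k * k * k * t := by group
  rw [h3] at h2
  have h4 : t = (k * k * k)⁻¹ := eq_inv_of_mul_eq_one_right h2
  rw [h4]
  exact K.inv_mem (K.mul_mem (K.mul_mem hk hk) hk)

/-- the image of a subgroup normalised by `C(t) ∩ N`, `Winf ≤ img N` -/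
theorem img_norm {K N : Subgroup G} (hN : Winf ι ≤ h.img N) (hKN : ∀ n ∈ N, ∀ k ∈ K, n * k * n⁻¹ ∈ K) :
    ∀ x ∈ Winf ι, ∀ k ∈ h.img K, x * k * x⁻¹ ∈ h.img K := by
  rintro x hx _ ⟨k, hk, hkC, rfl⟩
  obtain ⟨n, hn, hnC, rfl⟩ := hN hx
  exact ⟨n * k * n⁻¹, hKN n hn k hk, mul_mem (mul_mem hnC hkC) (inv_mem hnC), h.conj hnC hkC⟩

theorem img_top : h.img ⊤ = ⊤ := by
  rw [eq_top_iff]
  intro w _
  obtain ⟨g, hg, rfl⟩ := h.surj w
  exact ⟨g, mem_top _, hg, rfl⟩

/-- the image of a normal subgroup -/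
theorem img_cases {M : Subgroup G} (hM : M.Normal) :
    (∀ m ∈ M, m ∈ Ce t → (f m).s = 1) ∨ Winf ι ≤ h.img M := by
  have hsix := h.six
  have h1 := h.img_norm (K := M) (N := ⊤) (by rw [h.img_top]; exact le_top)
    (fun n _ k hk => hM.conj_mem k hk n)
  rcases cases h1 (by omega) with h2 | h2
  · exact Or.inl fun m hm hmC => h2 _ ⟨m, hm, hmC, rfl⟩
  · exact Or.inr h2

theorem E_one_mem_Winf : E 1 ∈ Winf ι := E_mem_Winf h.sum_one

/-- all even vectors from one vector which is not constant -/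
theorem even_mem {M : Subgroup G} (hM : M.Normal) {m : G} (hm : m ∈ M) (hmC : m ∈ Ce t) (hs : (f m).s = 1)
    (h0 : (f m).v ≠ 0) (h1 : (f m).v ≠ 1) (w : ι → ZMod 2) (hw : ∑ i, w i = 0) : E w ∈ h.img M := by
  have hsix := h.six
  obtain ⟨i, j, hij⟩ : ∃ i j, (f m).v i ≠ (f m).v j := by
    by_contra hcon
    push Not at hcon
    have hn : Nonempty ι := Fintype.card_pos_iff.1 (by omega)
    obtain ⟨o⟩ := hn
    rcases zmod2 ((f m).v o) with h2 | h2
    · exact h0 (by ext1 i; rw [hcon i o, h2]; rfl)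
    · exact h1 (by ext1 i; rw [hcon i o, h2]; rfl)
  refine all_even (h.img_norm (K := M) (N := ⊤) (by rw [h.img_top]; exact le_top)
    (fun n _ k hk => hM.conj_mem k hk n)) (by omega) (u := (f m).v) ?_ hij w hw
  rw [← eq_E_of_s hs]
  exact ⟨m, hm, hmC, rfl⟩

omit h in
theorem sylow_ne_bot [Finite G] (S : Sylow 2 G) (hO : Cfsg.pPrimeCore 2 G = ⊥) {M : Subgroup G} (hM : M.Normal)
    (hne : M ≠ ⊥) : ∃ m ∈ M, m ∈ (S : Subgroup G) ∧ m ≠ 1 := by
  have hMS : M ⊓ (S : Subgroup G) ≠ ⊥ := by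
    intro h1
    apply hne
    have h2 := TwoFusion.TransferIndex.not_dvd_relIndex_inf S M
    rw [h1, Subgroup.relIndex_bot_left] at h2
    have h3 : M ≤ Cfsg.pPrimeCore 2 G := le_pPrimeCore hM (by
      rw [Nat.coprime_comm]
      exact (Nat.Prime.coprime_iff_not_dvd Nat.prime_two).2 h2)
    rw [hO] at h3
    exact le_bot_iff.1 h3
  obtain ⟨⟨m, hm⟩, hm1⟩ := (Subgroup.ne_bot_iff_exists_ne_one).1 hMS
  exact ⟨m, (mem_inf.1 hm).1, (mem_inf.1 hm).2, fun e => hm1 (Subtype.ext e)⟩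

/-- an element of 2-power order with image `1` is trivial -/
theorem eq_one_of_two {g : G} (hg : g ∈ Ce t) {S : Subgroup G} (hS : IsPGroup 2 S) (hgS : g ∈ S) (he : f g = 1) :
    g = 1 := by
  have h3 := h.ker g hg he
  have h3' : g ^ 3 = 1 := by rw [pow_succ, pow_two]; exact h3
  obtain ⟨k, hk⟩ := hS ⟨g, hgS⟩
  have hk' : g ^ 2 ^ k = 1 := congrArg Subtype.val hk
  have h1 := orderOf_dvd_of_pow_eq_one h3'
  have h2 := orderOf_dvd_of_pow_eq_one hk'
  have h4 : Nat.Coprime 3 (2 ^ k) := Nat.Coprime.pow_right _ (by norm_num)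
  exact orderOf_eq_one_iff.1 (Nat.Coprime.eq_one_of_dvd (Nat.Coprime.coprime_dvd_left h1 h4) h2)

variable [Finite G] (S : Sylow 2 G) (hS : (S : Subgroup G) ≤ Ce t)
include S hS

/-- **A nontrivial normal subgroup contains `t`, if `O(G) = 1`.** -/
theorem mem_of_normal (hO : Cfsg.pPrimeCore 2 G = ⊥) {M : Subgroup G} (hM : M.Normal) (hne : M ≠ ⊥) : t ∈ M := by
  obtain ⟨m, hm, hmS, hm1⟩ := sylow_ne_bot S hO hM hne
  apply h.mem_of_E_one
  rcases h.img_cases hM with h1 | h1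
  · have hs := h1 m hm (hS hmS)
    by_cases hv0 : (f m).v = 0
    · exfalso
      apply hm1
      refine h.eq_one_of_two (hS hmS) S.2 hmS ?_
      rw [eq_E_of_s hs, hv0, E_zero]
    by_cases hv1 : (f m).v = 1
    · rw [← hv1, ← eq_E_of_s hs]
      exact ⟨m, hm, hS hmS, rfl⟩
    · exact h.even_mem hM hm (hS hmS) hs hv0 hv1 1 h.sum_one
  · exact h1 h.E_one_mem_Winf

/-- involutions of the Sylow subgroup over the conjugates of an involution -/
theorem exists_lift {w : W ι} (hw : w * w = 1) : ∃ d ∈ (S : Subgroup G), d * d = 1 ∧ ∃ x, f d = x * w * x⁻¹ := by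
  obtain ⟨c, hc, rfl⟩ := h.surj w
  have h1 : f (c * c) = 1 := by rw [h.mul _ hc _ hc, hw]
  have h2 := h.ker _ (mul_mem hc hc) h1
  have hd : c * c * c * (c * c * c) = 1 := by rw [← h2]; group
  have hdC : c * c * c ∈ Ce t := mul_mem (mul_mem hc hc) hc
  have hdf : f (c * c * c) = f c := by rw [h.mul _ (mul_mem hc hc) _ hc, h1, one_mul]
  have hp : IsPGroup 2 (zpowers (c * c * c)) := by
    rintro ⟨y, hy⟩
    obtain ⟨n, rfl⟩ := mem_zpowers_iff.1 hy
    refine ⟨1, Subtype.ext ?_⟩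
    show ((c * c * c) ^ n) ^ 2 ^ 1 = 1
    rw [← zpow_natCast, ← zpow_mul, mul_comm, zpow_mul, zpow_natCast]
    have : (c * c * c) ^ 2 ^ 1 = 1 := by rw [pow_one, pow_two]; exact hd
    rw [this, one_zpow]
  have : Fact (Nat.Prime 2) := ⟨Nat.prime_two⟩
  obtain ⟨x, hx, hxS⟩ := H799.SymSyl.exists_conj_mem S hS hdC hp
  refine ⟨_, hxS, ?_, f x, ?_⟩
  · calc x * (c * c * c) * x⁻¹ * (x * (c * c * c) * x⁻¹) = x * (c * c * c * (c * c * c)) * x⁻¹ := by group
      _ = 1 := by rw [hd]; group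
  · rw [h.conj hx hdC, hdf]

/-- **`O_2(G) = 1`** if `G` has no subgroup of index two. -/
theorem not_two (h2 : ∀ φ : G →* ℤˣ, ∀ x, φ x = 1) {M : Subgroup G} (hM : M.Normal) (hMp : IsPGroup 2 M)
    (hne : M ≠ ⊥) : False := by
  have hsix := h.six
  have hpf : Fact (Nat.Prime 2) := ⟨Nat.prime_two⟩
  -- `M ≤ S`
  have hMS : M ≤ S := by
    have h1 : IsPGroup 2 ((S : Subgroup G) ⊔ M : Subgroup G) := S.2.to_sup_of_normal_right hMp
    rw [← S.3 h1 le_sup_left]
    exact le_sup_right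
  have hMC : M ≤ Ce t := hMS.trans hS
  have inj : ∀ x ∈ M, ∀ y ∈ M, f x = f y → x = y := by
    intro x hx y hy hxy
    have h1 : f (x * y⁻¹) = 1 := by
      rw [h.mul _ (hMC hx) _ (inv_mem (hMC hy)), h.inv (hMC hy), hxy, mul_inv_cancel]
    exact mul_inv_eq_one.1 (h.eq_one_of_two (mul_mem (hMC hx) (inv_mem (hMC hy))) hMp
      (mul_mem hx (inv_mem hy)) h1)
  -- all elements are vectors
  have hv : ∀ m ∈ M, (f m).s = 1 := by
    rcases h.img_cases hM with h1 | h1
    · exact fun m hm => h1 m hm (hMC hm)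
    · exfalso
      -- a three-cycle
      obtain ⟨i, j, k, hij, hjk, hki⟩ : ∃ i j k : ι, i ≠ j ∧ j ≠ k ∧ k ≠ i := by
        have hn : Nontrivial ι := Fintype.one_lt_card_iff_nontrivial.1 (by omega)
        obtain ⟨i, j, hij⟩ := hn.exists_pair_ne
        obtain ⟨k, hk⟩ : ∃ k, k ∉ ({i, j} : Finset ι) := by
          by_contra hcon
          push Not at hcon
          have h2 := Finset.card_le_card (fun k _ => hcon k : (Finset.univ : Finset ι) ⊆ {i, j})
          have h3 : ({i, j} : Finset ι).card ≤ 2 := Finset.card_le_two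
          rw [Finset.card_univ] at h2
          omega
        simp only [Finset.mem_insert, Finset.mem_singleton, not_or] at hk
        exact ⟨i, j, k, hij, Ne.symm hk.2, hk.1⟩
      have h3 : Equiv.Perm.sign (Equiv.swap i j * Equiv.swap i k) = 1 := by
        rw [Equiv.Perm.sign_mul, Equiv.Perm.sign_swap hij, Equiv.Perm.sign_swap hki.symm]; rfl
      obtain ⟨m, hm, hmC, hmf⟩ := h1 (P_mem_Winf h3)
      have h4 := (Equiv.Perm.isThreeCycle_swap_mul_swap_same hij hki.symm hjk).orderOf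
      obtain ⟨l, hl⟩ := hMp ⟨m, hm⟩
      have hl' : m ^ 2 ^ l = 1 := congrArg Subtype.val hl
      have h5 : ∀ n : ℕ, f (m ^ n) = P ((Equiv.swap i j * Equiv.swap i k) ^ n) := by
        intro n
        induction n with
        | zero => rw [pow_zero, pow_zero, h.one, P_one]
        | succ n ih => rw [pow_succ, pow_succ, h.mul _ (pow_mem hmC n) _ hmC, ih, hmf, P_mul]
      have h6 := h5 (2 ^ l)
      rw [hl', h.one] at h6
      have h7 : (Equiv.swap i j * Equiv.swap i k) ^ 2 ^ l = 1 := (congrArg W.s h6).symm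
      have h8 := orderOf_dvd_of_pow_eq_one h7
      rw [h4] at h8
      have h9 := Nat.Prime.dvd_of_dvd_pow Nat.prime_three h8
      exact absurd h9 (by norm_num)
  -- there are nonconstant vectors
  have hex : ∃ m ∈ M, (f m).v ≠ 0 ∧ (f m).v ≠ 1 := by
    by_contra hcon
    push Not at hcon
    -- `M = ⟨t⟩`, `G = C(t)`
    obtain ⟨⟨m, hm⟩, hm1⟩ := (Subgroup.ne_bot_iff_exists_ne_one).1 hne
    have hm1' : m ≠ 1 := fun e => hm1 (Subtype.ext e)
    have hM2 : ∀ x ∈ M, x = 1 ∨ f x = E 1 := by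
      intro x hx
      by_cases hx0 : (f x).v = 0
      · left
        refine h.eq_one_of_two (hMC hx) hMp hx ?_
        rw [eq_E_of_s (hv x hx), hx0, E_zero]
      · right
        rw [eq_E_of_s (hv x hx), hcon x hx hx0]
    have hmt : f m = E 1 := (hM2 m hm).resolve_left hm1'
    have htM : t ∈ M := h.mem_of_E_one ⟨m, hm, hMC hm, hmt⟩
    have hcen : ∀ g : G, g ∈ Ce t := by
      intro g
      rcases hM2 _ (hM.conj_mem t htM g) with h3 | h3
      · exfalso
        apply h.ne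
        calc t = g⁻¹ * (g * t * g⁻¹) * g := by group
          _ = 1 := by rw [h3]; group
      · have h4 : g * t * g⁻¹ = t := inj _ (hM.conj_mem t htM g) _ htM (by rw [h3, h.f_t])
        rw [mem_Ce]
        exact mul_inv_eq_iff_eq_mul.1 h4
    -- the sign
    let φ : G →* ℤˣ :=
      { toFun := fun g => Equiv.Perm.sign (f g).s
        map_one' := by rw [h.one]; exact Equiv.Perm.sign_one
        map_mul' := fun g k => by rw [h.mul g (hcen g) k (hcen k), mul_s, Equiv.Perm.sign_mul] }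
    have hn : Nontrivial ι := Fintype.one_lt_card_iff_nontrivial.1 (by omega)
    obtain ⟨i, j, hij⟩ := hn.exists_pair_ne
    obtain ⟨g, hg, hgf⟩ := h.surj (P (Equiv.swap i j))
    have h3 : φ g = 1 := h2 φ g
    have h4 : Equiv.Perm.sign (f g).s = 1 := h3
    rw [hgf, P_s, Equiv.Perm.sign_swap hij] at h4
    exact absurd h4 (by decide)
  obtain ⟨m₀, hm₀, hm0, hm1⟩ := hex
  have hev : ∀ w : ι → ZMod 2, ∑ i, w i = 0 → ∃ m ∈ M, f m = E w := by
    intro w hw
    obtain ⟨m, hm, -, hmf⟩ := h.even_mem hM hm₀ (hMC hm₀) (hv _ hm₀) hm0 hm1 w hw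
    exact ⟨m, hm, hmf⟩
  -- the transposition
  have hn : Nontrivial ι := Fintype.one_lt_card_iff_nontrivial.1 (by omega)
  obtain ⟨i, j, hij⟩ := hn.exists_pair_ne
  obtain ⟨d, hdS, hdd, x, hdf⟩ := h.exists_lift S hS (w := P (Equiv.swap i j)) (by
    rw [P_mul, Equiv.swap_mul_self, P_one])
  have hds : (f d).s = Equiv.swap (x.s i) (x.s j) := by
    rw [hdf]
    show x.s * Equiv.swap i j * x.s⁻¹ = _
    exact H799.SymSyl.conj_swap _ _ _
  have hxij : x.s i ≠ x.s j := fun e => hij (x.s.injective e)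
  set a := x.s i with ha
  set b := x.s j with hb
  -- commutators with elements of `M`
  have hcomm : ∀ s ∈ Ce t, ∀ m ∈ M, m * s * m⁻¹ * s⁻¹ ∈ M ∧
      f (m * s * m⁻¹ * s⁻¹) = E ((f m).v + (f m).v ∘ ⇑(f s).s.symm) := by
    intro s hs m hm
    constructor
    · have : m * s * m⁻¹ * s⁻¹ = m * (s * m⁻¹ * s⁻¹) := by group
      rw [this]
      exact mul_mem hm (hM.conj_mem _ (inv_mem hm) s)
    · rw [← comm_E, h.mul _ (mul_mem (mul_mem (hMC hm) hs) (inv_mem (hMC hm))) _ (inv_mem hs),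
        h.conj (hMC hm) hs, h.inv hs]
      congr 1
      rw [← eq_E_of_s (hv m hm)]
  -- all nontrivial commutators with `d` are equal
  have hall : ∀ m ∈ M, ∀ m' ∈ M, m * d * m⁻¹ * d⁻¹ ≠ 1 → m' * d * m'⁻¹ * d⁻¹ ≠ 1 →
      m * d * m⁻¹ * d⁻¹ = m' * d * m'⁻¹ * d⁻¹ := by
    have key : ∀ v : ι → ZMod 2, v + v ∘ ⇑(Equiv.swap a b).symm = 0 ∨
        v + v ∘ ⇑(Equiv.swap a b).symm = e a + e b := by
      intro v
      by_cases hvv : v a = v b
      · left
        ext1 l
        show v l + v ((Equiv.swap a b).symm l) = 0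
        rw [Equiv.symm_swap]
        by_cases l1 : l = a
        · rw [l1, Equiv.swap_apply_left, hvv, CharTwo.add_self_eq_zero]
        by_cases l2 : l = b
        · rw [l2, Equiv.swap_apply_right, hvv, CharTwo.add_self_eq_zero]
        · rw [Equiv.swap_apply_of_ne_of_ne l1 l2, CharTwo.add_self_eq_zero]
      · right
        have hz := zmod2_ne hvv
        ext1 l
        show v l + v ((Equiv.swap a b).symm l) = e a l + e b l
        rw [Equiv.symm_swap]
        by_cases l1 : l = a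
        · rw [l1, Equiv.swap_apply_left, hz, e_self, e_ne hxij]
          exact z1 _
        by_cases l2 : l = b
        · rw [l2, Equiv.swap_apply_right, hz, e_self, e_ne hxij.symm]
          exact z2 _
        · rw [Equiv.swap_apply_of_ne_of_ne l1 l2, CharTwo.add_self_eq_zero, e_ne l1, e_ne l2, add_zero]
    intro m hm m' hm' h3 h4
    obtain ⟨h5, h6⟩ := hcomm d (hS hdS) m hm
    obtain ⟨h7, h8⟩ := hcomm d (hS hdS) m' hm'
    apply inj _ h5 _ h7
    rw [hds] at h6 h8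
    rcases key (f m).v with h9 | h9
    · exfalso
      apply h3
      apply inj _ h5 _ (one_mem _)
      rw [h6, h9, h.one, E_zero]
    rcases key (f m').v with h10 | h10
    · exfalso
      apply h4
      apply inj _ h7 _ (one_mem _)
      rw [h8, h10, h.one, E_zero]
    · rw [h6, h8, h9, h10]
  -- a nontrivial commutator with `d`
  obtain ⟨m₁, hm₁, hm₁d⟩ : ∃ m ∈ M, m * d * m⁻¹ * d⁻¹ ≠ 1 := by
    obtain ⟨k, hk⟩ : ∃ k, k ∉ ({a, b} : Finset ι) := by
      by_contra hcon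
      push Not at hcon
      have h2 := Finset.card_le_card (fun k _ => hcon k : (Finset.univ : Finset ι) ⊆ {a, b})
      have h3 : ({a, b} : Finset ι).card ≤ 2 := Finset.card_le_two
      rw [Finset.card_univ] at h2
      omega
    simp only [Finset.mem_insert, Finset.mem_singleton, not_or] at hk
    obtain ⟨m, hm, hmf⟩ := hev (e a + e k) (sum_ee a k)
    refine ⟨m, hm, fun h3 => ?_⟩
    obtain ⟨-, h4⟩ := hcomm d (hS hdS) m hm
    rw [h3, h.one, hds, hmf, E_v, ← E_zero] at h4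
    have h5 := congrFun (E_inj h4) a
    have h6 : (0 : ZMod 2) = e a a + e k a + ((e a + e k) ∘ ⇑(Equiv.swap a b).symm) a := h5
    rw [add_comp, e_comp, e_comp, Equiv.swap_apply_left, Equiv.swap_apply_of_ne_of_ne hk.1 hk.2] at h6
    have h7 : (0 : ZMod 2) = e a a + e k a + (e b a + e k a) := h6
    rw [e_self, e_ne (Ne.symm hk.1), e_ne hxij] at h7
    exact z3 h7
  -- transfer
  let Q : Subgroup G :=
    { carrier := {s | s ∈ (S : Subgroup G) ∧ Equiv.Perm.sign (f s).s = 1}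
      mul_mem' := by
        rintro x y ⟨hx1, hx2⟩ ⟨hy1, hy2⟩
        refine ⟨mul_mem hx1 hy1, ?_⟩
        rw [h.mul _ (hS hx1) _ (hS hy1), mul_s, Equiv.Perm.sign_mul, hx2, hy2, one_mul]
      one_mem' := ⟨one_mem _, by rw [h.one]; exact Equiv.Perm.sign_one⟩
      inv_mem' := by
        rintro x ⟨hx1, hx2⟩
        refine ⟨inv_mem hx1, ?_⟩
        rw [h.inv (hS hx1), inv_s, Equiv.Perm.sign_inv, hx2] }
  have hQS : Q ≤ (S : Subgroup G) := fun s hs => hs.1
  have hdQ : d ∉ Q := by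
    rintro ⟨-, h3⟩
    rw [hds, Equiv.Perm.sign_swap hxij] at h3
    exact absurd h3 (by decide)
  have hQi : Q.relIndex (S : Subgroup G) = 2 := by
    show (Q.subgroupOf (S : Subgroup G)).index = 2
    rw [Subgroup.index_eq_two_iff]
    refine ⟨⟨d, hdS⟩, fun s => ?_⟩
    rw [mem_subgroupOf, mem_subgroupOf]
    have h3 : Equiv.Perm.sign (f ((s : G) * d)).s = - Equiv.Perm.sign (f (s : G)).s := by
      rw [h.mul _ (hS s.2) _ (hS hdS), mul_s, Equiv.Perm.sign_mul, hds, Equiv.Perm.sign_swap hxij, mul_neg, mul_one]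
    have h4 : (s : G) * d ∈ Q ↔ Equiv.Perm.sign (f (s : G)).s = -1 := by
      constructor
      · rintro ⟨-, h5⟩
        rw [h3] at h5
        rw [← h5, neg_neg]
      · intro h5
        exact ⟨mul_mem s.2 hdS, by rw [h3, h5, neg_neg]⟩
    have h5 : (s : G) ∈ Q ↔ Equiv.Perm.sign (f (s : G)).s = 1 := ⟨fun h => h.2, fun h => ⟨s.2, h⟩⟩
    show Xor ((s : G) * d ∈ Q) ((s : G) ∈ Q)
    rw [h4, h5]
    rcases Int.units_eq_one_or (Equiv.Perm.sign (f (s : G)).s) with h6 | h6
    · rw [h6]; decide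
    · rw [h6]; decide
  have hd1 : d ≠ 1 := by
    rintro rfl
    exact hdQ (one_mem _)
  have hd2 : orderOf d = 2 := orderOf_eq_prime (by rw [pow_two]; exact hdd) hd1
  by_cases hcj : ∀ g : G, g * d * g⁻¹ ∉ Q
  · obtain ⟨φ, hφ⟩ := Classification.TransferSign.exists_hom_neg_one S Q hQS hQi d hd2 hcj
    rw [h2 φ d] at hφ
    exact absurd hφ (by decide)
  · push Not at hcj
    obtain ⟨g, hgS, hgs⟩ := hcj
    set y := g * d * g⁻¹ with hy
    -- all nontrivial commutators with `y` are equal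
    have hallc : ∀ m ∈ M, m * y * m⁻¹ * y⁻¹ = g * ((g⁻¹ * m * g) * d * (g⁻¹ * m * g)⁻¹ * d⁻¹) * g⁻¹ := by
      intro m _
      rw [hy]; group
    have hgm : ∀ m ∈ M, g⁻¹ * m * g ∈ M := by
      intro m hm
      have := hM.conj_mem m hm g⁻¹
      rwa [inv_inv] at this
    have hally : ∀ m ∈ M, ∀ m' ∈ M, m * y * m⁻¹ * y⁻¹ ≠ 1 → m' * y * m'⁻¹ * y⁻¹ ≠ 1 →
        m * y * m⁻¹ * y⁻¹ = m' * y * m'⁻¹ * y⁻¹ := by
      intro m hm m' hm' h3 h4
      rw [hallc m hm] at h3 ⊢
      rw [hallc m' hm'] at h4 ⊢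
      rw [hall _ (hgm m hm) _ (hgm m' hm')
        (fun e => h3 (by rw [e]; group)) (fun e => h4 (by rw [e]; group))]
    by_cases hys : (f y).s = 1
    · -- `y` centralises `M`
      apply hm₁d
      have h3 : ∀ m ∈ M, m * y * m⁻¹ * y⁻¹ = 1 := by
        intro m hm
        obtain ⟨h5, h6⟩ := hcomm y (hS hgS) m hm
        apply inj _ h5 _ (one_mem _)
        rw [h6, hys, h.one, ← E_zero]
        congr 1
        exact add_self' (f m).v
      have h4 := h3 _ (hM.conj_mem m₁ hm₁ g)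
      have h5 : g * m₁ * g⁻¹ * y * (g * m₁ * g⁻¹)⁻¹ * y⁻¹ = g * (m₁ * d * m₁⁻¹ * d⁻¹) * g⁻¹ := by
        rw [hy]; group
      rw [h5] at h4
      have h6 : m₁ * d * m₁⁻¹ * d⁻¹ = g⁻¹ * (g * (m₁ * d * m₁⁻¹ * d⁻¹) * g⁻¹) * g := by group
      rw [h6, h4]; group
    · obtain ⟨w, w', hw, hw', h3, h4, h5⟩ := two_comm (by omega) hgs hys
      obtain ⟨m, hm, hmf⟩ := hev w hw
      obtain ⟨m', hm', hmf'⟩ := hev w' hw'
      obtain ⟨h6, h7⟩ := hcomm y (hS hgS) m hm
      obtain ⟨h8, h9⟩ := hcomm y (hS hgS) m' hm'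
      rw [hmf, E_v] at h7
      rw [hmf', E_v] at h9
      apply h5
      apply E_inj
      rw [← h7, ← h9]
      congr 1
      apply hally m hm m' hm'
      · intro h10
        rw [h10, h.one, ← E_zero] at h7
        exact h3 (E_inj h7).symm
      · intro h10
        rw [h10, h.one, ← E_zero] at h9
        exact h4 (E_inj h9).symm

end Sit

end Cfsg.Agent.H217.Red
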