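import Mathlib

/-!
# Signed permutations (helper217, S3191)

`W ι` : pairs `(v, s)`, `v : ι → ZMod 2`, `s` a permutation of `ι`: the wreath product `2 wr Sym(ι)`.

* `cases` : a subgroup normalised by `Winf` (even weight, even permutation) consists of elements with trivial
  permutation or contains `Winf`;
* `cent_even`, `cent_inf` : centralizers;
* `two_comm` : two different commutators with an even permutation.
-/

set_option autoImplicit false

namespace Cfsg.Agent.H217.SP

open Equiv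

/-- signed permutations -/
@[ext] structure W (ι : Type*) where
  /-- the signs -/
  v : ι → ZMod 2
  /-- the permutation -/
  s : Perm ι

section basic
variable {ι : Type*}

theorem add_self' (v : ι → ZMod 2) : v + v = 0 := by
  ext1 i
  exact CharTwo.add_self_eq_zero (v i)

instance instMulW : Mul (W ι) := ⟨fun a b => ⟨a.v + b.v ∘ ⇑a.s.symm, a.s * b.s⟩⟩
instance instOneW : One (W ι) := ⟨⟨0, 1⟩⟩
instance instInvW : Inv (W ι) := ⟨fun a => ⟨a.v ∘ ⇑a.s, a.s⁻¹⟩⟩

theorem mul_v (a b : W ι) : (a * b).v = a.v + b.v ∘ ⇑a.s.symm := rfl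
theorem mul_s (a b : W ι) : (a * b).s = a.s * b.s := rfl
theorem one_v : (1 : W ι).v = 0 := rfl
theorem one_s : (1 : W ι).s = 1 := rfl
theorem inv_v (a : W ι) : (a⁻¹).v = a.v ∘ ⇑a.s := rfl
theorem inv_s (a : W ι) : (a⁻¹).s = a.s⁻¹ := rfl

instance instGroupW : Group (W ι) :=
  Group.ofLeftAxioms
    (by
      intro a b c
      ext i
      · show a.v i + b.v (a.s.symm i) + c.v ((a.s * b.s).symm i) = a.v i + (b.v (a.s.symm i) + c.v (b.s.symm (a.s.symm i)))
        rw [add_assoc]
        rfl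
      · rfl)
    (by
      intro a
      ext i
      · show 0 + a.v i = a.v i
        rw [zero_add]
      · rfl)
    (by
      intro a
      ext i
      · show a.v (a.s i) + a.v ((a.s⁻¹).symm i) = 0
        exact CharTwo.add_self_eq_zero _
      · show (a.s⁻¹ * a.s) i = i
        rw [inv_mul_cancel]; rfl)

/-- the projection on the permutations -/
def prS (ι : Type*) : W ι →* Perm ι where
  toFun a := a.s
  map_one' := rfl
  map_mul' _ _ := rfl

/-- vectors -/
def E (w : ι → ZMod 2) : W ι := ⟨w, 1⟩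

/-- permutations -/
def P (σ : Perm ι) : W ι := ⟨0, σ⟩

theorem E_v (w : ι → ZMod 2) : (E w).v = w := rfl
theorem E_s (w : ι → ZMod 2) : (E w).s = 1 := rfl
theorem P_v (σ : Perm ι) : (P σ).v = 0 := rfl
theorem P_s (σ : Perm ι) : (P σ).s = σ := rfl

theorem E_zero : E (0 : ι → ZMod 2) = 1 := rfl

theorem E_mul (v w : ι → ZMod 2) : E v * E w = E (v + w) := by
  ext i
  · rfl
  · rfl

theorem E_inj {v w : ι → ZMod 2} (h : E v = E w) : v = w := congrArg W.v h

theorem P_mul (σ τ : Perm ι) : P σ * P τ = P (σ * τ) := by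
  ext i
  · show (0 : ZMod 2) + 0 = 0
    rw [add_zero]
  · rfl

theorem P_one : P (1 : Perm ι) = 1 := rfl

theorem P_inv (σ : Perm ι) : (P σ)⁻¹ = P σ⁻¹ := by
  rw [inv_eq_iff_mul_eq_one, P_mul, mul_inv_cancel, P_one]

theorem E_inv (w : ι → ZMod 2) : (E w)⁻¹ = E w := by
  rw [inv_eq_iff_mul_eq_one, E_mul, add_self', E_zero]

theorem E_sq (w : ι → ZMod 2) : E w * E w = 1 := by
  rw [E_mul, add_self', E_zero]

theorem eq_E_mul_P (a : W ι) : a = E a.v * P a.s := by
  ext i
  · show a.v i = a.v i + 0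
    rw [add_zero]
  · rfl

theorem eq_E_of_s {a : W ι} (h : a.s = 1) : a = E a.v := by
  ext i
  · rfl
  · rw [h]; rfl

/-- conjugation of vectors -/
theorem conj_E (g : W ι) (w : ι → ZMod 2) : g * E w * g⁻¹ = E (w ∘ ⇑g.s.symm) := by
  rw [mul_inv_eq_iff_eq_mul]
  ext i
  · show g.v i + w (g.s.symm i) = w (g.s.symm i) + g.v i
    rw [add_comm]
  · rfl

/-- commutators with vectors -/
theorem comm_E (g : W ι) (w : ι → ZMod 2) : E w * g * (E w)⁻¹ * g⁻¹ = E (w + w ∘ ⇑g.s.symm) := by
  have h1 : g * E w * g⁻¹ = E (w ∘ ⇑g.s.symm) := conj_E g w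
  rw [E_inv, ← E_mul, ← h1]
  group

theorem comp_mul (w : ι → ZMod 2) (σ τ : Perm ι) : (w ∘ ⇑τ.symm) ∘ ⇑σ.symm = w ∘ ⇑(σ * τ).symm := rfl

end basic

section unit
variable {ι : Type*} [DecidableEq ι]

/-- unit vectors -/
def e (i : ι) : ι → ZMod 2 := Pi.single i 1

theorem e_self (i : ι) : e i i = 1 := Pi.single_eq_same i 1

theorem e_ne {i j : ι} (h : j ≠ i) : e i j = 0 := Pi.single_eq_of_ne h 1

theorem e_comp (i : ι) (σ : Perm ι) : e i ∘ ⇑σ.symm = e (σ i) := by
  ext1 j
  show e i (σ.symm j) = e (σ i) j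
  by_cases h : j = σ i
  · rw [h, symm_apply_apply, e_self, e_self]
  · rw [e_ne h, e_ne]
    intro h2
    exact h (by rw [← h2, apply_symm_apply])

theorem add_comp (v w : ι → ZMod 2) (σ : Perm ι) : (v + w) ∘ ⇑σ.symm = v ∘ ⇑σ.symm + w ∘ ⇑σ.symm := rfl

theorem zmod2 (x : ZMod 2) : x = 0 ∨ x = 1 := by revert x; decide

theorem zmod2_ne {x y : ZMod 2} (h : x ≠ y) : y = x + 1 := by revert x y; decide

variable [Fintype ι]

theorem sum_e (i : ι) : ∑ j, e i j = 1 := by
  unfold e
  rw [Finset.sum_pi_single']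
  simp

theorem sum_add (v w : ι → ZMod 2) : ∑ i, (v + w) i = ∑ i, v i + ∑ i, w i := Finset.sum_add_distrib

theorem sum_ee (i j : ι) : ∑ k, (e i + e j) k = 0 := by
  rw [sum_add, sum_e, sum_e]; decide

theorem sum_comp (w : ι → ZMod 2) (σ : Perm ι) : ∑ i, (w ∘ ⇑σ) i = ∑ i, w i := Equiv.sum_comp σ w

/-- expansion in unit vectors -/
theorem eq_sum_e (w : ι → ZMod 2) : w = ∑ i, w i • e i := by
  ext1 j
  rw [Finset.sum_apply]
  simp only [Pi.smul_apply, smul_eq_mul]
  rw [Finset.sum_eq_single j]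
  · rw [e_self, mul_one]
  · intro i _ h
    rw [e_ne h.symm, mul_zero]
  · intro h; exact absurd (Finset.mem_univ j) h

/-- even weight and even permutation -/
def Winf (ι : Type*) [Fintype ι] [DecidableEq ι] : Subgroup (W ι) where
  carrier := {g | ∑ i, g.v i = 0 ∧ Perm.sign g.s = 1}
  mul_mem' := by
    rintro g h ⟨hg1, hg2⟩ ⟨hh1, hh2⟩
    refine ⟨?_, by rw [mul_s, Perm.sign_mul, hg2, hh2, one_mul]⟩
    rw [mul_v, sum_add, hg1, zero_add]
    exact (sum_comp h.v g.s.symm).trans hh1
  one_mem' := ⟨by simp [one_v], Perm.sign_one⟩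
  inv_mem' := by
    rintro g ⟨hg1, hg2⟩
    exact ⟨(sum_comp g.v g.s).trans hg1, by rw [inv_s, Perm.sign_inv, hg2]⟩

theorem mem_Winf {g : W ι} : g ∈ Winf ι ↔ ∑ i, g.v i = 0 ∧ Perm.sign g.s = 1 := Iff.rfl

theorem E_mem_Winf {w : ι → ZMod 2} (h : ∑ i, w i = 0) : E w ∈ Winf ι := ⟨h, Perm.sign_one⟩

theorem P_mem_Winf {σ : Perm ι} (h : Perm.sign σ = 1) : P σ ∈ Winf ι := ⟨by simp [P_v], h⟩

/-- a subgroup `≠ 1` of the symmetric group normalised by the alternating group contains it -/
theorem alt_le (h5 : 5 ≤ Fintype.card ι) {L : Subgroup (Perm ι)} {τ : Perm ι} (hτ : τ ∈ L) (hτ1 : τ ≠ 1)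
    (hL : ∀ ρ : Perm ι, Perm.sign ρ = 1 → ∀ x ∈ L, ρ * x * ρ⁻¹ ∈ L) : alternatingGroup ι ≤ L := by
  -- a commutator in the alternating group
  have hn : Nontrivial ι := Fintype.one_lt_card_iff_nontrivial.1 (by omega)
  obtain ⟨i, hi⟩ : ∃ i, τ i ≠ i := by
    by_contra hcon
    push Not at hcon
    exact hτ1 (Perm.ext hcon)
  obtain ⟨k, hk1, hk2, hk3⟩ : ∃ k, k ≠ i ∧ k ≠ τ i ∧ k ≠ τ (τ i) := by
    by_contra hcon
    push Not at hcon
    have h1 : (Finset.univ : Finset ι) ⊆ {i, τ i, τ (τ i)} := by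
      intro k _
      by_cases h1 : k = i
      · simp [h1]
      by_cases h2 : k = τ i
      · simp [h2]
      · simp [hcon k h1 h2]
    have h2 := Finset.card_le_card h1
    have h3 : ({i, τ i, τ (τ i)} : Finset ι).card ≤ 3 := Finset.card_le_three
    rw [Finset.card_univ] at h2
    omega
  -- the three-cycle `i → τ i → k`, it does not commute with `τ`
  set ρ : Perm ι := swap i (τ i) * swap (τ i) k with hρ
  have hρs : Perm.sign ρ = 1 := by
    rw [hρ, Perm.sign_mul, Perm.sign_swap hi.symm, Perm.sign_swap hk2.symm]; rfl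
  have hρk : ρ k = i := by
    rw [hρ, Perm.mul_apply, swap_apply_right, swap_apply_right]
  have hρi : ρ i = τ i := by
    rw [hρ, Perm.mul_apply, swap_apply_of_ne_of_ne hi.symm hk1.symm, swap_apply_left]
  have hρt : ρ (τ i) = k := by
    rw [hρ, Perm.mul_apply, swap_apply_left, swap_apply_of_ne_of_ne hk1 hk2]
  have hne : ρ * τ ≠ τ * ρ := by
    intro h
    have h1 := congrArg (fun g : Perm ι => g i) h
    have h2 : ρ (τ i) = τ (ρ i) := h1
    rw [hρt, hρi] at h2
    exact hk3 h2
  have hcL : ρ * τ * ρ⁻¹ * τ⁻¹ ∈ L := L.mul_mem (hL ρ hρs τ hτ) (L.inv_mem hτ)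
  have hcA : Perm.sign (ρ * τ * ρ⁻¹ * τ⁻¹) = 1 := by
    rw [Perm.sign_mul, Perm.sign_mul, Perm.sign_mul, Perm.sign_inv, Perm.sign_inv, hρs, one_mul, mul_one,
      Int.units_mul_self]
  have hc1 : ρ * τ * ρ⁻¹ * τ⁻¹ ≠ 1 := by
    intro h
    rw [mul_inv_eq_one, mul_inv_eq_iff_eq_mul] at h
    exact hne h
  have hsimp : IsSimpleGroup (alternatingGroup ι) :=
    alternatingGroup.isSimpleGroup (by rw [Nat.card_eq_fintype_card]; exact h5)
  have hN : (L.subgroupOf (alternatingGroup ι)).Normal := by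
    refine ⟨fun x hx g => ?_⟩
    rw [Subgroup.mem_subgroupOf] at hx ⊢
    exact hL g (Perm.mem_alternatingGroup.1 g.2) _ hx
  rcases hsimp.eq_bot_or_eq_top_of_normal _ hN with h | h
  · exfalso
    rw [Subgroup.subgroupOf_eq_bot, disjoint_iff] at h
    have h1 : ρ * τ * ρ⁻¹ * τ⁻¹ ∈ L ⊓ alternatingGroup ι := ⟨hcL, Perm.mem_alternatingGroup.2 hcA⟩
    rw [h] at h1
    exact hc1 (Subgroup.mem_bot.1 h1)
  · rw [Subgroup.subgroupOf_eq_top] at h
    exact h

/-- an even permutation mapping two points to two others -/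
theorem exists_even (h4 : 4 ≤ Fintype.card ι) {i j k l : ι} (hij : i ≠ j) (hkl : k ≠ l) :
    ∃ σ : Perm ι, Perm.sign σ = 1 ∧ σ i = k ∧ σ j = l := by
  have key : ∃ σ : Perm ι, σ i = k ∧ σ j = l := by
    refine ⟨swap (swap i k j) l * swap i k, ?_, ?_⟩
    · rw [Perm.mul_apply, swap_apply_left, swap_apply_of_ne_of_ne _ hkl]
      intro h
      apply hij
      have := congrArg (swap i k) h
      rw [swap_apply_right, swap_apply_self] at this
      exact this
    · rw [Perm.mul_apply, swap_apply_left]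
  obtain ⟨σ, h1, h2⟩ := key
  rcases Int.units_eq_one_or (Perm.sign σ) with h | h
  · exact ⟨σ, h, h1, h2⟩
  · -- two other points
    have h3 : 1 < ((Finset.univ : Finset ι) \ {i, j}).card := by
      have h4 := Finset.le_card_sdiff ({i, j} : Finset ι) Finset.univ
      rw [Finset.card_univ] at h4
      have h5 : ({i, j} : Finset ι).card ≤ 2 := Finset.card_le_two
      omega
    obtain ⟨a, ha, b, hb, hab⟩ := Finset.one_lt_card.1 h3
    simp only [Finset.mem_sdiff, Finset.mem_univ, true_and, Finset.mem_insert, Finset.mem_singleton, not_or] at ha hb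
    refine ⟨σ * swap a b, ?_, ?_, ?_⟩
    · rw [Perm.sign_mul, h, Perm.sign_swap hab]; rfl
    · rw [Perm.mul_apply, swap_apply_of_ne_of_ne (Ne.symm ha.1) (Ne.symm hb.1), h1]
    · rw [Perm.mul_apply, swap_apply_of_ne_of_ne (Ne.symm ha.2) (Ne.symm hb.2), h2]

section normal
variable {K : Subgroup (W ι)} (hK : ∀ x ∈ Winf ι, ∀ k ∈ K, x * k * x⁻¹ ∈ K)
include hK

/-- all even vectors from one -/
theorem all_even (h4 : 4 ≤ Fintype.card ι) {u : ι → ZMod 2} (hu : E u ∈ K) {i j : ι} (hij : u i ≠ u j)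
    (w : ι → ZMod 2) (hw : ∑ k, w k = 0) : E w ∈ K := by
  have hne : i ≠ j := fun h => hij (by rw [h])
  -- a third point
  obtain ⟨k, hki, hkj⟩ : ∃ k, k ≠ i ∧ k ≠ j := by
    by_contra hcon
    push Not at hcon
    have h1 : (Finset.univ : Finset ι) ⊆ {i, j} := by
      intro k _
      by_cases h1 : k = i
      · simp [h1]
      · simp [hcon k h1]
    have h2 := Finset.card_le_card h1
    have h3 : ({i, j} : Finset ι).card ≤ 2 := Finset.card_le_two
    rw [Finset.card_univ] at h2
    omega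
  -- the three-cycle
  have h1 : ∃ x y : ι, x ≠ y ∧ E (e x + e y) ∈ K := by
    set ρ : Perm ι := swap i j * swap j k with hρ
    have hρs : Perm.sign ρ = 1 := by
      rw [hρ, Perm.sign_mul, Perm.sign_swap hne, Perm.sign_swap hkj.symm]; rfl
    have h2 := K.mul_mem hu (hK (P ρ) (P_mem_Winf hρs) _ hu)
    rw [conj_E, E_mul] at h2
    have hsy : (P ρ).s.symm = swap j k * swap i j := by
      show ρ⁻¹ = _
      rw [hρ, mul_inv_rev, swap_inv, swap_inv]
    rw [hsy] at h2
    have hi : (swap j k * swap i j : Perm ι) i = k := by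
      rw [Perm.mul_apply, swap_apply_left, swap_apply_left]
    have hj : (swap j k * swap i j : Perm ι) j = i := by
      rw [Perm.mul_apply, swap_apply_right, swap_apply_of_ne_of_ne hne hki.symm]
    have hk : (swap j k * swap i j : Perm ι) k = j := by
      rw [Perm.mul_apply, swap_apply_of_ne_of_ne hki hkj, swap_apply_right]
    have ho : ∀ l, l ≠ i → l ≠ j → l ≠ k → (swap j k * swap i j : Perm ι) l = l := by
      intro l h1 h2 h3
      rw [Perm.mul_apply, swap_apply_of_ne_of_ne h1 h2, swap_apply_of_ne_of_ne h2 h3]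
    have hz := zmod2_ne hij
    by_cases hik : u k = u i
    · -- `u k = u i ≠ u j` : values at `i`: 0, at `j` : 1, at `k` : 1
      refine ⟨j, k, hkj.symm, ?_⟩
      have h3 : e j + e k = u + u ∘ ⇑(swap j k * swap i j : Perm ι) := by
        ext1 l
        show e j l + e k l = u l + u ((swap j k * swap i j : Perm ι) l)
        by_cases l1 : l = i
        · rw [l1, hi, hik, e_ne hne, e_ne hki.symm, CharTwo.add_self_eq_zero, CharTwo.add_self_eq_zero]
        by_cases l2 : l = j
        · rw [l2, hj, e_self, e_ne hkj.symm, hz]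
          have : ∀ x : ZMod 2, 1 + 0 = x + 1 + x := by decide
          exact this _
        by_cases l3 : l = k
        · rw [l3, hk, e_self, e_ne hkj, hik, hz]
          have : ∀ x : ZMod 2, 0 + 1 = x + (x + 1) := by decide
          exact this _
        · rw [ho l l1 l2 l3, e_ne l2, e_ne l3, CharTwo.add_self_eq_zero, CharTwo.add_self_eq_zero]
      rw [h3]; exact h2
    · -- `u k = u j ≠ u i`
      have hjk : u k = u j := by
        have h4 := zmod2_ne (Ne.symm hik)
        rw [h4, hz]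
      refine ⟨i, j, hne, ?_⟩
      have h3 : e i + e j = u + u ∘ ⇑(swap j k * swap i j : Perm ι) := by
        ext1 l
        show e i l + e j l = u l + u ((swap j k * swap i j : Perm ι) l)
        by_cases l1 : l = i
        · rw [l1, hi, hjk, e_self, e_ne hne, hz]
          have : ∀ x : ZMod 2, 1 + 0 = x + (x + 1) := by decide
          exact this _
        by_cases l2 : l = j
        · rw [l2, hj, e_self, e_ne hne.symm, hz]
          have : ∀ x : ZMod 2, 0 + 1 = x + 1 + x := by decide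
          exact this _
        by_cases l3 : l = k
        · rw [l3, hk, hjk, e_ne hki, e_ne hkj, CharTwo.add_self_eq_zero, CharTwo.add_self_eq_zero]
        · rw [ho l l1 l2 l3, e_ne l1, e_ne l2, CharTwo.add_self_eq_zero, CharTwo.add_self_eq_zero]
      rw [h3]; exact h2
  obtain ⟨x, y, hxy, h2⟩ := h1
  have h3 : ∀ k l, k ≠ l → E (e k + e l) ∈ K := by
    intro k l hkl
    obtain ⟨σ, hσ, hσ1, hσ2⟩ := exists_even h4 hxy hkl
    have h5 := hK (P σ) (P_mem_Winf hσ) _ h2
    rw [conj_E, add_comp, P_s, e_comp, e_comp, hσ1, hσ2] at h5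
    exact h5
  -- sums
  have h4' : ∀ s : Finset ι, E (∑ k ∈ s, w k • (e k + e i)) ∈ K := by
    intro s
    induction s using Finset.induction_on with
    | empty => rw [Finset.sum_empty, E_zero]; exact K.one_mem
    | insert k s hk ih =>
      rw [Finset.sum_insert hk, ← E_mul]
      refine K.mul_mem ?_ ih
      rcases zmod2 (w k) with h | h
      · rw [h, zero_smul, E_zero]; exact K.one_mem
      · rw [h, one_smul]
        by_cases hk0 : k = i
        · rw [hk0, add_self', E_zero]; exact K.one_mem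
        · exact h3 k i hk0
  have h5 : ∑ k, w k • (e k + e i) = w := by
    simp only [smul_add, Finset.sum_add_distrib, ← Finset.sum_smul, hw, zero_smul, add_zero]
    exact (eq_sum_e w).symm
  have h6 := h4' Finset.univ
  rwa [h5] at h6

/-- **A subgroup normalised by `Winf` consists of vectors or contains `Winf`.** -/
theorem cases (h5 : 5 ≤ Fintype.card ι) : (∀ k ∈ K, k.s = 1) ∨ Winf ι ≤ K := by
  by_cases h : ∀ k ∈ K, k.s = 1
  · exact Or.inl h
  right
  push Not at h
  obtain ⟨g, hg, hg1⟩ := h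
  obtain ⟨i, hi⟩ : ∃ i, g.s i ≠ i := by
    by_contra hcon
    push Not at hcon
    exact hg1 (Perm.ext hcon)
  -- a vector which is not constant
  have hvec : ∀ w, ∑ k, w k = 0 → E w ∈ K := by
    have h1 : ∀ k, E (e i + e k + (e (g.s i) + e (g.s k))) ∈ K := by
      intro k
      have h2 := hK (E (e i + e k)) (E_mem_Winf (sum_ee i k)) _ hg
      have h3 := K.mul_mem h2 (K.inv_mem hg)
      rw [comm_E, add_comp, e_comp, e_comp] at h3
      exact h3
    -- `k` different from `i`, `σ i`, `σ⁻¹ i`: value 1 at `i`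
    obtain ⟨k, hk1, hk2, hk3⟩ : ∃ k, k ≠ i ∧ k ≠ g.s i ∧ k ≠ g.s.symm i := by
      by_contra hcon
      push Not at hcon
      have h1 : (Finset.univ : Finset ι) ⊆ {i, g.s i, g.s.symm i} := by
        intro k _
        by_cases h1 : k = i
        · simp [h1]
        by_cases h2 : k = g.s i
        · simp [h2]
        · simp [hcon k h1 h2]
      have h2 := Finset.card_le_card h1
      have h3 : ({i, g.s i, g.s.symm i} : Finset ι).card ≤ 3 := Finset.card_le_three
      rw [Finset.card_univ] at h2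
      omega
    have hgk : g.s k ≠ i := fun h => hk3 (by rw [← h, symm_apply_apply])
    -- a point outside `{i, k, σ i, σ k}`
    obtain ⟨l, hl1, hl2, hl3, hl4⟩ : ∃ l, l ≠ i ∧ l ≠ k ∧ l ≠ g.s i ∧ l ≠ g.s k := by
      by_contra hcon
      push Not at hcon
      have h1 : (Finset.univ : Finset ι) ⊆ {i, k, g.s i, g.s k} := by
        intro l _
        by_cases h1 : l = i
        · simp [h1]
        by_cases h2 : l = k
        · simp [h2]
        by_cases h3 : l = g.s i
        · simp [h3]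
        · simp [hcon l h1 h2 h3]
      have h2 := Finset.card_le_card h1
      have h3 : ({i, k, g.s i, g.s k} : Finset ι).card ≤ 4 := Finset.card_le_four
      rw [Finset.card_univ] at h2
      omega
    intro w hw
    refine all_even hK (by omega) (h1 k) (i := i) (j := l) ?_ w hw
    show e i i + e k i + (e (g.s i) i + e (g.s k) i) ≠ e i l + e k l + (e (g.s i) l + e (g.s k) l)
    rw [e_self, e_ne hk1.symm, e_ne hi.symm, e_ne hgk.symm, e_ne hl1, e_ne hl2, e_ne hl3, e_ne hl4]
    decide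
  -- the permutations
  let L : Subgroup (Perm ι) :=
    { carrier := {τ | P τ ∈ K}
      mul_mem' := by
        intro τ ρ h1 h2
        show P (τ * ρ) ∈ K
        rw [← P_mul]
        exact K.mul_mem h1 h2
      one_mem' := by show P 1 ∈ K; rw [P_one]; exact K.one_mem
      inv_mem' := by
        intro τ h1
        show P τ⁻¹ ∈ K
        rw [← P_inv]
        exact K.inv_mem h1 }
  have hL : ∀ ρ : Perm ι, Perm.sign ρ = 1 → ∀ x ∈ L, ρ * x * ρ⁻¹ ∈ L := by
    intro ρ hρ x hx
    show P (ρ * x * ρ⁻¹) ∈ K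
    rw [← P_mul, ← P_mul, ← P_inv]
    exact hK _ (P_mem_Winf hρ) _ hx
  -- commutators
  have hcom : ∀ ρ : Perm ι, Perm.sign ρ = 1 → ρ * g.s * ρ⁻¹ * g.s⁻¹ ∈ L := by
    intro ρ hρ
    have h1 : P ρ * g * (P ρ)⁻¹ * g⁻¹ ∈ K := K.mul_mem (hK _ (P_mem_Winf hρ) _ hg) (K.inv_mem hg)
    set x := P ρ * g * (P ρ)⁻¹ * g⁻¹ with hx
    have h2 : x.s = ρ * g.s * ρ⁻¹ * g.s⁻¹ := rfl
    have h3 : ∑ k, x.v k = 0 := by
      have h4 : x.v = g.v ∘ ⇑ρ.symm + (g.v ∘ ⇑g.s) ∘ ⇑(ρ * g.s * ρ⁻¹).symm := by
        ext1 k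
        show (0 : ZMod 2) + g.v (ρ.symm k) + 0 + (g.v ∘ ⇑g.s) ((ρ * g.s * ρ⁻¹).symm k) = _
        rw [zero_add, add_zero]
        rfl
      rw [h4, sum_add, sum_comp, sum_comp, sum_comp, CharTwo.add_self_eq_zero]
    have h4 : P x.s = E x.v * x := by
      have h5 := eq_E_mul_P x
      calc P x.s = E x.v * (E x.v * P x.s) := by rw [← mul_assoc, E_sq, one_mul]
        _ = E x.v * x := by rw [← h5]
    show P (ρ * g.s * ρ⁻¹ * g.s⁻¹) ∈ K
    rw [← h2, h4]
    exact K.mul_mem (hvec _ h3) h1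
  obtain ⟨τ, hτ, hτ1⟩ : ∃ τ ∈ L, τ ≠ 1 := by
    -- a three-cycle not commuting with `g.s`
    obtain ⟨k, hk1, hk2, hk3⟩ : ∃ k, k ≠ i ∧ k ≠ g.s i ∧ k ≠ g.s (g.s i) := by
      by_contra hcon
      push Not at hcon
      have h1 : (Finset.univ : Finset ι) ⊆ {i, g.s i, g.s (g.s i)} := by
        intro k _
        by_cases h1 : k = i
        · simp [h1]
        by_cases h2 : k = g.s i
        · simp [h2]
        · simp [hcon k h1 h2]
      have h2 := Finset.card_le_card h1
      have h3 : ({i, g.s i, g.s (g.s i)} : Finset ι).card ≤ 3 := Finset.card_le_three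
      rw [Finset.card_univ] at h2
      omega
    set ρ : Perm ι := swap i (g.s i) * swap (g.s i) k with hρ
    have hρs : Perm.sign ρ = 1 := by
      rw [hρ, Perm.sign_mul, Perm.sign_swap hi.symm, Perm.sign_swap hk2.symm]; rfl
    have hρi : ρ i = g.s i := by
      rw [hρ, Perm.mul_apply, swap_apply_of_ne_of_ne hi.symm hk1.symm, swap_apply_left]
    have hρt : ρ (g.s i) = k := by
      rw [hρ, Perm.mul_apply, swap_apply_left, swap_apply_of_ne_of_ne hk1 hk2]
    refine ⟨_, hcom ρ hρs, ?_⟩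
    intro h
    rw [mul_inv_eq_one, mul_inv_eq_iff_eq_mul] at h
    have h1 := congrArg (fun g : Perm ι => g i) h
    have h2 : ρ (g.s i) = g.s (ρ i) := h1
    rw [hρt, hρi] at h2
    exact hk3 h2
  have hA := alt_le h5 hτ hτ1 hL
  rintro x ⟨hx1, hx2⟩
  rw [eq_E_mul_P x]
  exact K.mul_mem (hvec _ hx1) (hA (Perm.mem_alternatingGroup.2 hx2))

end normal

/-- elements commuting with all even vectors are vectors -/
theorem cent_even (h3 : 3 ≤ Fintype.card ι) {g : W ι}
    (h : ∀ w, ∑ i, w i = 0 → g * E w = E w * g) : g.s = 1 := by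
  ext1 i
  by_contra hne
  have hne' : g.s i ≠ i := hne
  obtain ⟨k, hk1, hk2⟩ : ∃ k, k ≠ i ∧ k ≠ g.s i := by
    by_contra hcon
    push Not at hcon
    have h1 : (Finset.univ : Finset ι) ⊆ {i, g.s i} := by
      intro k _
      by_cases h1 : k = i
      · simp [h1]
      · simp [hcon k h1]
    have h2 := Finset.card_le_card h1
    have h3 : ({i, g.s i} : Finset ι).card ≤ 2 := Finset.card_le_two
    rw [Finset.card_univ] at h2
    omega
  have h2 := h (e i + e k) (sum_ee i k)
  have h4 : E ((e i + e k) ∘ ⇑g.s.symm) = E (e i + e k) := by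
    rw [← conj_E, h2, mul_inv_cancel_right]
  have h5 := congrFun (E_inj h4) (g.s i)
  rw [add_comp, e_comp, e_comp] at h5
  have h6 : (e (g.s i) + e (g.s k)) (g.s i) = 1 := by
    have : g.s i ≠ g.s k := fun h => hk1 (g.s.injective h).symm
    show e (g.s i) (g.s i) + e (g.s k) (g.s i) = 1
    rw [e_self, e_ne this, add_zero]
  have h7 : (e i + e k) (g.s i) = 0 := by
    show e i (g.s i) + e k (g.s i) = 0
    rw [e_ne hne', e_ne (Ne.symm hk2), add_zero]
  rw [h6, h7] at h5
  exact absurd h5 (by decide)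

/-- elements commuting with `Winf` -/
theorem cent_inf (h4 : 4 ≤ Fintype.card ι) {g : W ι} (h : ∀ x ∈ Winf ι, g * x = x * g) : g = 1 ∨ g = E 1 := by
  have h1 : g.s = 1 := cent_even (by omega) fun w hw => h _ (E_mem_Winf hw)
  have h2 : g = E g.v := eq_E_of_s h1
  have hn : Nonempty ι := Fintype.card_pos_iff.1 (by omega)
  obtain ⟨o⟩ := hn
  have h3 : ∀ i, g.v i = g.v o := by
    intro i
    by_cases hio : i = o
    · rw [hio]
    obtain ⟨σ, hσ, hσ1, -⟩ := exists_even h4 (i := o) (j := i) (k := i) (l := o) (Ne.symm hio) hio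
    have h5 := h (P σ) (P_mem_Winf hσ)
    have h6 : P σ * g * (P σ)⁻¹ = g := by rw [← h5, mul_inv_cancel_right]
    rw [h2, conj_E] at h6
    have h7 := congrFun (E_inj h6) i
    have h8 : (P σ).s.symm i = o := by
      show σ.symm i = o
      rw [← hσ1, symm_apply_apply]
    have h9 : g.v ((P σ).s.symm i) = g.v i := h7
    rw [h8] at h9
    exact h9.symm
  rcases zmod2 (g.v o) with h0 | h0
  · left
    rw [h2, ← E_zero]
    congr 1
    ext1 i
    rw [h3 i, h0]; rfl
  · right
    rw [h2]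
    congr 1
    ext1 i
    rw [h3 i, h0]; rfl

/-- central elements -/
theorem E_one_comm (g : W ι) : g * E 1 = E 1 * g := by
  have h := conj_E g (1 : ι → ZMod 2)
  have h2 : ((1 : ι → ZMod 2) ∘ ⇑g.s.symm) = 1 := rfl
  rw [h2] at h
  exact mul_inv_eq_iff_eq_mul.1 h

/-- **Two different commutators with an even permutation.** -/
theorem two_comm (h5 : 5 ≤ Fintype.card ι) {σ : Perm ι} (hσ : Perm.sign σ = 1) (hσ1 : σ ≠ 1) :
    ∃ w w' : ι → ZMod 2, ∑ i, w i = 0 ∧ ∑ i, w' i = 0 ∧ w + w ∘ ⇑σ.symm ≠ 0 ∧ w' + w' ∘ ⇑σ.symm ≠ 0 ∧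
      w + w ∘ ⇑σ.symm ≠ w' + w' ∘ ⇑σ.symm := by
  by_contra hcon
  push Not at hcon
  -- `u x = e x + e (σ x)`
  have hu : ∀ x y : ι, (e x + e y) + (e x + e y) ∘ ⇑σ.symm = (e x + e (σ x)) + (e y + e (σ y)) := by
    intro x y
    rw [add_comp, e_comp, e_comp]
    abel
  obtain ⟨i, hi⟩ : ∃ i, σ i ≠ i := by
    by_contra hcon
    push Not at hcon
    exact hσ1 (Perm.ext hcon)
  -- equality of the `u`
  have heq : ∀ x y : ι, (e x + e (σ x)) + (e y + e (σ y)) = 0 → x = y ∨ (σ x = x ∧ σ y = y) ∨ (y = σ x ∧ σ y = x) := by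
    intro x y h
    by_cases hxy : x = y
    · exact Or.inl hxy
    right
    have h1 := congrFun h x
    have h2 := congrFun h y
    have h1' : e x x + e (σ x) x + (e y x + e (σ y) x) = 0 := h1
    have h2' : e x y + e (σ x) y + (e y y + e (σ y) y) = 0 := h2
    rw [e_self, e_ne hxy] at h1'
    rw [e_self, e_ne (Ne.symm hxy)] at h2'
    by_cases h3 : σ x = x
    · left
      refine ⟨h3, ?_⟩
      have h4 : σ x ≠ y := by rw [h3]; exact hxy
      rw [e_ne (Ne.symm h4)] at h2'
      by_contra h5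
      rw [e_ne (Ne.symm h5)] at h2'
      exact absurd h2' (by decide)
    · right
      rw [e_ne (Ne.symm h3)] at h1'
      have h4 : σ y = x := by
        by_contra h5
        rw [e_ne (Ne.symm h5)] at h1'
        exact absurd h1' (by decide)
      refine ⟨?_, h4⟩
      rw [h4, e_ne (Ne.symm hxy)] at h2'
      by_contra h5
      rw [e_ne h5] at h2'
      exact absurd h2' (by decide)
  -- all `u x + u y ≠ 0` are equal
  have hall : ∀ x y x' y' : ι, (e x + e (σ x)) + (e y + e (σ y)) ≠ 0 → (e x' + e (σ x')) + (e y' + e (σ y')) ≠ 0 →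
      (e x + e (σ x)) + (e y + e (σ y)) = (e x' + e (σ x')) + (e y' + e (σ y')) := by
    intro x y x' y' h1 h2
    rw [← hu, ← hu] at *
    exact hcon _ _ (sum_ee x y) (sum_ee x' y') h1 h2
  -- three points with different `u`: contradiction
  have hthree : ∀ x y z : ι, (e x + e (σ x)) + (e y + e (σ y)) ≠ 0 → (e x + e (σ x)) + (e z + e (σ z)) ≠ 0 →
      (e y + e (σ y)) + (e z + e (σ z)) ≠ 0 → False := by
    intro x y z h1 h2 h3
    have h4 := hall x y x z h1 h2
    apply h3
    have h5 : (e y + e (σ y)) = (e z + e (σ z)) := add_left_cancel h4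
    rw [h5]
    exact add_self' _
  -- choose the points
  by_cases hfix : ∃ f, σ f = f
  · obtain ⟨f, hf⟩ := hfix
    -- another moved point not in `{i, σ i}` unless `σ` is a transposition
    have hif : (e i + e (σ i)) + (e f + e (σ f)) ≠ 0 := by
      intro h
      rcases heq i f h with h1 | ⟨h1, -⟩ | ⟨h1, h2⟩
      · exact hi (by rw [h1]; exact hf)
      · exact hi h1
      · exact hi (by rw [hf] at h2; rw [← h2]; exact hf)
    have hmoved : ∀ y, σ y ≠ y → y = i ∨ (y = σ i ∧ σ y = i) := by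
      intro y hy
      by_contra hno
      push Not at hno
      refine hthree i f y hif ?_ ?_
      · intro h
        rcases heq i y h with h1 | ⟨h1, -⟩ | ⟨h1, h2⟩
        · exact hno.1 h1.symm
        · exact hi h1
        · exact hno.2 h1 h2
      · intro h
        rcases heq f y h with h1 | ⟨-, h1⟩ | ⟨h1, h2⟩
        · exact hy (by rw [← h1]; exact hf)
        · exact hy h1
        · exact hy (by rw [h1, hf]; exact hf)
    have hsi : σ (σ i) = i := by
      rcases hmoved (σ i) (fun h => hi (σ.injective h)) with h | ⟨-, h⟩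
      · exact absurd h hi
      · exact h
    have hsw : σ = swap i (σ i) := by
      ext1 y
      by_cases h1 : y = i
      · rw [h1, swap_apply_left]
      by_cases h2 : y = σ i
      · rw [h2, swap_apply_right, hsi]
      · rw [swap_apply_of_ne_of_ne h1 h2]
        by_contra h3
        rcases hmoved y h3 with h | ⟨h, -⟩
        · exact h1 h
        · exact h2 h
    rw [hsw, Perm.sign_swap hi.symm] at hσ
    exact absurd hσ (by decide)
  · push Not at hfix
    -- a point outside `{i, σ i, σ⁻¹ i}`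
    have hex : ∀ F : Finset ι, F.card ≤ 4 → ∃ y, y ∉ F := by
      intro F hF
      by_contra hno
      push Not at hno
      have h1 : (Finset.univ : Finset ι) ⊆ F := fun y _ => hno y
      have h2 := Finset.card_le_card h1
      rw [Finset.card_univ] at h2
      omega
    obtain ⟨y, hy⟩ := hex {i, σ i} (le_trans Finset.card_le_two (by norm_num))
    simp only [Finset.mem_insert, Finset.mem_singleton, not_or] at hy
    obtain ⟨z, hz⟩ := hex {i, σ i, y, σ y} Finset.card_le_four
    simp only [Finset.mem_insert, Finset.mem_singleton, not_or] at hz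
    refine hthree i y z ?_ ?_ ?_
    · intro h
      rcases heq i y h with h1 | ⟨h1, -⟩ | ⟨h1, -⟩
      · exact hy.1 h1.symm
      · exact hi h1
      · exact hy.2 h1
    · intro h
      rcases heq i z h with h1 | ⟨h1, -⟩ | ⟨h1, -⟩
      · exact hz.1 h1.symm
      · exact hi h1
      · exact hz.2.1 h1
    · intro h
      rcases heq y z h with h1 | ⟨h1, -⟩ | ⟨h1, -⟩
      · exact hz.2.2.1 h1.symm
      · exact hfix _ h1
      · exact hz.2.2.2 h1

/-- `W ι` as a type of pairs -/
def equivProd (ι : Type*) : W ι ≃ (ι → ZMod 2) × Perm ι where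
  toFun a := (a.v, a.s)
  invFun p := ⟨p.1, p.2⟩
  left_inv _ := rfl
  right_inv _ := rfl

instance instFiniteW : Finite (W ι) := Finite.of_equiv _ (equivProd ι).symm

/-- the order of `W ι` -/
theorem card_W : Nat.card (W ι) = 2 ^ Fintype.card ι * (Fintype.card ι).factorial := by
  rw [Nat.card_congr (equivProd ι), Nat.card_prod, Nat.card_eq_fintype_card, Nat.card_eq_fintype_card,
    Fintype.card_fun, ZMod.card, Fintype.card_perm]

end unit

end Cfsg.Agent.H217.SP
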