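import Cfsg.Agent.H217.Red

/-!
# The minimal normal subgroup is simple and contains `t` (helper217, S3191)
-/

set_option autoImplicit false

namespace Cfsg.Agent.H217.Red

open Subgroup Cfsg.Agent.H217.SP Cfsg.Agent.Lib.Cores Cfsg.Agent.H386.Factor

variable {G : Type*} [Group G] {ι : Type*} [Fintype ι] [DecidableEq ι]

/-- a factor of a normal subgroup -/
structure Fac (N T : Subgroup G) : Prop where
  le : T ≤ N
  ne_bot : T ≠ ⊥
  simple : ∀ K : Subgroup G, K ≤ T → (∀ t ∈ T, ∀ k ∈ K, t * k * t⁻¹ ∈ K) → K = ⊥ ∨ K = T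
  centerless : ∀ z ∈ T, (∀ t ∈ T, z * t = t * z) → z = 1
  norm : ∀ n ∈ N, ∀ t ∈ T, n * t * n⁻¹ ∈ T

theorem mem_conj {T : Subgroup G} {g x : G} : x ∈ T.map (MulAut.conj g).toMonoidHom ↔ g⁻¹ * x * g ∈ T := by
  constructor
  · rintro ⟨y, hy, rfl⟩
    have : g⁻¹ * ((MulAut.conj g).toMonoidHom y) * g = y := by
      show g⁻¹ * (g * y * g⁻¹) * g = y
      group
    rw [this]; exact hy
  · intro h
    refine ⟨_, h, ?_⟩
    show g * (g⁻¹ * x * g) * g⁻¹ = x
    group

theorem Fac.conj {N T : Subgroup G} (hN : N.Normal) (h : Fac N T) (g : G) :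
    Fac N (T.map (MulAut.conj g).toMonoidHom) where
  le := by
    rintro _ ⟨y, hy, rfl⟩
    exact hN.conj_mem y (h.le hy) g
  ne_bot := by
    intro h1
    apply h.ne_bot
    rw [eq_bot_iff]
    intro y hy
    have h2 : g * y * g⁻¹ ∈ T.map (MulAut.conj g).toMonoidHom := ⟨y, hy, rfl⟩
    rw [h1, mem_bot] at h2
    rw [mem_bot]
    have h3 : y = g⁻¹ * (g * y * g⁻¹) * g := by group
    rw [h3, h2]; group
  simple := by
    intro K hK hKn
    have h1 : K.map (MulAut.conj g⁻¹).toMonoidHom ≤ T := by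
      intro x hx
      rw [mem_conj, inv_inv] at hx
      have h2 := mem_conj.1 (hK hx)
      have h3 : g⁻¹ * (g * x * g⁻¹) * g = x := by group
      rwa [h3] at h2
    rcases h.simple _ h1 (fun u hu k hk => by
      rw [mem_conj, inv_inv] at hk ⊢
      have h2 := hKn (g * u * g⁻¹) ⟨u, hu, rfl⟩ _ hk
      have h3 : g * u * g⁻¹ * (g * k * g⁻¹) * (g * u * g⁻¹)⁻¹ = g * (u * k * u⁻¹) * g⁻¹ := by group
      rwa [h3] at h2) with h2 | h2
    · left
      rw [eq_bot_iff]
      intro x hx
      have h3 : g⁻¹ * x * g ∈ K.map (MulAut.conj g⁻¹).toMonoidHom := by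
        rw [mem_conj, inv_inv]
        have : g * (g⁻¹ * x * g) * g⁻¹ = x := by group
        rwa [this]
      rw [h2, mem_bot] at h3
      rw [mem_bot]
      have h4 : x = g * (g⁻¹ * x * g) * g⁻¹ := by group
      rw [h4, h3]; group
    · right
      apply le_antisymm hK
      rintro _ ⟨y, hy, rfl⟩
      rw [← h2] at hy
      have hy' := mem_conj.1 hy
      rw [inv_inv] at hy'
      exact hy'
  centerless := by
    intro z hz hzc
    rw [mem_conj] at hz
    have h1 := h.centerless _ hz (fun u hu => by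
      have h2 := hzc (g * u * g⁻¹) ⟨u, hu, rfl⟩
      have h3 : g⁻¹ * z * g * u = g⁻¹ * (z * (g * u * g⁻¹)) * g := by group
      have h4 : u * (g⁻¹ * z * g) = g⁻¹ * (g * u * g⁻¹ * z) * g := by group
      rw [h3, h4, h2])
    have h4 : z = g * (g⁻¹ * z * g) * g⁻¹ := by group
    rw [h4, h1]; group
  norm := by
    intro n hn x hx
    rw [mem_conj] at hx ⊢
    have h1 := hN.conj_mem n hn g⁻¹
    rw [inv_inv] at h1
    have h2 := h.norm _ h1 _ hx
    have h3 : g⁻¹ * n * g * (g⁻¹ * x * g) * (g⁻¹ * n * g)⁻¹ = g⁻¹ * (n * x * n⁻¹) * g := by group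
    rwa [h3] at h2

/-- an element normalising a finite subgroup -/
theorem norm_inv [Finite G] {T : Subgroup G} {g : G} (h : ∀ u ∈ T, g * u * g⁻¹ ∈ T) : ∀ u ∈ T, g⁻¹ * u * g ∈ T := by
  have h1 : ∀ n : ℕ, ∀ u ∈ T, g ^ n * u * (g ^ n)⁻¹ ∈ T := by
    intro n
    induction n with
    | zero => intro u hu; simpa using hu
    | succ n ih =>
      intro u hu
      have h2 := ih _ (h u hu)
      have h3 : g ^ n * (g * u * g⁻¹) * (g ^ n)⁻¹ = g ^ (n + 1) * u * (g ^ (n + 1))⁻¹ := by
        rw [pow_succ]; group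
      rwa [h3] at h2
  intro u hu
  have h2 := h1 (orderOf g - 1) u hu
  have h3 : g ^ (orderOf g - 1) = g⁻¹ := by
    rw [eq_inv_iff_mul_eq_one, ← pow_succ, Nat.sub_add_cancel (orderOf_pos g), pow_orderOf_eq_one]
  rw [h3, inv_inv] at h2
  exact h2

namespace Sit

variable {t : G} {f : G → W ι} (h : Sit t f)
include h

/-- a factor does not commute with `t` -/
theorem not_comm [Finite G] {N T : Subgroup G} (hN : N.Normal) (hT : Fac N T) (hc : ∀ u ∈ T, u * t = t * u) :
    False := by
  have hsix := h.six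
  have hTC : T ≤ Ce t := fun u hu => mem_Ce.2 (hc u hu)
  -- the kernel
  let Kr : Subgroup G :=
    { carrier := {u | u ∈ T ∧ f u = 1}
      mul_mem' := by
        rintro x y ⟨hx1, hx2⟩ ⟨hy1, hy2⟩
        exact ⟨mul_mem hx1 hy1, by rw [h.mul _ (hTC hx1) _ (hTC hy1), hx2, hy2, one_mul]⟩
      one_mem' := ⟨one_mem _, h.one⟩
      inv_mem' := by
        rintro x ⟨hx1, hx2⟩
        exact ⟨inv_mem hx1, by rw [h.inv (hTC hx1), hx2, inv_one]⟩ }
  have hKr : Kr = ⊥ := by
    rcases hT.simple Kr (fun x hx => hx.1) (fun u hu k hk => ⟨mul_mem (mul_mem hu hk.1) (inv_mem hu), by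
      rw [h.conj (hTC hu) (hTC hk.1), hk.2, mul_one, mul_inv_cancel]⟩) with h1 | h1
    · exact h1
    · exfalso
      -- exponent three
      have h3 : IsPGroup 3 T := by
        rintro ⟨u, hu⟩
        refine ⟨1, Subtype.ext ?_⟩
        show u ^ 3 ^ 1 = 1
        rw [← h1] at hu
        have h4 := h.ker u (hTC hu.1) hu.2
        rw [pow_one, pow_succ, pow_two]
        exact h4
      have hnt : Nontrivial T := (Subgroup.nontrivial_iff_ne_bot T).2 hT.ne_bot
      have hp3 : Fact (Nat.Prime 3) := ⟨Nat.prime_three⟩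
      have hz := h3.center_nontrivial
      obtain ⟨⟨z, hz1⟩, hz2⟩ := exists_ne (1 : center T)
      apply hz2
      apply Subtype.ext
      apply Subtype.ext
      refine hT.centerless _ z.2 fun u hu => ?_
      have h4 := mem_center_iff.1 hz1 ⟨u, hu⟩
      exact (congrArg Subtype.val h4).symm
  have hinj : ∀ x ∈ T, ∀ y ∈ T, f x = f y → x = y := by
    intro x hx y hy hxy
    have h1 : x * y⁻¹ ∈ Kr := ⟨mul_mem hx (inv_mem hy), by
      rw [h.mul _ (hTC hx) _ (inv_mem (hTC hy)), h.inv (hTC hy), hxy, mul_inv_cancel]⟩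
    rw [hKr, mem_bot] at h1
    exact mul_inv_eq_one.1 h1
  have hns : ¬ ∀ u ∈ T, (f u).s = 1 := by
    intro hs
    apply hT.ne_bot
    rw [eq_bot_iff]
    intro z hz
    rw [mem_bot]
    refine hT.centerless z hz fun u hu => hinj _ (mul_mem hz hu) _ (mul_mem hu hz) ?_
    rw [h.mul _ (hTC hz) _ (hTC hu), h.mul _ (hTC hu) _ (hTC hz), eq_E_of_s (hs z hz), eq_E_of_s (hs u hu),
      E_mul, E_mul, add_comm]
  rcases h.img_cases hN with h1 | h1
  · exact hns fun u hu => h1 u (hT.le hu) (hTC hu)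
  · rcases cases (h.img_norm (K := T) h1 hT.norm) (by omega) with h2 | h2
    · exact hns fun u hu => h2 _ ⟨u, hu, hTC hu, rfl⟩
    · have htT := h.mem_of_E_one (h2 h.E_one_mem_Winf)
      exact h.ne (hT.centerless t htT fun u hu => (hc u hu).symm)

variable [Finite G] (S : Sylow 2 G) (hS : (S : Subgroup G) ≤ Ce t)
include S hS

/-- the part of `t` in a factor is `t` -/
theorem part_eq {N T : Subgroup G} (hN : N.Normal) (hF : IsFactor N T) {x c : G} (hx : x ∈ T) (hcN : c ∈ N)
    (hcT : ∀ u ∈ T, c * u = u * c) (htx : t = x * c) : x = t := by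
  have hsix := h.six
  have hT : Fac N T := ⟨hF.le, hF.ne_bot, hF.simple, hF.centerless, hF.norm⟩
  have hxc : x * c = c * x := (hcT x hx).symm
  -- elements of `T` commute with `t` iff they commute with `x`
  have hx1 : x ≠ 1 := by
    intro e1
    refine h.not_comm hN hT fun u hu => ?_
    rw [htx, e1, one_mul]
    exact (hcT u hu).symm
  have hxx : x * x = 1 := by
    apply hT.centerless _ (mul_mem hx hx)
    intro u hu
    have h1 : x * x = (c * c)⁻¹ := by
      apply eq_inv_of_mul_eq_one_left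
      calc x * x * (c * c) = x * (x * c) * c := by group
        _ = x * (c * x) * c := by rw [hxc]
        _ = (x * c) * (x * c) := by group
        _ = 1 := by rw [← htx, h.tt]
    have h2 : c * c * u = u * (c * c) := by
      rw [mul_assoc, hcT u hu, ← mul_assoc, hcT u hu, mul_assoc]
    rw [h1]
    have h3 : u * (c * c)⁻¹ = (c * c)⁻¹ * (c * c * u) * (c * c)⁻¹ := by group
    rw [h3, h2]; group
  have hxC : x ∈ Ce t := by
    rw [mem_Ce, htx, mul_assoc x c x, ← hxc]
  -- (c)
  have hcc : ∀ g ∈ Ce t, (g * x * g⁻¹ = x ∧ ∀ u ∈ T, g * u * g⁻¹ ∈ T) ∨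
      (∀ s ∈ T, ∀ u ∈ T, s * (g * u * g⁻¹) = (g * u * g⁻¹) * s) := by
    intro g hg
    rcases hF.conj g with h1 | h1
    · left
      refine ⟨?_, h1⟩
      have hinv := norm_inv h1
      have h2 : t = (g * x * g⁻¹) * (g * c * g⁻¹) := by
        have h3 : g * t * g⁻¹ = t := mul_inv_eq_iff_eq_mul.2 (mem_Ce.1 hg)
        rw [← h3, htx]; group
      have hc' : ∀ u ∈ T, (g * c * g⁻¹) * u = u * (g * c * g⁻¹) := by
        intro u hu
        have h3 := hcT _ (hinv u hu)
        have h4 : g * c * g⁻¹ * u = g * (c * (g⁻¹ * u * g)) * g⁻¹ := by group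
        have h5 : u * (g * c * g⁻¹) = g * ((g⁻¹ * u * g) * c) * g⁻¹ := by group
        rw [h4, h5, h3]
      have h3 : (g * x * g⁻¹)⁻¹ * x = (g * c * g⁻¹) * c⁻¹ := by
        have h4 : x * c = (g * x * g⁻¹) * (g * c * g⁻¹) := htx.symm.trans h2
        have h5 : x = (g * x * g⁻¹) * (g * c * g⁻¹) * c⁻¹ := by rw [← h4]; group
        calc (g * x * g⁻¹)⁻¹ * x = (g * x * g⁻¹)⁻¹ * ((g * x * g⁻¹) * (g * c * g⁻¹) * c⁻¹) := by rw [← h5]
          _ = (g * c * g⁻¹) * c⁻¹ := by group
      have h4 : (g * x * g⁻¹)⁻¹ * x = 1 := by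
        apply hT.centerless _ (mul_mem (inv_mem (h1 x hx)) hx)
        intro u hu
        rw [h3]
        have h5 : c⁻¹ * u = u * c⁻¹ := by
          rw [inv_mul_eq_iff_eq_mul, ← mul_assoc, hcT u hu, mul_inv_cancel_right]
        rw [mul_assoc, h5, ← mul_assoc, hc' u hu, mul_assoc]
      exact (inv_mul_eq_one.1 h4)
    · exact Or.inr h1
  have hmv : ∀ g ∈ Ce t, g * x * g⁻¹ ≠ x → ∀ s ∈ T, ∀ u ∈ T, s * (g * u * g⁻¹) = (g * u * g⁻¹) * s := by
    intro g hg h1
    rcases hcc g hg with ⟨h2, -⟩ | h2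
    · exact absurd h2 h1
    · exact h2
  have hfx : ∀ g ∈ Ce t, g * x * g⁻¹ = x → ∀ u ∈ T, g * u * g⁻¹ ∈ T := by
    intro g hg h1
    rcases hcc g hg with ⟨-, h2⟩ | h2
    · exact h2
    · exfalso
      apply hx1
      apply hT.centerless x hx
      intro s hs
      have h3 := h2 s hs x hx
      rw [h1] at h3
      exact h3.symm
  -- conjugates commute
  have hpair1 : ∀ g ∈ Ce t, x * (g * x * g⁻¹) = (g * x * g⁻¹) * x := by
    intro g hg
    rcases hcc g hg with ⟨h2, -⟩ | h2
    · rw [h2]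
    · exact h2 x hx x hx
  have hpair : ∀ g ∈ Ce t, ∀ k ∈ Ce t, (g * x * g⁻¹) * (k * x * k⁻¹) = (k * x * k⁻¹) * (g * x * g⁻¹) := by
    intro g hg k hk
    have h1 := hpair1 (g⁻¹ * k) (mul_mem (inv_mem hg) hk)
    have h2 : g * x * g⁻¹ * (k * x * k⁻¹) = g * (x * (g⁻¹ * k * x * (g⁻¹ * k)⁻¹)) * g⁻¹ := by group
    have h3 : k * x * k⁻¹ * (g * x * g⁻¹) = g * ((g⁻¹ * k * x * (g⁻¹ * k)⁻¹) * x) * g⁻¹ := by group
    rw [h2, h3, h1]
  have hcjC : ∀ g ∈ Ce t, g * x * g⁻¹ ∈ Ce t := fun g hg => mul_mem (mul_mem hg hxC) (inv_mem hg)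
  have hcj2 : ∀ g : G, (g * x * g⁻¹) * (g * x * g⁻¹) = 1 := by
    intro g
    calc (g * x * g⁻¹) * (g * x * g⁻¹) = g * (x * x) * g⁻¹ := by group
      _ = 1 := by rw [hxx]; group
  -- (d) `f x` is a vector
  have hs : (f x).s = 1 := by
    by_contra hs
    let A : Subgroup (W ι) :=
      { carrier := {a | ∀ w : W ι, a * (w * f x * w⁻¹) = (w * f x * w⁻¹) * a}
        mul_mem' := by
          intro a b ha hb w
          rw [mul_assoc, hb w, ← mul_assoc, ha w, mul_assoc]
        one_mem' := by intro w; rw [one_mul, mul_one]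
        inv_mem' := by
          intro a ha w
          rw [inv_mul_eq_iff_eq_mul, ← mul_assoc, ha w, mul_inv_cancel_right] }
    have hA : ∀ y ∈ Winf ι, ∀ a ∈ A, y * a * y⁻¹ ∈ A := by
      intro y _ a ha w
      have h1 := ha (y⁻¹ * w)
      have h2 : y * a * y⁻¹ * (w * f x * w⁻¹) = y * (a * (y⁻¹ * w * f x * (y⁻¹ * w)⁻¹)) * y⁻¹ := by group
      have h3 : w * f x * w⁻¹ * (y * a * y⁻¹) = y * ((y⁻¹ * w * f x * (y⁻¹ * w)⁻¹) * a) * y⁻¹ := by group
      rw [h2, h3, h1]
    have hxA : f x ∈ A := by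
      intro w
      obtain ⟨g, hg, rfl⟩ := h.surj w
      rw [← h.conj hg hxC, ← h.mul _ hxC _ (hcjC g hg), ← h.mul _ (hcjC g hg) _ hxC, hpair1 g hg]
    rcases cases hA (by omega) with h1 | h1
    · exact hs (h1 _ hxA)
    · have h2 : ∀ y ∈ Winf ι, f x * y = y * f x := by
        intro y hy
        have h3 := h1 hy 1
        rw [one_mul, inv_one, mul_one] at h3
        exact h3.symm
      rcases cent_inf (by omega) h2 with h3 | h3
      · exact hs (by rw [h3]; rfl)
      · exact hs (by rw [h3]; rfl)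
  set v := (f x).v with hvdef
  have hfv : f x = E v := eq_E_of_s hs
  have hfg : ∀ g ∈ Ce t, f (g * x * g⁻¹) = E (v ∘ ⇑(f g).s.symm) := by
    intro g hg
    rw [h.conj hg hxC, hfv, conj_E]
  have hv0 : v ≠ 0 := by
    intro h0
    exact hx1 (h.eq_one_of_f hxC hxx (by rw [hfv, h0, E_zero]))
  -- elements of `C(t)` over a permutation
  have hmove : ∀ σ : Equiv.Perm ι, v ∘ ⇑σ.symm ≠ v → ∃ g ∈ Ce t, f g = P σ ∧ g * x * g⁻¹ ≠ x ∧
      ∀ s ∈ T, ∀ u ∈ T, s * (g * u * g⁻¹) = (g * u * g⁻¹) * s := by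
    intro σ hσ
    obtain ⟨g, hg, hgf⟩ := h.surj (P σ)
    have h1 : g * x * g⁻¹ ≠ x := by
      intro h1
      apply hσ
      apply E_inj
      have h2 := hfg g hg
      rw [h1, hfv, hgf] at h2
      exact h2.symm
    exact ⟨g, hg, hgf, h1, hmv g hg h1⟩
  have hfix : ∀ σ : Equiv.Perm ι, v ∘ ⇑σ.symm = v → ∃ g ∈ Ce t, f g = P σ ∧ ∀ u ∈ T, g * u * g⁻¹ ∈ T := by
    intro σ hσ
    obtain ⟨g, hg, hgf⟩ := h.surj (P σ)
    refine ⟨g, hg, hgf, hfx g hg ?_⟩
    apply h.eq_of_f (hcjC g hg) hxC (hcj2 g) hxx (hpair1 g hg).symm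
    rw [hfg g hg, hgf, P_s, hσ, hfv]
  -- `t ∈ T` implies `x = t`
  have htT : t ∈ T → x = t := by
    intro ht
    have h1 : c ∈ T := by
      have h2 : c = x⁻¹ * t := by rw [htx]; group
      rw [h2]
      exact mul_mem (inv_mem hx) ht
    have h2 : c = 1 := hT.centerless c h1 hcT
    rw [htx, h2, mul_one]
  by_cases hv1 : v = 1
  · exact h.eq_of_f hxC h.t_mem hxx h.tt (mem_Ce.1 hxC) (by rw [hfv, hv1, h.f_t])
  exfalso
  obtain ⟨i₀, j₀, hi₀, hj₀⟩ : ∃ i j, v i = 1 ∧ v j = 0 := by
    obtain ⟨i, hi⟩ : ∃ i, v i ≠ 0 := by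
      by_contra hcon
      push Not at hcon
      exact hv0 (funext hcon)
    obtain ⟨j, hj⟩ : ∃ j, v j ≠ 1 := by
      by_contra hcon
      push Not at hcon
      exact hv1 (funext hcon)
    exact ⟨i, j, (zmod2 (v i)).resolve_left hi, (zmod2 (v j)).resolve_right hj⟩
  -- swapping two different coordinates
  have hswap : ∀ (w : ι → ZMod 2) (a b : ι), w a ≠ w b → w ∘ ⇑(Equiv.swap a b).symm = w + (e a + e b) := by
    intro w a b hab
    have hne : a ≠ b := fun h => hab (by rw [h])
    have hz := zmod2_ne hab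
    ext1 l
    show w ((Equiv.swap a b).symm l) = w l + (e a l + e b l)
    rw [Equiv.symm_swap]
    by_cases l1 : l = a
    · rw [l1, Equiv.swap_apply_left, hz, e_self, e_ne hne, add_zero]
    by_cases l2 : l = b
    · rw [l2, Equiv.swap_apply_right, hz, e_self, e_ne hne.symm, zero_add, add_assoc, CharTwo.add_self_eq_zero,
        add_zero]
    · rw [Equiv.swap_apply_of_ne_of_ne l1 l2, e_ne l1, e_ne l2, add_zero, add_zero]
  have hsame : ∀ (w : ι → ZMod 2) (a b : ι), w a = w b → w ∘ ⇑(Equiv.swap a b).symm = w := by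
    intro w a b hab
    ext1 l
    show w ((Equiv.swap a b).symm l) = w l
    rw [Equiv.symm_swap]
    by_cases l1 : l = a
    · rw [l1, Equiv.swap_apply_left, hab]
    by_cases l2 : l = b
    · rw [l2, Equiv.swap_apply_right, hab]
    · rw [Equiv.swap_apply_of_ne_of_ne l1 l2]
  have hee : ∀ a b : ι, a ≠ b → e a + e b ≠ 0 := by
    intro a b hab h0
    have h1 := congrFun h0 a
    have h2 : e a a + e b a = 0 := h1
    rw [e_self, e_ne hab] at h2
    exact absurd h2 (by decide)
  by_cases h4 : (∃ k, k ≠ i₀ ∧ v k = 1) ∧ ∃ l, l ≠ j₀ ∧ v l = 0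
  · -- four terms
    obtain ⟨⟨k, hk, hvk⟩, l, hl, hvl⟩ := h4
    have n1 : v i₀ ≠ v j₀ := by rw [hi₀, hj₀]; decide
    have n2 : v k ≠ v l := by rw [hvk, hvl]; decide
    have hkj : k ≠ j₀ := fun h => absurd (h ▸ hvk : v j₀ = 1) (by rw [hj₀]; decide)
    have hli : l ≠ i₀ := fun h => absurd (h ▸ hvl : v i₀ = 0) (by rw [hi₀]; decide)
    have hij : i₀ ≠ j₀ := fun h => n1 (by rw [h])
    have hkl : k ≠ l := fun h => n2 (by rw [h])
    have s1 : v ∘ ⇑(Equiv.swap i₀ j₀).symm = v + (e i₀ + e j₀) := hswap v _ _ n1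
    have s2 : v ∘ ⇑(Equiv.swap k l).symm = v + (e k + e l) := hswap v _ _ n2
    have s3 : v ∘ ⇑(Equiv.swap i₀ j₀ * Equiv.swap k l).symm = v + (e i₀ + e j₀) + (e k + e l) := by
      rw [← comp_mul, s2, add_comp, s1, add_comp, e_comp, e_comp, Equiv.swap_apply_of_ne_of_ne hk hkj,
        Equiv.swap_apply_of_ne_of_ne hli hl]
    obtain ⟨g1, hg1, hf1, -, c1⟩ := hmove (Equiv.swap i₀ j₀) (by
      rw [s1]; exact fun h => hee _ _ hij (add_eq_left.1 h))
    obtain ⟨g2, hg2, hf2, -, c2⟩ := hmove (Equiv.swap k l) (by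
      rw [s2]; exact fun h => hee _ _ hkl (add_eq_left.1 h))
    obtain ⟨g3, hg3, hf3, -, c3⟩ := hmove (Equiv.swap i₀ j₀ * Equiv.swap k l) (by
      rw [s3, add_assoc]
      intro h
      have h1 := congrFun (add_eq_left.1 h) i₀
      have h2 : e i₀ i₀ + e j₀ i₀ + (e k i₀ + e l i₀) = 0 := h1
      rw [e_self, e_ne hij, e_ne hk.symm, e_ne hli.symm] at h2
      exact absurd h2 (by decide))
    set x1 := g1 * x * g1⁻¹ with hx1d
    set x2 := g2 * x * g2⁻¹ with hx2d
    set x3 := g3 * x * g3⁻¹ with hx3d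
    have f1 : f x1 = E (v + (e i₀ + e j₀)) := by rw [hx1d, hfg g1 hg1, hf1, P_s, s1]
    have f2 : f x2 = E (v + (e k + e l)) := by rw [hx2d, hfg g2 hg2, hf2, P_s, s2]
    have f3 : f x3 = E (v + (e i₀ + e j₀) + (e k + e l)) := by rw [hx3d, hfg g3 hg3, hf3, P_s, s3]
    have hp : f (x1 * x2 * x3) = f x := by
      rw [h.mul _ (mul_mem (hcjC g1 hg1) (hcjC g2 hg2)) _ (hcjC g3 hg3), h.mul _ (hcjC g1 hg1) _ (hcjC g2 hg2),
        f1, f2, f3, E_mul, E_mul, hfv]
      congr 1
      have hz : ∀ a b c : ι → ZMod 2, a + b + (a + c) + (a + b + c) = a := by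
        intro a b c
        have h1 : a + b + (a + c) + (a + b + c) = (a + a) + (b + b) + (c + c) + a := by abel
        rw [h1, add_self' a, add_self' b, add_self' c, zero_add, zero_add, zero_add]
      exact hz _ _ _
    have c12 : x1 * x2 = x2 * x1 := hpair g1 hg1 g2 hg2
    have c13 : x1 * x3 = x3 * x1 := hpair g1 hg1 g3 hg3
    have c23 : x2 * x3 = x3 * x2 := hpair g2 hg2 g3 hg3
    have hxq : x1 * x2 * x3 = x := by
      apply h.eq_of_f (mul_mem (mul_mem (hcjC g1 hg1) (hcjC g2 hg2)) (hcjC g3 hg3)) hxC ?_ hxx ?_ hp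
      · calc x1 * x2 * x3 * (x1 * x2 * x3) = x1 * x2 * (x3 * x1) * x2 * x3 := by group
          _ = x1 * x2 * (x1 * x3) * x2 * x3 := by rw [c13]
          _ = x1 * (x2 * x1) * (x3 * x2) * x3 := by group
          _ = x1 * (x1 * x2) * (x2 * x3) * x3 := by rw [c12, c23]
          _ = (x1 * x1) * (x2 * x2) * (x3 * x3) := by group
          _ = 1 := by rw [hcj2, hcj2, hcj2, one_mul, one_mul]
      · have d1 := hpair1 g1 hg1
        have d2 := hpair1 g2 hg2
        have d3 := hpair1 g3 hg3
        calc x1 * x2 * x3 * x = x1 * x2 * (x * x3) := by rw [mul_assoc, d3]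
          _ = x1 * (x2 * x) * x3 := by group
          _ = x1 * (x * x2) * x3 := by rw [d2]
          _ = (x1 * x) * x2 * x3 := by group
          _ = (x * x1) * x2 * x3 := by rw [d1]
          _ = x * (x1 * x2 * x3) := by group
    apply hx1
    apply hT.centerless x hx
    intro s hs
    have e1 := c1 s hs x hx
    have e2 := c2 s hs x hx
    have e3 := c3 s hs x hx
    rw [← hxq]
    calc x1 * x2 * x3 * s = x1 * x2 * (s * x3) := by rw [mul_assoc, e3]
      _ = x1 * (x2 * s) * x3 := by group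
      _ = x1 * (s * x2) * x3 := by rw [e2]
      _ = (x1 * s) * x2 * x3 := by group
      _ = (s * x1) * x2 * x3 := by rw [e1]
      _ = s * (x1 * x2 * x3) := by group
  · -- one exceptional coordinate
    obtain ⟨i, hi⟩ : ∃ i, ∀ j, j ≠ i → v j ≠ v i := by
      rw [not_and_or] at h4
      rcases h4 with h4 | h4
      · push Not at h4
        exact ⟨i₀, fun j hj => by rw [hi₀]; exact h4 j hj⟩
      · push Not at h4
        exact ⟨j₀, fun j hj => by rw [hj₀]; exact h4 j hj⟩
    have hconst : ∀ j k, j ≠ i → k ≠ i → v j = v k := by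
      intro j k hj hk
      rw [zmod2_ne (Ne.symm (hi j hj)), zmod2_ne (Ne.symm (hi k hk))]
    -- `S ∩ T ≤ {1, x}`
    have hU : ∀ u ∈ T, u ∈ (S : Subgroup G) → u = 1 ∨ u = x := by
      intro u hu huS
      have huC := hS huS
      have hcomm : ∀ g ∈ Ce t, u * (g * x * g⁻¹) = (g * x * g⁻¹) * u := by
        intro g hg
        rcases hcc g hg with ⟨h1, -⟩ | h1
        · rw [h1]
          rcases hcc u huC with ⟨h2, -⟩ | h2
          · exact mul_inv_eq_iff_eq_mul.1 h2
          · exfalso
            apply hx1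
            apply hT.centerless x hx
            intro s hs'
            have h3 := h2 (u * s * u⁻¹) (mul_mem (mul_mem hu hs') (inv_mem hu)) x hx
            have h4 : x * s = u⁻¹ * (u * x * u⁻¹ * (u * s * u⁻¹)) * u := by group
            have h5 : s * x = u⁻¹ * (u * s * u⁻¹ * (u * x * u⁻¹)) * u := by group
            rw [h4, h5, h3]
        · exact h1 u hu x hx
      have hus : (f u).s = 1 := by
        ext1 j
        by_contra hne
        have hne' : (f u).s j ≠ j := hne
        obtain ⟨g, hg, hgf⟩ := h.surj (P (Equiv.swap i j))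
        have h1 := hcomm g hg
        have h2 : f u * f (g * x * g⁻¹) * (f u)⁻¹ = f (g * x * g⁻¹) := by
          rw [← h.mul _ huC _ (hcjC g hg), h1, h.mul _ (hcjC g hg) _ huC, mul_inv_cancel_right]
        rw [hfg g hg, hgf, P_s, conj_E] at h2
        have h3 := congrFun (E_inj h2) ((f u).s j)
        have h4 : v ((Equiv.swap i j).symm ((f u).s.symm ((f u).s j))) = v ((Equiv.swap i j).symm ((f u).s j)) := h3
        rw [Equiv.symm_apply_apply, Equiv.symm_swap, Equiv.swap_apply_right] at h4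
        have h5 : (Equiv.swap i j) ((f u).s j) ≠ i := by
          intro h6
          have h7 := congrArg (Equiv.swap i j) h6
          rw [Equiv.swap_apply_self, Equiv.swap_apply_left] at h7
          exact hne' h7
        exact hi _ h5 h4.symm
      set w := (f u).v with hw
      have hfu : f u = E w := eq_E_of_s hus
      have huu : u * u = 1 := by
        apply h.eq_one_of_two (mul_mem huC huC) S.2 (mul_mem huS huS)
        rw [h.mul _ huC _ huC, hfu, E_sq]
      -- `w` is constant outside `i`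
      have hwc : ∀ j k, j ≠ i → k ≠ i → w j = w k := by
        intro j k hj hk
        by_contra hjk
        have hne : j ≠ k := fun h => hjk (by rw [h])
        obtain ⟨g, hg, hgf, hgT⟩ := hfix (Equiv.swap j k) (hsame v j k (hconst j k hj hk))
        have hu'T : g * u * g⁻¹ ∈ T := hgT u hu
        have hu'C : g * u * g⁻¹ ∈ Ce t := mul_mem (mul_mem hg huC) (inv_mem hg)
        have hy0 : f (u * (g * u * g⁻¹)) = E (e j + e k) := by
          rw [h.mul _ huC _ hu'C, h.conj hg huC, hfu, conj_E, hgf, P_s, hswap w j k hjk, E_mul, ← add_assoc,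
            add_self', zero_add]
        set y0 := u * (g * u * g⁻¹) with hy0d
        have hy0T : y0 ∈ T := mul_mem hu hu'T
        have hy0C : y0 ∈ Ce t := mul_mem huC hu'C
        have hy00 : f (y0 * y0) = 1 := by rw [h.mul _ hy0C _ hy0C, hy0, E_sq]
        have hy3 := h.ker _ (mul_mem hy0C hy0C) hy00
        set y := y0 * y0 * y0 with hyd
        have hyT : y ∈ T := mul_mem (mul_mem hy0T hy0T) hy0T
        have hyC : y ∈ Ce t := mul_mem (mul_mem hy0C hy0C) hy0C
        have hyy : y * y = 1 := by rw [hyd, ← hy3]; group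
        have hfy : f y = E (e j + e k) := by
          rw [hyd, h.mul _ (mul_mem hy0C hy0C) _ hy0C, hy00, one_mul, hy0]
        obtain ⟨l, hl⟩ : ∃ l, l ∉ ({i, j, k} : Finset ι) := by
          by_contra hcon
          push Not at hcon
          have h2 := Finset.card_le_card (fun k _ => hcon k : (Finset.univ : Finset ι) ⊆ {i, j, k})
          have h3 : ({i, j, k} : Finset ι).card ≤ 3 := Finset.card_le_three
          rw [Finset.card_univ] at h2
          omega
        simp only [Finset.mem_insert, Finset.mem_singleton, not_or] at hl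
        obtain ⟨g', hg', hgf', -, c'⟩ := hmove (Equiv.swap i l) (by
          rw [hswap v i l (Ne.symm (hi l hl.1))]
          exact fun h => hee _ _ (Ne.symm hl.1) (add_eq_left.1 h))
        have hfy' : f (g' * y * g'⁻¹) = E (e j + e k) := by
          rw [h.conj hg' hyC, hfy, conj_E, hgf', P_s, add_comp, e_comp, e_comp,
            Equiv.swap_apply_of_ne_of_ne hj (Ne.symm hl.2.1), Equiv.swap_apply_of_ne_of_ne hk (Ne.symm hl.2.2)]
        have hyeq : y = g' * y * g'⁻¹ := by
          apply h.eq_of_f hyC (mul_mem (mul_mem hg' hyC) (inv_mem hg')) hyy ?_ (c' y hyT y hyT) (hfy.trans hfy'.symm)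
          calc g' * y * g'⁻¹ * (g' * y * g'⁻¹) = g' * (y * y) * g'⁻¹ := by group
            _ = 1 := by rw [hyy]; group
        have hy1 : y = 1 := by
          apply hT.centerless y hyT
          intro s hs'
          have h5 := c' s hs' y hyT
          rw [← hyeq] at h5
          exact h5.symm
        rw [hy1, h.one, ← E_zero] at hfy
        exact hee j k hne (E_inj hfy).symm
      -- another coordinate
      obtain ⟨j, hj⟩ : ∃ j, j ≠ i := by
        by_contra hcon
        push Not at hcon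
        have h2 := Finset.card_le_card (fun k _ => Finset.mem_singleton.2 (hcon k) : (Finset.univ : Finset ι) ⊆ {i})
        rw [Finset.card_univ, Finset.card_singleton] at h2
        omega
      have hux : u * x = x * u := by
        have h1 := hcomm 1 (one_mem _)
        simpa using h1
      have hno : t ∉ T := by
        intro h1
        have h2 := htT h1
        apply hv1
        apply E_inj
        rw [← hfv, h2, h.f_t]
      by_cases hwi : w i = w j
      · have hwcc : ∀ k, w k = w j := by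
          intro k
          by_cases hk : k = i
          · rw [hk, hwi]
          · exact hwc k j hk hj
        rcases zmod2 (w j) with h0 | h0
        · left
          apply h.eq_one_of_f huC huu
          rw [hfu, ← E_zero]
          congr 1
          ext1 k
          rw [hwcc k, h0]; rfl
        · exfalso
          apply hno
          have h1 : u = t := by
            apply h.eq_of_f huC h.t_mem huu h.tt (mem_Ce.1 huC)
            rw [hfu, h.f_t]
            congr 1
            ext1 k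
            rw [hwcc k, h0]; rfl
          rw [← h1]; exact hu
      · have hwz := zmod2_ne hwi
        have hvz := zmod2_ne (Ne.symm (hi j hj))
        by_cases hwv : w i = v i
        · right
          apply h.eq_of_f huC hxC huu hxx hux
          rw [hfu, hfv]
          congr 1
          ext1 k
          by_cases hk : k = i
          · rw [hk, hwv]
          · rw [hwc k j hk hj, hconst k j hk hj, hwz, hvz, hwv]
        · exfalso
          apply hno
          have hwv' := zmod2_ne (Ne.symm hwv)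
          have hxt : x * t = t * x := mem_Ce.1 hxC
          have h1 : u = x * t := by
            apply h.eq_of_f huC (mul_mem hxC h.t_mem) huu
            · calc x * t * (x * t) = x * (t * x) * t := by group
                _ = x * (x * t) * t := by rw [hxt]
                _ = (x * x) * (t * t) := by group
                _ = 1 := by rw [hxx, h.tt, one_mul]
            · rw [← mul_assoc, hux, mul_assoc, mem_Ce.1 huC, ← mul_assoc]
            · rw [hfu, h.mul _ hxC _ h.t_mem, hfv, h.f_t, E_mul]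
              congr 1
              ext1 k
              show w k = v k + 1
              by_cases hk : k = i
              · rw [hk, hwv']
              · rw [hwc k j hk hj, hconst k j hk hj, hwz, hvz, hwv']
          have h2 : t = x * u := by
            rw [h1, ← mul_assoc, hxx, one_mul]
          rw [h2]
          exact mul_mem hx hu
    -- the Sylow 2-subgroup of `T`
    have hTN : (T.subgroupOf N).Normal := by
      refine ⟨fun y hy g => ?_⟩
      rw [mem_subgroupOf] at hy ⊢
      exact hT.norm g g.2 _ hy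
    have hpf : Fact (Nat.Prime 2) := ⟨Nat.prime_two⟩
    -- `S ∩ N` is a Sylow subgroup of `N`
    have hidx := TwoFusion.TransferIndex.not_dvd_relIndex_inf S N
    have hSN : IsPGroup 2 ((N ⊓ (S : Subgroup G)).subgroupOf N) := by
      have h1 : IsPGroup 2 (N ⊓ (S : Subgroup G) : Subgroup G) := S.2.to_le inf_le_right
      exact h1.of_equiv (Subgroup.subgroupOfEquivOfLe inf_le_left).symm
    let SN : Sylow 2 N := hSN.toSylow hidx
    have hidx2 := TwoFusion.TransferIndex.not_dvd_relIndex_inf SN (T.subgroupOf N)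
    -- the order of `T`
    have hR : ((T.subgroupOf N) ⊓ (SN : Subgroup N)).relIndex (T.subgroupOf N) *
        Nat.card ↥((T.subgroupOf N) ⊓ (SN : Subgroup N)) = Nat.card T := by
      have h1 := Subgroup.relIndex_mul_relIndex (⊥ : Subgroup N) ((T.subgroupOf N) ⊓ (SN : Subgroup N))
        (T.subgroupOf N) bot_le inf_le_left
      rw [relIndex_bot_left, relIndex_bot_left] at h1
      rw [mul_comm, h1]
      exact Nat.card_congr (Subgroup.subgroupOfEquivOfLe hT.le).toEquiv
    have hRcard : Nat.card ↥((T.subgroupOf N) ⊓ (SN : Subgroup N)) ≤ 2 := by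
      have hsub : ((T.subgroupOf N) ⊓ (SN : Subgroup N) : Set N) ⊆ {1, ⟨x, hT.le hx⟩} := by
        rintro ⟨y, hyN⟩ ⟨hy1, hy2⟩
        have hyT : y ∈ T := mem_subgroupOf.1 hy1
        have hyS : y ∈ (S : Subgroup G) := by
          have h1 : (⟨y, hyN⟩ : N) ∈ (N ⊓ (S : Subgroup G)).subgroupOf N := hy2
          exact (mem_inf.1 (mem_subgroupOf.1 h1)).2
        rcases hU y hyT hyS with h1 | h1
        · left; exact Subtype.ext h1
        · right; exact Subtype.ext h1
      have h1 := Set.ncard_le_ncard hsub (Set.toFinite _)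
      have h2 : ({1, ⟨x, hT.le hx⟩} : Set N).ncard ≤ 2 := Set.ncard_insert_le _ _ |>.trans (by
        rw [Set.ncard_singleton])
      have h3 : Nat.card ↥((T.subgroupOf N) ⊓ (SN : Subgroup N)) =
          ((T.subgroupOf N) ⊓ (SN : Subgroup N) : Set N).ncard := rfl
      omega
    have hTodd : ∃ m, Odd m ∧ Nat.card T = 2 * m := by
      have h2T : 2 ∣ Nat.card T := by
        have h1 : orderOf (⟨x, hx⟩ : T) = 2 := orderOf_eq_prime (Subtype.ext (by
          show x ^ 2 = 1
          rw [pow_two, hxx])) (fun h => hx1 (congrArg Subtype.val h))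
        rw [← h1]
        exact orderOf_dvd_natCard _
      have hpos : 0 < Nat.card ↥((T.subgroupOf N) ⊓ (SN : Subgroup N)) := Nat.card_pos
      have hodd : Odd (((T.subgroupOf N) ⊓ (SN : Subgroup N)).relIndex (T.subgroupOf N)) := by
        rw [← Nat.not_even_iff_odd, even_iff_two_dvd]
        exact hidx2
      have hc12 : Nat.card ↥((T.subgroupOf N) ⊓ (SN : Subgroup N)) = 1 ∨
          Nat.card ↥((T.subgroupOf N) ⊓ (SN : Subgroup N)) = 2 := by omega
      rcases hc12 with h1 | h1
      · exfalso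
        rw [h1, mul_one] at hR
        rw [← hR] at h2T
        exact hidx2 h2T
      · refine ⟨_, hodd, ?_⟩
        rw [← hR, h1, mul_comm]
    obtain ⟨m, hm, hTm⟩ := hTodd
    obtain ⟨φ, hφ⟩ := Classification.TransferSign.exists_hom_neg_one_of_index (⊥ : Subgroup T) m hm
      (by rw [Subgroup.index_bot]; exact hTm) ⟨x, hx⟩ (orderOf_eq_prime (Subtype.ext (by
          show x ^ 2 = 1
          rw [pow_two, hxx])) (fun h => hx1 (congrArg Subtype.val h))) (by
        intro g hg
        rw [mem_bot] at hg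
        apply hx1
        have h2 : (⟨x, hx⟩ : T) = g⁻¹ * (g * ⟨x, hx⟩ * g⁻¹) * g := by group
        rw [hg] at h2
        have h3 : (⟨x, hx⟩ : T) = 1 := by rw [h2]; group
        exact congrArg Subtype.val h3)
    -- the kernel is trivial
    have hker : φ.ker.map T.subtype = ⊥ := by
      rcases hT.simple (φ.ker.map T.subtype) (map_subtype_le _) (by
        rintro u hu _ ⟨k, hk, rfl⟩
        exact ⟨⟨u, hu⟩ * k * ⟨u, hu⟩⁻¹, φ.normal_ker.conj_mem k hk _, rfl⟩) with h1 | h1
      · exact h1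
      · exfalso
        have hx' := hx
        rw [← h1] at hx'
        obtain ⟨k, hk, hkx⟩ := hx'
        have h3 : φ k = -1 := by
          rw [← hφ]
          exact congrArg φ (Subtype.ext hkx)
        have h4 : φ k = 1 := hk
        rw [h4] at h3
        exact absurd h3 (by decide)
    apply hx1
    apply hT.centerless x hx
    intro u hu
    have h1 : (⟨x, hx⟩ : T) * ⟨u, hu⟩ * (⟨u, hu⟩ * ⟨x, hx⟩)⁻¹ ∈ φ.ker := by
      rw [MonoidHom.mem_ker, map_mul, map_inv, map_mul, map_mul, mul_comm (φ ⟨x, hx⟩), mul_inv_cancel]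
    have h2 : x * u * (u * x)⁻¹ ∈ φ.ker.map T.subtype := ⟨_, h1, rfl⟩
    rw [hker, mem_bot] at h2
    exact mul_inv_eq_one.1 h2

/-- **The minimal normal subgroup is simple and contains `t`.** -/
theorem simple (hO : Cfsg.pPrimeCore 2 G = ⊥) (h2 : ∀ φ : G →* ℤˣ, ∀ x, φ x = 1) :
    ∃ N : Subgroup G, N.Normal ∧ IsSimpleGroup N ∧ (¬ ∀ a b : N, a * b = b * a) ∧ t ∈ N ∧
      centralizer (N : Set G) = ⊥ := by
  have hnt : Nontrivial G := ⟨t, 1, h.ne⟩
  obtain ⟨N, hN, hN0, hmin⟩ := exists_min_normal (G := G)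
  have htN : t ∈ N := h.mem_of_normal S hS hO hN hN0
  have hna : ¬ ∀ x ∈ N, ∀ y ∈ N, Commute x y := by
    intro hab
    let M : Subgroup G :=
      { carrier := {x | x ∈ N ∧ x * x = 1}
        mul_mem' := by
          rintro x y ⟨hx1, hx2⟩ ⟨hy1, hy2⟩
          refine ⟨mul_mem hx1 hy1, ?_⟩
          have := (hab x hx1 y hy1).eq
          calc x * y * (x * y) = x * (y * x) * y := by group
            _ = x * (x * y) * y := by rw [this]
            _ = (x * x) * (y * y) := by group
            _ = 1 := by rw [hx2, hy2, one_mul]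
        one_mem' := ⟨one_mem _, one_mul _⟩
        inv_mem' := by
          rintro x ⟨hx1, hx2⟩
          refine ⟨inv_mem hx1, ?_⟩
          rw [← mul_inv_rev, hx2, inv_one] }
    have hM : M.Normal := by
      refine ⟨?_⟩
      rintro x ⟨hx1, hx2⟩ g
      refine ⟨hN.conj_mem x hx1 g, ?_⟩
      calc g * x * g⁻¹ * (g * x * g⁻¹) = g * (x * x) * g⁻¹ := by group
        _ = 1 := by rw [hx2]; group
    have hMp : IsPGroup 2 M := by
      rintro ⟨x, hx1, hx2⟩
      refine ⟨1, Subtype.ext ?_⟩
      show x ^ 2 ^ 1 = 1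
      rw [pow_one, pow_two]
      exact hx2
    refine h.not_two S hS h2 hM hMp ?_
    intro h1
    have h3 : t ∈ M := ⟨htN, h.tt⟩
    rw [h1, mem_bot] at h3
    exact h.ne h3
  obtain ⟨T, hF⟩ := exists_factor N hmin hna
  have hT : Fac N T := ⟨hF.le, hF.ne_bot, hF.simple, hF.centerless, hF.norm⟩
  obtain ⟨x, hx, c, hcN, hcT, htx⟩ := hF.split t htN
  have hxt := h.part_eq S hS hN hF hx hcN hcT htx
  have htT : t ∈ T := by rw [← hxt]; exact hx
  have hTn : T.Normal := by
    refine ⟨fun u hu g => ?_⟩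
    rcases hF.conj g with h1 | h1
    · exact h1 u hu
    · exfalso
      refine h.not_comm hN (hT.conj hN g) ?_
      rintro _ ⟨y, hy, rfl⟩
      exact (h1 t htT y hy).symm
  have hNT : N = T := by
    rcases hmin T hTn hF.le with h1 | h1
    · exact absurd h1 hF.ne_bot
    · exact h1.symm
  subst hNT
  refine ⟨N, hN, ?_, ?_, htN, ?_⟩
  · have hnN : Nontrivial N := (Subgroup.nontrivial_iff_ne_bot N).2 hN0
    refine ⟨fun H hH => ?_⟩
    rcases hT.simple (H.map N.subtype) (map_subtype_le _) (by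
        rintro u hu _ ⟨k, hk, rfl⟩
        exact ⟨⟨u, hu⟩ * k * ⟨u, hu⟩⁻¹, hH.conj_mem k hk _, rfl⟩) with h1 | h1
    · left
      exact (Subgroup.map_eq_bot_iff_of_injective _ N.subtype_injective).1 h1
    · right
      rw [eq_top_iff]
      intro y _
      have h3 : (y : G) ∈ H.map N.subtype := by rw [h1]; exact y.2
      obtain ⟨k, hk, hky⟩ := h3
      have : k = y := Subtype.ext hky
      rw [← this]; exact hk
  · intro hab
    exact hna fun x hx y hy => congrArg Subtype.val (hab ⟨x, hx⟩ ⟨y, hy⟩)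
  · by_contra hne
    have hCn : (centralizer (N : Set G)).Normal := inferInstance
    have h1 := h.mem_of_normal S hS hO hCn hne
    apply h.ne
    apply hT.centerless t htN
    intro u hu
    exact (mem_centralizer_iff.1 h1 u hu).symm

end Sit

end Cfsg.Agent.H217.Red
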