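import Cfsg.Agent.H217.EvenNum

/-!
# The sporadic groups with the profile: arithmetic (helper217, S3191)
-/

set_option autoImplicit false

namespace Cfsg.Agent.H217.Ev

open Cfsg Cfsg.Agent.OrdDiv Cfsg.Agent.H217.Pf Subgroup

universe u

/-- the survivors -/
def survS (n j : ℕ) (g : Grp) : Bool :=
  decide ((n, j, g) ∈ [(3, 0, Grp.m24), (3, 0, Grp.co3), (3, 0, Grp.he), (4, 0, Grp.th), (5, 0, Grp.co2),
    (5, 0, Grp.fi23), (12, 0, Grp.m), (3, 2, Grp.ly), (4, 2, Grp.suz)])

theorem spor_chk : ((List.range 13).all fun n => Nat.blt n 3 || [0, 2].all fun j => spor.all fun x =>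
    (!(Nat.beq ((x.2 * 2 ^ j) % ww n) 0)) || (!(Nat.beq ((x.2 * 2 ^ j / ww n) % 2) 1)) || survS n j x.1) = true := by
  decide +kernel

theorem spor_two : (spor.all fun x => !(Nat.beq (x.2 % 2 ^ 47) 0)) = true := by decide +kernel

/-- the names of the sporadic groups and of the Tits group -/
theorem exists_spor {S : Type u} [Group S] (h : Lie.IsoTits S ∨ IsSporadicGroup S) : ∃ x ∈ spor, Real x.1 S := by
  have key : ∀ (g : Grp) (o : ℕ), (g, o) ∈ spor → Real g S → ∃ x ∈ spor, Real x.1 S := fun g o hg hr =>
    ⟨(g, o), hg, hr⟩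
  rcases h with h | h
  · exact key .tits 17971200 (by decide) h
  · rcases h with h | h | h | h | h | h | h | h | h | h | h | h | h | h | h | h | h | h | h | h | h |
      h | h | h | h | h
    · exact key .m11 7920 (by decide) h
    · exact key .m12 95040 (by decide) h
    · exact key .m22 443520 (by decide) h
    · exact key .m23 10200960 (by decide) h
    · exact key .m24 244823040 (by decide) h
    · exact key .j1 175560 (by decide) h
    · exact key .j2 604800 (by decide) h
    · exact key .j3 50232960 (by decide) h
    · exact key .j4 86775571046077562880 (by decide) h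
    · exact key .co1 4157776806543360000 (by decide) h
    · exact key .co2 42305421312000 (by decide) h
    · exact key .co3 495766656000 (by decide) h
    · exact key .mcl 898128000 (by decide) h
    · exact key .hs 44352000 (by decide) h
    · exact key .suz 448345497600 (by decide) h
    · exact key .he 4030387200 (by decide) h
    · exact key .ru 145926144000 (by decide) h
    · exact key .on 460815505920 (by decide) h
    · exact key .ly 51765179004000000 (by decide) h
    · exact key .fi22 64561751654400 (by decide) h
    · exact key .fi23 4089470473293004800 (by decide) h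
    · exact key .fi24 1255205709190661721292800 (by decide) h
    · exact key .hn 273030912000000 (by decide) h
    · exact key .th 90745943887872000 (by decide) h
    · exact key .b 4154781481226426191177580544000000 (by decide) h
    · exact key .m 808017424794512875886459904961710757005754368000000000 (by decide) h

/-- **The sporadic survivors.** -/
theorem survivorsS (T : OrderTable.{u}) {n j : ℕ} {N : Type u} [Group N] [Finite N] {t : N} (P : Prof n j N t)
    (hn : 3 ≤ n) (h : Lie.IsoTits N ∨ IsSporadicGroup N) : ∃ g, survS n j g = true ∧ Real g N := by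
  obtain ⟨x, hx, hr⟩ := exists_spor h
  have hcard := T.spor N x hx hr
  obtain ⟨b, hb, hc⟩ := card_eq P
  rw [hcard] at hc
  have hn12 : n ≤ 12 := by
    by_contra hlt
    push Not at hlt
    have h1 : 2 ^ 26 * 2 ^ 23 ∣ ww n := by
      unfold ww
      refine Nat.mul_dvd_mul (pow_dvd_pow 2 (by omega)) ?_
      exact (show 2 ^ 23 ∣ (26 : ℕ).factorial by decide +kernel).trans (Nat.factorial_dvd_factorial (by omega))
    have h2 : 2 ^ 47 * 2 ^ 2 ∣ x.2 * 2 ^ j := by
      rw [hc]
      have : (2 : ℕ) ^ 47 * 2 ^ 2 = 2 ^ 26 * 2 ^ 23 := by norm_num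
      rw [this]
      exact h1.mul_right b
    have h3 : 2 ^ 47 ∣ x.2 := by
      rcases P.hj with hj | hj
      · rw [hj, pow_zero, mul_one] at h2
        exact (Dvd.intro _ rfl).trans h2
      · rw [hj] at h2
        exact Nat.dvd_of_mul_dvd_mul_right (by norm_num) h2
    have h4 := spor_two
    rw [List.all_eq_true] at h4
    have h5 := h4 x hx
    rw [Bool.not_eq_true'] at h5
    have h6 : Nat.beq (x.2 % 2 ^ 47) 0 = true := by
      rw [Nat.beq_eq]
      exact Nat.mod_eq_zero_of_dvd h3
    rw [h6] at h5
    exact absurd h5 (by decide)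
  have h1 := spor_chk
  rw [List.all_eq_true] at h1
  have h2 := h1 n (List.mem_range.2 (by omega))
  rw [Bool.or_eq_true, Nat.blt_eq] at h2
  have h3 := h2.resolve_left (by omega)
  rw [List.all_eq_true] at h3
  have h4 := h3 j (by rcases P.hj with hj | hj <;> rw [hj] <;> decide)
  rw [List.all_eq_true] at h4
  have h5 := h4 x hx
  rw [Bool.or_eq_true, Bool.or_eq_true, Bool.not_eq_true', Bool.not_eq_true'] at h5
  have hwpos : 0 < ww n := by unfold ww; positivity
  rcases h5 with (h5 | h5) | h5
  · exfalso
    have h6 : Nat.beq ((x.2 * 2 ^ j) % ww n) 0 = true := by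
      rw [Nat.beq_eq, hc]
      exact Nat.mul_mod_right _ _
    rw [h6] at h5
    exact absurd h5 (by decide)
  · exfalso
    have h6 : Nat.beq ((x.2 * 2 ^ j / ww n) % 2) 1 = true := by
      rw [Nat.beq_eq, hc, Nat.mul_div_cancel_left _ hwpos]
      exact Nat.odd_iff.1 hb
    rw [h6] at h5
    exact absurd h5 (by decide)
  · exact ⟨x.1, h5, hr⟩

end Cfsg.Agent.H217.Ev
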